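import Cfsg.Agent.Lib.W8.BasB

/-! `W` is the Coxeter group of type `E₈`. -/

set_option autoImplicit false

namespace Cfsg.Lib.W8

open Matrix
open scoped Pointwise symmDiff

/-! Proof. `ch_rho` is the Weyl vector. `ChR t g γ` says that `g` is reached from `1` by a path of simple reflections
lowering `ch_ht`, and `γ` is the product of the corresponding `t i`. Every `g` is reached (a dominant vector of the
orbit of `ch_rho` is `ch_rho`, whose stabiliser is trivial), and `γ` is unique by induction on the height (two last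
steps `i ≠ j` close up to a square or a hexagon). -/

/-- the Weyl vector -/
def ch_rho : V := ![-5, -6, -7, -8, -9, -10, -11, 12]

/-- the Gram matrix of the simple roots -/
def ch_G (i j : Fin 8) : ℚ := if cox i j = 1 then 2 else if cox i j = 3 then -1 else 0

theorem ch_gram : ∀ i j : Fin 8, al i ⬝ᵥ al j = ch_G i j := by decide +kernel

theorem ch_rho_al : ∀ i : Fin 8, ch_rho ⬝ᵥ al i = 1 := by decide +kernel

theorem ch_cox : ∀ i j : Fin 8, cox i j = cox j i ∧ (i = j → cox i j = 1) ∧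
    (i ≠ j → (cox i j = 2 ∧ ch_G i j = 0 ∧ ch_G j i = 0) ∨ (cox i j = 3 ∧ ch_G i j = -1 ∧ ch_G j i = -1)) := by
  decide +kernel

theorem ch_G_self : ∀ i : Fin 8, ch_G i i = 2 := by decide +kernel

/-- what is needed about the height of a root -/
def ChOK (x : V) : Prop :=
  (1 ≤ ch_rho ⬝ᵥ x ∨ ch_rho ⬝ᵥ x ≤ -1) ∧ (ch_rho ⬝ᵥ x = 1 → ∃ i, x = al i)

instance : DecidablePred ChOK := fun x => by unfold ChOK; infer_instance

def ch_sg (b : Bool) : ℚ := if b then 1 else -1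
def ch_hf (b : Bool) : ℚ := if b then 1 / 2 else -1 / 2

theorem ch_ok1 : ∀ i j : Fin 8, i ≠ j → ∀ a b : Bool,
    ChOK (fun k => if k = i then ch_sg a else if k = j then ch_sg b else 0) := by decide +kernel

theorem ch_ok2 : ∀ b0 b1 b2 b3 b4 b5 b6 b7 : Bool,
    0 < ∏ i, (![ch_hf b0, ch_hf b1, ch_hf b2, ch_hf b3, ch_hf b4, ch_hf b5, ch_hf b6, ch_hf b7] : V) i →
    ChOK ![ch_hf b0, ch_hf b1, ch_hf b2, ch_hf b3, ch_hf b4, ch_hf b5, ch_hf b6, ch_hf b7] := by decide +kernel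

theorem ch_ok {x : V} (hx : IsRoot x) : ChOK x := by
  rcases hx with ⟨i, j, hij, hi, hj, hk⟩ | ⟨h, hp⟩
  · have ha : ∃ a : Bool, x i = ch_sg a := by
      rcases hi with h | h
      · exact ⟨true, h⟩
      · exact ⟨false, h⟩
    have hb : ∃ a : Bool, x j = ch_sg a := by
      rcases hj with h | h
      · exact ⟨true, h⟩
      · exact ⟨false, h⟩
    obtain ⟨a, ha⟩ := ha
    obtain ⟨b, hb⟩ := hb
    have e : x = fun k => if k = i then ch_sg a else if k = j then ch_sg b else 0 := by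
      funext k
      by_cases h1 : k = i
      · rw [if_pos h1, h1, ha]
      · rw [if_neg h1]
        by_cases h2 : k = j
        · rw [if_pos h2, h2, hb]
        · rw [if_neg h2, hk k h1 h2]
    rw [e]; exact ch_ok1 i j hij a b
  · have hb : ∀ i, ∃ a : Bool, x i = ch_hf a := by
      intro i
      rcases h i with h | h
      · exact ⟨true, h⟩
      · exact ⟨false, h⟩
    choose s hs using hb
    have e : x = ![ch_hf (s 0), ch_hf (s 1), ch_hf (s 2), ch_hf (s 3), ch_hf (s 4), ch_hf (s 5), ch_hf (s 6),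
        ch_hf (s 7)] := by
      funext k
      fin_cases k <;> exact hs _
    rw [e] at hp ⊢
    exact ch_ok2 _ _ _ _ _ _ _ _ hp

set_option synthInstance.maxSize 100000 in
set_option synthInstance.maxHeartbeats 400000 in
theorem ch_diag : ∀ a4 a3 : Fin 8, ch_G a4 a3 = -1 → ∀ a5 : Fin 8, ch_G a4 a5 = -1 → ch_G a3 a5 = 0 →
    ∀ a7 : Fin 8, ch_G a4 a7 = -1 → ch_G a3 a7 = 0 → ch_G a5 a7 = 0 →
    ∀ a2 : Fin 8, ch_G a3 a2 = -1 → ch_G a4 a2 = 0 → ∀ a6 : Fin 8, ch_G a5 a6 = -1 → ch_G a4 a6 = 0 →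
    ∀ a1 : Fin 8, ch_G a2 a1 = -1 → ch_G a3 a1 = 0 → ∀ a0 : Fin 8, ch_G a1 a0 = -1 → ch_G a2 a0 = 0 →
    a0 = 0 ∧ a1 = 1 ∧ a2 = 2 ∧ a3 = 3 ∧ a4 = 4 ∧ a5 = 5 ∧ a6 = 6 ∧ a7 = 7 := by decide +kernel

theorem ch_rho_dot (u : V) : ch_rho ⬝ᵥ u = 29 * (al 0 ⬝ᵥ u) + 57 * (al 1 ⬝ᵥ u) + 84 * (al 2 ⬝ᵥ u) + 110 * (al 3 ⬝ᵥ u) +
    135 * (al 4 ⬝ᵥ u) + 91 * (al 5 ⬝ᵥ u) + 46 * (al 6 ⬝ᵥ u) + 68 * (al 7 ⬝ᵥ u) := by
  simp [ch_rho, al, dotProduct, Fin.sum_univ_eight]
  ring

/-- inner products of the image of the Weyl vector with the simple roots -/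
noncomputable def ch_pr (g : W) (i : Fin 8) : ℚ := al i ⬝ᵥ (mat g *ᵥ ch_rho)

/-- the height -/
noncomputable def ch_ht (g : W) : ℚ := ch_rho ⬝ᵥ (mat g *ᵥ ch_rho)

theorem ch_pr_eq (g : W) (i : Fin 8) : ch_pr g i = ch_rho ⬝ᵥ (mat g⁻¹ *ᵥ al i) := by
  rw [ch_pr, ← dot_mat g ch_rho, mulVec_mulVec, ← mat_mul, mul_inv_cancel, mat_one, one_mulVec, dotProduct_comm]

theorem ch_pr_cases (g : W) (i : Fin 8) : 1 ≤ ch_pr g i ∨ ch_pr g i ≤ -1 := by
  rw [ch_pr_eq]; exact (ch_ok (root_mat _ (al_root i))).1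

theorem ch_sr_vec (g : W) (i : Fin 8) :
    mat (sr i * g) *ᵥ ch_rho = mat g *ᵥ ch_rho - ch_pr g i • al i := by
  rw [mat_mul, ← mulVec_mulVec, sr, rf_mulVec (al_root i), ch_pr]

theorem ch_pr_sr (g : W) (i j : Fin 8) : ch_pr (sr i * g) j = ch_pr g j - ch_pr g i * ch_G j i := by
  rw [ch_pr, ch_sr_vec, dotProduct_sub, dotProduct_smul, ch_gram, smul_eq_mul]; rfl

theorem ch_ht_sr (g : W) (i : Fin 8) : ch_ht (sr i * g) = ch_ht g - ch_pr g i := by
  rw [ch_ht, ch_sr_vec, dotProduct_sub, dotProduct_smul, ch_rho_al, smul_eq_mul, mul_one, ch_ht]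

theorem ch_pr_one (i : Fin 8) : ch_pr 1 i = 1 := by
  rw [ch_pr, mat_one, one_mulVec, dotProduct_comm, ch_rho_al]

theorem ch_stab {g : W} (h : mat g *ᵥ ch_rho = ch_rho) : g = 1 := by
  have h1 : ∀ i, ∃ k, mat g⁻¹ *ᵥ al i = al k := by
    intro i
    refine (ch_ok (root_mat _ (al_root i))).2 ?_
    rw [← ch_pr_eq, ch_pr, h, dotProduct_comm, ch_rho_al]
  choose π hπ using h1
  have h2 : ∀ i j, ch_G (π i) (π j) = ch_G i j := by
    intro i j
    rw [← ch_gram, ← ch_gram, ← hπ, ← hπ, dot_mat]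
  obtain ⟨e0, e1, e2, e3, e4, e5, e6, e7⟩ := ch_diag (π 4) (π 3) (by rw [h2]; decide +kernel) (π 5)
    (by rw [h2]; decide +kernel) (by rw [h2]; decide +kernel) (π 7) (by rw [h2]; decide +kernel)
    (by rw [h2]; decide +kernel) (by rw [h2]; decide +kernel) (π 2) (by rw [h2]; decide +kernel)
    (by rw [h2]; decide +kernel) (π 6) (by rw [h2]; decide +kernel) (by rw [h2]; decide +kernel) (π 1)
    (by rw [h2]; decide +kernel) (by rw [h2]; decide +kernel) (π 0) (by rw [h2]; decide +kernel)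
    (by rw [h2]; decide +kernel)
  have h3 : ∀ i, π i = i := by
    intro i
    fin_cases i
    exacts [e0, e1, e2, e3, e4, e5, e6, e7]
  have h4 : g⁻¹ = 1 := ext_al fun i => by rw [hπ, h3, mat_one, one_mulVec]
  exact inv_eq_one.1 h4

theorem ch_dom {g : W} (h : ∀ i, 1 ≤ ch_pr g i) : g = 1 := by
  apply ch_stab
  set v := mat g *ᵥ ch_rho with hv
  have h1 : v ⬝ᵥ v = ch_rho ⬝ᵥ ch_rho := dot_mat g _ _
  have h2 : ∀ i, 0 ≤ al i ⬝ᵥ (v - ch_rho) := by
    intro i
    rw [dotProduct_sub, dotProduct_comm (al i) ch_rho, ch_rho_al]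
    have := h i
    rw [ch_pr, ← hv] at this
    linarith
  have h3 : 0 ≤ ch_rho ⬝ᵥ (v - ch_rho) := by
    rw [ch_rho_dot]
    have := h2 0; have := h2 1; have := h2 2; have := h2 3; have := h2 4; have := h2 5; have := h2 6
    have := h2 7
    positivity
  have h4 : (v - ch_rho) ⬝ᵥ (v - ch_rho) ≤ 0 := by
    rw [dotProduct_sub] at h3
    rw [sub_dotProduct, dotProduct_sub, dotProduct_sub, h1, dotProduct_comm v ch_rho]
    linarith
  have h5 : 0 ≤ (v - ch_rho) ⬝ᵥ (v - ch_rho) := Finset.sum_nonneg fun i _ => mul_self_nonneg _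
  exact sub_eq_zero.1 (dotProduct_self_eq_zero.1 (le_antisymm h4 h5))

theorem ch_ind {P : W → Prop} (h : ∀ g, (∀ g', ch_ht g < ch_ht g' → P g') → P g) (g : W) : P g := by
  haveI : IsTrans W (fun a b => ch_ht b < ch_ht a) := ⟨fun _ _ _ h1 h2 => h2.trans h1⟩
  haveI : Std.Irrefl (fun a b : W => ch_ht b < ch_ht a) := ⟨fun _ => lt_irrefl _⟩
  exact (Finite.wellFounded_of_trans_of_irrefl (fun a b : W => ch_ht b < ch_ht a)).induction g h

theorem ch_sq (i : Fin 8) : sr i * sr i = 1 := rf_sq _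

theorem ch_sq' (i : Fin 8) (g : W) : sr i * (sr i * g) = g := by rw [← mul_assoc, ch_sq, one_mul]

theorem ch_inv (i : Fin 8) : (sr i)⁻¹ = sr i := inv_eq_of_mul_eq_one_right (ch_sq i)

theorem ch_conj (i j : Fin 8) : sr i * sr j * sr i = rf (al j - ch_G i j • al i) := by
  have := rf_conj (sr i) (al_root j)
  rw [ch_inv, sr, rf_mulVec (al_root i), ch_gram] at this
  exact this

theorem ch_comm {i j : Fin 8} (h : ch_G i j = 0) : sr i * sr j = sr j * sr i := by
  have := ch_conj i j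
  rw [h, zero_smul, sub_zero] at this
  calc sr i * sr j = sr i * sr j * sr i * sr i := by rw [mul_assoc _ (sr i), ch_sq, mul_one]
    _ = _ := by rw [this]; rfl

theorem ch_braid {i j : Fin 8} (h : ch_G i j = -1) (h' : ch_G j i = -1) :
    sr i * sr j * sr i = sr j * sr i * sr j := by
  rw [ch_conj, ch_conj, h, h']
  congr 1
  simp only [neg_smul, one_smul, sub_neg_eq_add, add_comm]

theorem sr_cox (i j : Fin 8) : (sr i * sr j) ^ cox i j = 1 := by
  obtain ⟨-, h1, h2⟩ := ch_cox i j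
  by_cases hij : i = j
  · rw [h1 hij, pow_one, hij, ch_sq]
  · rcases h2 hij with ⟨e, h, -⟩ | ⟨e, h, h'⟩
    · rw [e, pow_two]
      nth_rewrite 1 [ch_comm h]
      rw [mul_assoc, ch_sq', ch_sq]
    · rw [e]
      calc (sr i * sr j) ^ 3 = (sr i * sr j * sr i) * (sr j * sr i * sr j) := by
            simp only [pow_succ, pow_zero, one_mul, mul_assoc]
        _ = 1 := by
            rw [ch_braid h h']
            simp only [mul_assoc, ch_sq', ch_sq]

/-- descending paths -/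
inductive ChR {Γ : Type*} [Group Γ] (t : Fin 8 → Γ) : W → Γ → Prop
  | one : ChR t 1 1
  | step (g : W) (γ : Γ) (i : Fin 8) : ChR t g γ → 0 < ch_pr g i → ChR t (sr i * g) (t i * γ)

theorem ch_pr_self (g : W) (i : Fin 8) : ch_pr (sr i * g) i = -ch_pr g i := by
  rw [ch_pr_sr, ch_G_self]; ring

theorem ch_ex {Γ : Type*} [Group Γ] (t : Fin 8 → Γ) (g : W) : ∃ γ, ChR t g γ := by
  induction g using ch_ind with
  | h g ih =>
    by_cases h : ∀ i, 1 ≤ ch_pr g i
    · rw [ch_dom h]; exact ⟨1, ChR.one⟩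
    · push Not at h
      obtain ⟨i, hi⟩ := h
      have hi' : ch_pr g i ≤ -1 := (ch_pr_cases g i).resolve_left (not_le.2 hi)
      obtain ⟨γ, hγ⟩ := ih (sr i * g) (by rw [ch_ht_sr]; linarith)
      have := ChR.step _ _ i hγ (by rw [ch_pr_self]; linarith)
      rw [ch_sq'] at this
      exact ⟨_, this⟩

theorem ch_inv' {Γ : Type*} [Group Γ] {t : Fin 8 → Γ} {g : W} {γ : Γ} (h : ChR t g γ) :
    (g = 1 ∧ γ = 1) ∨ ∃ i γ', ch_pr g i < 0 ∧ ChR t (sr i * g) γ' ∧ γ = t i * γ' := by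
  cases h with
  | one => exact Or.inl ⟨rfl, rfl⟩
  | step g γ i h hp =>
    refine Or.inr ⟨i, γ, ?_, ?_, rfl⟩
    · rw [ch_pr_self]; linarith
    · rw [ch_sq']; exact h

theorem ch_up {Γ : Type*} [Group Γ] {t : Fin 8 → Γ} {g : W} {γ : Γ} {i : Fin 8} (h : ChR t (sr i * g) γ)
    (hp : ch_pr g i < 0) : ChR t g (t i * γ) := by
  have := ChR.step _ _ i h (by rw [ch_pr_self]; linarith)
  rwa [ch_sq'] at this

theorem ch_uniq {Γ : Type*} [Group Γ] {t : Fin 8 → Γ} (ht : ∀ i j, (t i * t j) ^ cox i j = 1) (g : W) :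
    ∀ γ γ', ChR t g γ → ChR t g γ' → γ = γ' := by
  have tsq : ∀ i, t i * t i = 1 := fun i => by
    have := ht i i
    rwa [(ch_cox i i).2.1 rfl, pow_one] at this
  have tsq' : ∀ i x, t i * (t i * x) = x := fun i x => by rw [← mul_assoc, tsq, one_mul]
  induction g using ch_ind with
  | h g ih =>
    intro γ γ' h h'
    rcases ch_inv' h with ⟨e, rfl⟩ | ⟨i, γ1, hi, h1, rfl⟩
    · rcases ch_inv' h' with ⟨-, rfl⟩ | ⟨j, γ2, hj, -, -⟩
      · rfl
      · rw [e, ch_pr_one] at hj; norm_num at hj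
    rcases ch_inv' h' with ⟨e, rfl⟩ | ⟨j, γ2, hj, h2, rfl⟩
    · rw [e, ch_pr_one] at hi; norm_num at hi
    have ui := ih (sr i * g) (by rw [ch_ht_sr]; linarith)
    have uj := ih (sr j * g) (by rw [ch_ht_sr]; linarith)
    by_cases hij : i = j
    · subst hij
      rw [ui _ _ h1 h2]
    rcases (ch_cox i j).2.2 hij with ⟨e, hG, hG'⟩ | ⟨e, hG, hG'⟩
    · obtain ⟨γ0, h0⟩ := ch_ex t (sr j * (sr i * g))
      have a1 := ch_up h0 (by rw [ch_pr_sr, hG']; linarith)
      have h0' : ChR t (sr i * (sr j * g)) γ0 := by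
        rw [← mul_assoc, ch_comm hG, mul_assoc]; exact h0
      have a2 := ch_up h0' (by rw [ch_pr_sr, hG]; linarith)
      rw [ui _ _ h1 a1, uj _ _ h2 a2]
      have hc := ht i j
      rw [e] at hc
      calc t i * (t j * γ0) = t j * (t i * ((t i * t j) ^ 2 * γ0)) := by
            simp only [pow_succ, pow_zero, one_mul, mul_assoc, tsq']
        _ = _ := by rw [hc, one_mul]
    · obtain ⟨γ0, h0⟩ := ch_ex t (sr i * (sr j * (sr i * g)))
      have a1 := ch_up (ch_up h0 (by rw [ch_pr_sr, ch_pr_sr, ch_pr_sr, hG, hG', ch_G_self]; linarith))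
        (by rw [ch_pr_sr, hG']; linarith)
      have h0' : ChR t (sr j * (sr i * (sr j * g))) γ0 := by
        rw [← mul_assoc, ← mul_assoc, ← ch_braid hG hG', mul_assoc, mul_assoc]; exact h0
      have a2 := ch_up (ch_up h0' (by rw [ch_pr_sr, ch_pr_sr, ch_pr_sr, hG, hG', ch_G_self]; linarith))
        (by rw [ch_pr_sr, hG]; linarith)
      rw [ui _ _ h1 a1, uj _ _ h2 a2]
      have hc := ht i j
      rw [e] at hc
      calc t i * (t j * (t i * γ0)) = (t i * t j) ^ 3 * (t j * (t i * (t j * γ0))) := by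
            simp only [pow_succ, pow_zero, one_mul, mul_assoc, tsq']
        _ = _ := by rw [hc, one_mul]

theorem ch_left {P : W → Prop} (h1 : P 1) (h : ∀ g i, P g → P (sr i * g)) (g : W) : P g := by
  obtain ⟨γ, hγ⟩ := ch_ex sr g
  induction hγ with
  | one => exact h1
  | step g γ i _ _ ih => exact h g i ih

theorem gen : Subgroup.closure (Set.range sr) = ⊤ := by
  rw [eq_top_iff]
  intro g _
  induction g using ch_left with
  | h1 => exact one_mem _
  | h g i ih => exact mul_mem (Subgroup.subset_closure ⟨i, rfl⟩) (ih trivial)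

theorem univ_cox {Γ : Type*} [Group Γ] (t : Fin 8 → Γ) (h : ∀ i j, (t i * t j) ^ cox i j = 1) :
    ∃ f : W →* Γ, ∀ i, f (sr i) = t i := by
  choose F hF using ch_ex t
  have tsq : ∀ i, t i * t i = 1 := fun i => by
    have := h i i
    rwa [(ch_cox i i).2.1 rfl, pow_one] at this
  have F1 : F 1 = 1 := ch_uniq h 1 _ _ (hF 1) ChR.one
  have Fs : ∀ i g, F (sr i * g) = t i * F g := by
    intro i g
    rcases ch_pr_cases g i with hp | hp
    · exact ch_uniq h _ _ _ (hF _) (ChR.step _ _ i (hF g) (by linarith))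
    · have := ch_uniq h _ _ _ (hF g) (ch_up (hF (sr i * g)) (by linarith))
      rw [this, ← mul_assoc, tsq, one_mul]
  refine ⟨MonoidHom.mk' F fun a b => ?_, fun i => ?_⟩
  · induction a using ch_left with
    | h1 => rw [one_mul, F1, one_mul]
    | h g i ih => rw [mul_assoc, Fs, Fs, ih, mul_assoc]
  · show F (sr i) = t i
    rw [← mul_one (sr i), Fs, F1, mul_one]

/-- the generators `sr 0 * sr i` of `L0` -/
noncomputable def rr (i : Fin 8) : L0 :=
  ⟨sr 0 * sr i, mul_mem_L0 (rf_not_mem (al_root 0)) (rf_not_mem (al_root i))⟩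

theorem gen_L0 : Subgroup.closure (Set.range rr) = ⊤ := by
  set K := (Subgroup.closure (Set.range rr)).map L0.subtype with hK
  have hr : ∀ i, sr 0 * sr i ∈ K := fun i => ⟨rr i, Subgroup.subset_closure ⟨i, rfl⟩, rfl⟩
  have key : ∀ g : W, g ∈ K ∨ sr 0 * g ∈ K := by
    intro g
    induction g using ch_left with
    | h1 => exact Or.inl (one_mem _)
    | h g i ih =>
      rcases ih with h | h
      · right; rw [← mul_assoc]; exact mul_mem (hr i) h
      · left
        have := mul_mem (inv_mem (hr i)) h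
        rwa [_root_.mul_inv_rev, ch_inv, ch_inv, mul_assoc, ch_sq'] at this
  rw [eq_top_iff]
  rintro ⟨g, hg⟩ -
  rcases key g with ⟨x, hx, e⟩ | ⟨x, -, e⟩
  · have : x = ⟨g, hg⟩ := Subtype.ext e
    rw [← this]; exact hx
  · exfalso
    have h1 : sr 0 * g ∈ L0 := e ▸ x.2
    have h2 := mul_mem h1 (inv_mem hg)
    rw [mul_inv_cancel_right] at h2
    exact rf_not_mem (al_root 0) h2

/-- the involutions of `Γ × Bool` used in `univ_alt` -/
def chT {Γ : Type*} [Group Γ] (r : Γ) : Equiv.Perm (Γ × Bool) where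
  toFun x := if x.2 then (r * x.1, false) else (r⁻¹ * x.1, true)
  invFun x := if x.2 then (r * x.1, false) else (r⁻¹ * x.1, true)
  left_inv := by rintro ⟨g, b⟩; cases b <;> simp
  right_inv := by rintro ⟨g, b⟩; cases b <;> simp

theorem chT_t {Γ : Type*} [Group Γ] (r s g : Γ) : (chT r * chT s) (g, true) = (r⁻¹ * s * g, true) := by
  simp [chT, mul_assoc]

theorem chT_f {Γ : Type*} [Group Γ] (r s g : Γ) : (chT r * chT s) (g, false) = (r * s⁻¹ * g, false) := by
  simp [chT, mul_assoc]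

theorem chT_pow {Γ : Type*} [Group Γ] (p : Equiv.Perm (Γ × Bool)) (c : Γ) (b : Bool)
    (h : ∀ g, p (g, b) = (c * g, b)) (n : ℕ) (g : Γ) : (p ^ n) (g, b) = (c ^ n * g, b) := by
  induction n with
  | zero => simp
  | succ n ih => rw [pow_succ', Equiv.Perm.mul_apply, ih, h, pow_succ', mul_assoc]

theorem univ_alt {Γ : Type*} [Group Γ] (ρ : Fin 8 → Γ) (h0 : ρ 0 = 1)
    (h : ∀ i j, ((ρ i)⁻¹ * ρ j) ^ cox i j = 1) : ∃ f : L0 →* Γ, ∀ i, f (rr i) = ρ i := by
  obtain ⟨F, hF⟩ := univ_cox (fun i => chT (ρ i)) (by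
    intro i j
    ext1 ⟨g, b⟩
    cases b
    · rw [chT_pow _ _ _ (chT_f _ _)]
      have e : ρ i * (ρ j)⁻¹ = ρ j * ((ρ j)⁻¹ * ρ i) * (ρ j)⁻¹ := by group
      rw [e, conj_pow, (ch_cox i j).1, h]
      simp
    · rw [chT_pow _ _ _ (chT_t _ _), h]
      simp)
  have hr : ∀ i g, F (rr i : W) (g, true) = (ρ i * g, true) := by
    intro i g
    show F (sr 0 * sr i) (g, true) = _
    rw [map_mul, hF, hF, chT_t, h0, inv_one, one_mul]
  have key : ∀ l : L0, ∃ c : Γ, ∀ g, F (l : W) (g, true) = (c * g, true) := by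
    intro l
    have hl : l ∈ Subgroup.closure (Set.range rr) := by rw [gen_L0]; trivial
    induction hl using Subgroup.closure_induction with
    | mem x hx =>
      obtain ⟨i, rfl⟩ := hx
      exact ⟨ρ i, hr i⟩
    | one => exact ⟨1, fun g => by simp⟩
    | mul x y _ _ hx hy =>
      obtain ⟨c, hc⟩ := hx
      obtain ⟨d, hd⟩ := hy
      exact ⟨c * d, fun g => by rw [Subgroup.coe_mul, map_mul, Equiv.Perm.mul_apply, hd, hc, mul_assoc]⟩
    | inv x _ hx =>
      obtain ⟨c, hc⟩ := hx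
      refine ⟨c⁻¹, fun g => ?_⟩
      rw [Subgroup.coe_inv, map_inv, Equiv.Perm.inv_eq_iff_eq, hc, mul_inv_cancel_left]
  choose f hf using key
  refine ⟨MonoidHom.mk' f fun a b => ?_, fun i => ?_⟩
  · have h1 := hf (a * b) 1
    rw [Subgroup.coe_mul, map_mul, Equiv.Perm.mul_apply, hf, hf] at h1
    simpa using (congrArg Prod.fst h1).symm
  · have h1 := hf (rr i) 1
    rw [hr] at h1
    show f (rr i) = ρ i
    simpa using (congrArg Prod.fst h1).symm

end Cfsg.Lib.W8
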