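import Cfsg.Agent.Lib.W8.Diag
import Cfsg.Agent.Lib.W8.Chain

/-! Every automorphism of `L0` is induced by `W`. -/

set_option autoImplicit false

namespace Cfsg.Lib.W8

open Matrix Equiv
open scoped Pointwise symmDiff

theorem au_sgn (c d : F8) (i : Fin 8) : sgn (c ∆ d) i = sgn c i * sgn d i := by
  by_cases h : i ∈ c <;> by_cases h' : i ∈ d <;> simp [sgn, Finset.mem_symmDiff, h, h']

theorem au_sgn2 (c : F8) (i : Fin 8) : sgn c i * sgn c i = 1 := by by_cases h : i ∈ c <;> simp [sgn, h]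

theorem au_m1 : ∀ i : Fin 8, i.1 ≤ 5 → 1 - vecMulVec (al i) (al i) = pm (swap i (i + 1)) := by decide +kernel
theorem au_m2 : 1 - vecMulVec (al 6) (al 6) = diagonal (sgn {6, 7}) * pm (swap 6 7) := by decide +kernel
theorem au_m3 : diagonal (sgn {0, 1, 2, 3, 4, 7}) *ᵥ hh = al 7 := by decide +kernel
theorem au_m4 : 1 - vecMulVec (fr 0) (fr 0) = pm (swap 0 1) * diagonal (sgn {0, 1}) := by decide +kernel

theorem au_pm (σ : P8) (x : V) (i : Fin 8) : (pm σ *ᵥ x) i = x (σ.symm i) := by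
  simp only [mulVec, dotProduct, pm, of_apply, ← Equiv.symm_apply_eq]
  simp

theorem au_hh (σ : P8) : pE σ * rf hh = rf hh * pE σ := by
  rw [← mul_inv_eq_iff_eq_mul, rf_conj _ hh_root, mat_pE]
  congr 1; ext i; rw [au_pm]; rfl

theorem gen_L0' (H : Subgroup W) (h1 : ∀ c : F8, Even c.card → sE c ∈ H)
    (h2 : ∀ σ : P8, Equiv.Perm.sign σ = 1 → pE σ ∈ H) (h3 : rf hh * pE (Equiv.swap 0 1) ∈ H) :
    L0 ≤ H := by
  have k : ∀ i : Fin 8, i.1 ≤ 5 → sr i = pE (swap i (i + 1)) := fun i hi =>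
    mat_inj (by rw [sr, mat_rf (al_root i), mat_pE, au_m1 i hi])
  have k0 : sr 0 = pE (swap 0 1) := k 0 (by decide)
  have cj : ∀ c : F8, Even c.card → pE (swap 0 1) * sE c * (pE (swap 0 1))⁻¹ ∈ H := fun c hc => by
    rw [pE_conj _ hc]; exact h1 _ (by rwa [card_smul8])
  intro x hx
  refine (Subgroup.closure_le (H.subgroupOf L0)).2 ?_ (gen_L0.ge (Subgroup.mem_top ⟨x, hx⟩))
  rintro _ ⟨i, rfl⟩
  show sr 0 * sr i ∈ H
  rw [k0]
  by_cases hi : i.1 ≤ 5
  · rw [k i hi, pE_mul]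
    refine h2 _ ?_
    rw [Perm.sign_mul, Perm.sign_swap (by decide), Perm.sign_swap (by revert i; decide)]; simp
  obtain rfl | rfl : i = 6 ∨ i = 7 := by revert i; decide
  · have : sr 6 = sE {6, 7} * pE (swap 6 7) :=
      mat_inj (by rw [sr, mat_rf (al_root 6), mat_mul, mat_pE, mat_sE (by decide), au_m2])
    have k1 := H.mul_mem (cj {6, 7} (by decide)) (h2 (swap 0 1 * swap 6 7) (by decide))
    rwa [← pE_mul, mul_assoc, inv_mul_cancel_left, mul_assoc, ← this] at k1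
  · have : sr 7 = sE {0, 1, 2, 3, 4, 7} * rf hh * (sE {0, 1, 2, 3, 4, 7})⁻¹ := by
      rw [rf_conj _ hh_root, mat_sE (by decide), au_m3, sr]
    have k1 := H.mul_mem (H.mul_mem (cj {0, 1, 2, 3, 4, 7} (by decide)) h3) (H.inv_mem (h1 {0, 1, 2, 3, 4, 7} (by decide)))
    rw [← au_hh] at k1
    rw [this]; simpa only [mul_assoc, inv_mul_cancel_left] using k1

theorem au_trans {T T' : F8} (h : T.card = T'.card) : ∃ σ : P8, Perm.sign σ = 1 ∧ σ • T = T' := by
  obtain ⟨σ, hσ⟩ := Perm.exists_map_finset_eq T T' h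
  have e : σ • T = T' := by rw [← hσ, Finset.map_eq_image]; rfl
  rcases Int.units_eq_one_or (Perm.sign σ) with k | k
  · exact ⟨σ, k, e⟩
  obtain ⟨a, b, ab, hab⟩ : ∃ a b : Fin 8, a ≠ b ∧ (a ∈ T ↔ b ∈ T) := by
    by_cases h0 : (0 ∈ T ↔ 1 ∈ T)
    · exact ⟨0, 1, by decide, h0⟩
    by_cases h1 : (0 ∈ T ↔ 2 ∈ T)
    exacts [⟨0, 2, by decide, h1⟩, ⟨1, 2, by decide, by tauto⟩]
  refine ⟨σ * swap a b, by rw [Perm.sign_mul, k, Perm.sign_swap ab]; simp, ?_⟩
  rw [mul_smul, ← e]; congr 1; ext x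
  rw [← Finset.inv_smul_mem_iff, swap_inv, Perm.smul_def, swap_apply_def]
  split_ifs with h1 h2
  exacts [h1 ▸ hab.symm, h2 ▸ hab, Iff.rfl]

theorem au_two {i j : Fin 8} (h : i ≠ j) : ∃ σ : P8, Perm.sign σ = 1 ∧ σ 0 = i ∧ σ 1 = j := by
  obtain ⟨σ, h0, h1⟩ : ∃ σ : P8, σ 0 = i ∧ σ 1 = j := ⟨swap (swap 0 i 1) j * swap 0 i, by revert i j; decide⟩
  rcases Int.units_eq_one_or (Perm.sign σ) with k | k
  · exact ⟨σ, k, h0, h1⟩
  · exact ⟨σ * swap 2 3, by rw [Perm.sign_mul, k, Perm.sign_swap (by decide)]; simp, h0, h1⟩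

theorem au_ind (P : F8 → Prop) (h0 : P ∅) (h1 : ∀ j, j ≠ 0 → P {0, j})
    (hm : ∀ c d : F8, Even c.card → Even d.card → P c → P d → P (c ∆ d)) (c : F8) (hc : Even c.card) : P c := by
  induction hn : (c.erase 0).card generalizing c with
  | zero =>
    rcases Finset.subset_singleton_iff.1 (Finset.erase_eq_empty_iff c 0 |>.1 (Finset.card_eq_zero.1 hn) |>.elim
      (fun e => e ▸ Finset.empty_subset _) fun e => e.le) with rfl | rfl
    exacts [h0, absurd hc (by decide)]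
  | succ n ih =>
    obtain ⟨j, hj⟩ := Finset.card_pos.1 (show 0 < (c.erase 0).card by omega)
    obtain ⟨j0, jc⟩ := Finset.mem_erase.1 hj
    have e2 : Even ({0, j} : F8).card := by rw [Finset.card_pair j0.symm]; decide
    have := hm _ _ (even_symmDiff hc e2) e2 (ih _ (even_symmDiff hc e2) ?_) (h1 j j0)
    · rwa [symmDiff_symmDiff_cancel_right] at this
    have : (c ∆ {0, j}).erase 0 = (c.erase 0).erase j := by
      ext x; by_cases hx : x = j <;> by_cases h0 : x = 0 <;> simp [Finset.mem_symmDiff, hx, h0, jc, j0]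
    rw [this, Finset.card_erase_of_mem hj, hn]; rfl

open Classical in
/-- `φ` as a function on `W` -/
noncomputable def ph (φ : L0 ≃* L0) (g : W) : W := if h : g ∈ L0 then φ ⟨g, h⟩ else 1

variable (φ : L0 ≃* L0)

theorem ph_eq {g : W} (h : g ∈ L0) : ph φ g = φ ⟨g, h⟩ := dif_pos h

theorem ph_mem {g : W} (h : g ∈ L0) : ph φ g ∈ L0 := ph_eq φ h ▸ (φ _).2

theorem ph_mul {g k : W} (h : g ∈ L0) (h' : k ∈ L0) : ph φ (g * k) = ph φ g * ph φ k := by
  rw [ph_eq φ h, ph_eq φ h', ph_eq φ (mul_mem h h'), ← Subgroup.coe_mul, ← map_mul]; rfl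

theorem ph_inj {g k : W} (h : g ∈ L0) (h' : k ∈ L0) (e : ph φ g = ph φ k) : g = k := by
  rw [ph_eq φ h, ph_eq φ h'] at e; exact congrArg Subtype.val (φ.injective (Subtype.ext e))

theorem ph_one : ph φ 1 = 1 := by rw [ph_eq φ (one_mem _)]; exact congrArg Subtype.val (map_one φ)

theorem ph_sE {c d : F8} (hc : Even c.card) (hd : Even d.card) : ph φ (sE c) * ph φ (sE d) = ph φ (sE (c ∆ d)) := by
  rw [← ph_mul φ (sE_mem c) (sE_mem d), sE_mul hc hd]

theorem ph_conj {σ : P8} (h : Perm.sign σ = 1) {c : F8} (hc : Even c.card) :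
    ph φ (pE σ) * ph φ (sE c) = ph φ (sE (σ • c)) * ph φ (pE σ) := by
  rw [← ph_mul φ (pE_mem.2 h) (sE_mem c), ← ph_mul φ (sE_mem _) (pE_mem.2 h), ← pE_conj σ hc, inv_mul_cancel_right]

theorem ph_z : ph φ z = z := by
  refine (cent_L0 fun x hx => ?_).resolve_left fun e => z_ne_one (ph_inj φ z_mem (one_mem _) (e.trans (ph_one φ).symm))
  obtain ⟨y, e⟩ := φ.surjective ⟨x, hx⟩
  have : x = ph φ y := by rw [ph_eq φ y.2, e]
  rw [this, Commute, SemiconjBy, ← ph_mul φ z_mem y.2, ← ph_mul φ y.2 z_mem, (z_comm y.1).eq]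

theorem au_chi (j : Fin 8) (c : F8) : chi {j} c = sgn c j := by
  by_cases h : j ∈ c <;> simp [chi, sgn, h]

theorem au_chic (T : F8) {c : F8} (hc : Even c.card) : chi Tᶜ c = chi T c := by
  have : (T ∩ c).card + (Tᶜ ∩ c).card = c.card := by
    rw [Finset.inter_comm T, Finset.inter_comm Tᶜ, ← Finset.sdiff_eq_inter_compl, Finset.card_inter_add_card_sdiff]
  rw [← this, Nat.even_add] at hc
  simp only [chi, neg_one_pow_eq_ite, hc]

theorem au_eig : ∃ u, Eig (fun c => Even c.card) (fun c => ph φ (sE c)) u fun j => {j} := by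
  obtain ⟨v, S, E⟩ := diagE (fun c => ph φ (sE c)) fun c d => ph_sE φ
  have pos : ∀ T T' : F8, T.card = T'.card → (∃ i, S i = T ∨ S i = Tᶜ) → ∃ i, S i = T' ∨ S i = T'ᶜ := fun T T' e ⟨i, hi⟩ => by
    obtain ⟨σ, h1, rfl⟩ := au_trans e
    have := E.cnt_smul (σ := σ) (fun c hc => by rw [eq_mul_inv_iff_mul_eq.2 (ph_conj φ h1 hc).symm, tr_conj]) T
    obtain ⟨j, hj⟩ := Finset.card_pos.1 (this.symm ▸ Finset.card_pos.2 ⟨i, Finset.mem_filter.2 ⟨Finset.mem_univ _, hi⟩⟩ :
      0 < cnt S (σ • T))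
    exact ⟨j, (Finset.mem_filter.1 hj).2⟩
  obtain ⟨T, hT, h0⟩ : ∃ T : F8, (T.card = 1 ∨ T.card = 3) ∧ (S 0 = T ∨ S 0 = Tᶜ) := by
    have h1 := E.odd (c := Finset.univ) (by decide) (by rw [sE_univ, ph_z]) 0
    rw [Finset.inter_univ] at h1
    have h2 := Finset.card_compl (S 0)
    have h3 := Finset.card_le_univ (S 0)
    rw [Fintype.card_fin] at h2 h3
    obtain ⟨k, hk⟩ := h1
    by_cases h : (S 0).card ≤ 3
    exacts [⟨S 0, by omega, .inl rfl⟩, ⟨(S 0)ᶜ, by omega, .inr (compl_compl _).symm⟩]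
  choose π hπ using fun T' : {T' : F8 // T'.card = T.card} => pos T T' T'.2.symm ⟨0, h0⟩
  have inj : Function.Injective π := fun a b e => Subtype.ext <| by
    have ha := hπ a
    have hb := hπ b
    have h1 := a.2
    have h2 := b.2
    have h3 := Finset.card_compl a.1
    have h4 := Finset.card_compl b.1
    rw [Fintype.card_fin] at h3 h4
    rw [e] at ha
    rcases ha with f | f <;> rcases hb with g | g
    exacts [f.symm.trans g, by rw [← f, g] at h1; omega, by rw [← g, f] at h2; omega, compl_injective (f.symm.trans g)]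
  rcases hT with hT | hT
  swap
  · have := Fintype.card_le_of_injective π inj
    rw [Fintype.card_finset_len, hT] at this
    exact absurd this (by decide)
  refine ⟨fun j => v (π ⟨{j}, by simp [hT]⟩), E.li.comp _ fun a b e => by simpa using inj e, fun j c hc => ?_⟩
  rw [E.eig _ c hc]
  rcases hπ ⟨{j}, by simp [hT]⟩ with e | e <;> rw [e]
  rw [au_chic _ hc]

theorem au_tr {u : Fin 8 → V} (E : Eig (fun c => Even c.card) (fun c => ph φ (sE c)) u fun j => {j}) {j : Fin 8}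
    (hj : j ≠ 0) : tr (ph φ (sE {0, j})) = 4 := by
  have := E.tr (c := {0, j}) (by rw [Finset.card_pair hj.symm]; decide)
  simp only [au_chi] at this
  rw [this]; clear this; revert j; decide +kernel

theorem au_B : ∃ w : W, w * ph φ (sE {0, 1}) * w⁻¹ = sE {0, 1} := by
  obtain ⟨u, E⟩ := au_eig φ
  obtain ⟨l, -, c, e⟩ := inv_conj (w := ph φ (sE {0, 1})) (by rw [ph_sE φ (by decide) (by decide), symmDiff_self]; exact sE_empty ▸ ph_one φ)
  have h := tr_sF c
  rw [← e, tr_conj, au_tr φ E (by decide)] at h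
  have h2 : c.card = 2 := by exact_mod_cast (show (c.card : ℚ) = 2 by linarith)
  obtain ⟨σ, h1, h3⟩ := AG_trans (d := {0, 1}) h2 (iff_of_false (fun k => by have := k.card; omega) (by decide))
  exact ⟨pF σ * l, .trans (by rw [← h3, ← pF_conj h1, ← e, h3]; group) sF_eq_two⟩

theorem au_D {u : Fin 8 → V} (E : Eig (fun c => Even c.card) (fun c => ph φ (sE c)) u fun j => {j}) {k : Fin 8} {r : ℚ}
    (hr : u 0 = r • Pi.single k 1) : ∃ w : W, ∀ c : F8, Even c.card → w * ph φ (sE c) * w⁻¹ = sE c := by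
  have r0 : r ≠ 0 := fun e => E.li.ne_zero 0 (by rw [hr, e, zero_smul])
  have key : ∀ j : Fin 8, ∃ m, (j = 0 → m = k) ∧ (j ≠ 0 → m ≠ k ∧ ph φ (sE {0, j}) = sE {k, m}) := fun j => by
    by_cases hj : j = 0
    · exact ⟨k, fun _ => rfl, fun h => (h hj).elim⟩
    have h1 := E.eig 0 {0, j} (by rw [Finset.card_pair (Ne.symm hj)]; decide)
    rw [au_chi, hr, mulVec_smul, smul_comm, sgn, if_pos (by simp)] at h1
    have h2 := smul_right_injective V r0 h1
    obtain ⟨d, hd, σ, e⟩ := mon (.inr (h2.trans (neg_one_smul ℚ _)))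
    have h3 := au_tr φ E hj
    have h4 : Perm.sign σ = 1 := pE_mem.1 ((mul_mem_cancel_left (sE_mem d)).1 (e ▸ ph_mem φ (sE_mem _)))
    have ent : ∀ i, mat (sE d * pE σ) i i = if σ i = i then sgn d i else 0 := fun i => by
      rw [mat_mul, mat_sE hd, mat_pE, diagonal_mul, pm, of_apply]; simp [eq_comm]
    have h5 : mat (sE d * pE σ) k k = -1 := by simpa [e, mulVec_single_one] using congrFun h2 k
    rw [e] at h3
    have h6 : σ = 1 := by
      have : (4 : ℚ) ≤ ∑ i, ((if i ∈ σ.support then 0 else 1) - if i = k then 2 else 0) := by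
        refine h3.symm.trans_le ?_
        rw [tr, trace]
        refine Finset.sum_le_sum fun i _ => ?_
        by_cases hi : i = k
        · rw [diag_apply, hi, h5]; rw [ent] at h5; split_ifs at h5 ⊢ <;> simp_all; norm_num
        · rw [diag_apply, ent]; by_cases h : σ i = i <;> simp [h, hi, sgn]; split_ifs <;> norm_num
      simp only [Finset.sum_sub_distrib, Finset.sum_ite_eq', Finset.mem_univ, if_true, Finset.sum_ite, Finset.sum_const_zero,
        Finset.sum_const, zero_add, nsmul_eq_mul, mul_one, ← Finset.mem_compl, Finset.filter_mem_eq_inter, Finset.univ_inter,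
        Finset.card_compl, Fintype.card_fin] at this
      have h7 : 6 ≤ 8 - σ.support.card := by exact_mod_cast (show (6 : ℚ) ≤ ((8 - σ.support.card : ℕ) : ℚ) by linarith)
      by_cases h8 : σ.support.card = 2
      · rw [(Perm.card_support_eq_two.1 h8).sign_eq] at h4; exact absurd h4 (by decide)
      · exact Perm.card_support_le_one.1 (by omega)
    subst h6
    have h7 : k ∈ d := by rw [ent] at h5; by_contra h; simp [sgn, h] at h5; norm_num at h5
    rw [pE_one, mul_one] at e h3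
    rw [tr_sE hd] at h3
    obtain ⟨a, b, ab, rfl⟩ := Finset.card_eq_two.1 (by exact_mod_cast (show (d.card : ℚ) = 2 by linarith) : d.card = 2)
    rcases Finset.mem_insert.1 h7 with rfl | h
    · exact ⟨b, fun h => (hj h).elim, fun _ => ⟨ab.symm, e⟩⟩
    · obtain rfl := Finset.mem_singleton.1 h
      exact ⟨a, fun h => (hj h).elim, fun _ => ⟨ab, e.trans (by rw [Finset.pair_comm])⟩⟩
  choose π h0 h1 using key
  have ev : ∀ {a b : Fin 8}, a ≠ b → Even ({a, b} : F8).card := fun h => by rw [Finset.card_pair h]; decide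
  have inj : Function.Injective π := fun a b e => by
    by_cases ha : a = 0 <;> by_cases hb : b = 0
    exacts [ha.trans hb.symm, ((h1 b hb).1 (e ▸ h0 a ha)).elim, ((h1 a ha).1 (e ▸ h0 b hb)).elim, by
      have := sE_inj (ev (Ne.symm ha)) (ev (Ne.symm hb)) (ph_inj φ (sE_mem _) (sE_mem _) (by rw [(h1 a ha).2, (h1 b hb).2, e]))
      simpa [ha] using this.le (show a ∈ ({0, a} : F8) by simp)]
  let σ : P8 := Equiv.ofBijective π (Finite.injective_iff_bijective.1 inj)
  refine ⟨(pE σ)⁻¹, au_ind _ (by simp [sE_empty, ph_one]) (fun j hj => ?_) fun c d hc hd e e' => by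
    rw [← ph_sE φ hc hd, ← conj_mul, e, e', sE_mul hc hd]⟩
  have : σ • ({0, j} : F8) = {k, π j} := by rw [← h0 0 rfl]; simp [Finset.smul_finset_insert, Perm.smul_def, σ]
  rw [(h1 j hj).2, ← this, ← pE_conj σ (ev hj.symm)]; group

theorem au_R {u : Fin 8 → V} (E : Eig (fun c => Even c.card) (fun c => ph φ (sE c)) u fun j => {j}) {a : V} {r : ℚ}
    (ha : IsRoot a) (hr : u 0 = r • a) : False := by
  have r0 : r ≠ 0 := fun e => E.li.ne_zero 0 (by rw [hr, e, zero_smul])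
  let ρ : P8 := swap 2 3 * swap 3 4 * swap 4 5 * swap 5 6
  let m : Fin 5 → Fin 8 := ![2, 3, 4, 5, 6]
  have hρ : Perm.sign ρ = 1 := by decide
  have ev : ∀ i, Even ({0, m i} : F8).card := by decide
  have h1 : ∀ c : F8, Even c.card → mat (ph φ (sE c)) *ᵥ a = sgn c 0 • a := fun c hc => by
    have := E.eig 0 c hc
    rw [au_chi, hr, mulVec_smul, smul_comm] at this
    exact smul_right_injective V r0 this
  have h2 : ∀ (g : W) (t : ℚ), mat g *ᵥ a = t • a → Commute g (rf a) := fun g t e => by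
    have k := dot_mat g a a
    rw [e, smul_dotProduct, dotProduct_smul, root_dot ha, smul_smul] at k
    rw [Commute, SemiconjBy, ← mul_inv_eq_iff_eq_mul, rf_conj g ha, e, rf, smul_vecMulVec, vecMulVec_smul, smul_smul,
      show t * t = 1 by simp at k; linarith, one_smul, rf]
  have h3 := fun c hc => h2 _ _ (h1 c hc)
  have h4 : Commute (ph φ (pE ρ)) (rf a) := by
    obtain ⟨t, ht⟩ := E.line (u := mat (ph φ (pE ρ)) *ᵥ a) (i := 0) (fun c hc => by
      have hc' : Even (ρ⁻¹ • c).card := by rwa [card_smul8]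
      have := ph_conj φ hρ hc'
      rw [smul_inv_smul] at this
      rw [mulVec_mulVec, ← mat_mul, ← this, mat_mul, ← mulVec_mulVec, h1 _ hc', mulVec_smul, au_chi]
      simp only [sgn, Finset.mem_inv_smul_finset_iff]; rfl) (by simp only [au_chi]; decide +kernel)
    exact h2 _ (t * r) (by rw [ht, hr, smul_smul])
  refine p5 (w := ph φ (pE ρ)) (fun i => ph φ (sE {0, m i}) * rf a) (fun i j e => ?_) (fun i => ?_) (fun i => ?_)
    (fun i j => ?_) fun i => ?_
  · have := sE_inj (ev i) (ev j) (ph_inj φ (sE_mem _) (sE_mem _) (mul_right_cancel e))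
    clear e; revert i j; decide
  · rw [(h3 _ (ev i)).symm.mul_mul_mul_comm, rf_sq, ph_sE φ (ev i) (ev i), symmDiff_self, mul_one]
    exact sE_empty ▸ ph_one φ
  · have := au_tr φ E (j := m i) (by revert i; decide)
    rw [tr] at this
    rw [tr, mat_mul, mat_rf ha, Matrix.mul_sub, Matrix.mul_one, trace_sub, this, mul_vecMulVec, trace_vecMulVec, h1 _ (ev i),
      smul_dotProduct, root_dot ha, sgn, if_pos (by simp)]; norm_num
  · have : Commute (ph φ (sE {0, m i})) (ph φ (sE {0, m j})) := by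
      rw [Commute, SemiconjBy, ph_sE φ (ev i) (ev j), ph_sE φ (ev j) (ev i), symmDiff_comm]
    exact (this.mul_right (h3 _ (ev i))).mul_left ((h3 _ (ev j)).symm.mul_right (Commute.refl _))
  · rw [← mul_assoc, ph_conj φ hρ (ev i), mul_assoc _ _ (rf a), h4.eq, ← mul_assoc, mul_inv_cancel_right,
      show ρ • ({0, m i} : F8) = {0, m (i + 1)} by revert i; decide]

theorem au_C (h : ph φ (sE {0, 1}) = sE {0, 1}) : ∃ w : W, ∀ c : F8, Even c.card → w * ph φ (sE c) * w⁻¹ = sE c := by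
  obtain ⟨u, E⟩ := au_eig φ
  have sup : ∀ x : V, mat (sE {0, 1}) *ᵥ x = -x → ∀ k : Fin 8, k ≠ 0 → k ≠ 1 → x k = 0 := fun x e k h0 h1 => by
    have := congrFun e k
    rw [mat_sE (by decide), mulVec_diagonal, sgn, if_neg (by simp [h0, h1])] at this
    simp at this; linarith
  have dot : ∀ x y : V, (∀ k : Fin 8, k ≠ 0 → k ≠ 1 → y k = 0) → x ⬝ᵥ y = x 0 * y 0 + x 1 * y 1 := fun x y hy => by
    simp [dotProduct, Fin.sum_univ_eight, hy]
  have s0 := sup (u 0) (by simpa [au_chi, sgn, h] using E.eig 0 {0, 1} (by decide))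
  have s1 := sup (u 1) (by simpa [au_chi, sgn, h] using E.eig 1 {0, 1} (by decide))
  have g0 : mat (ph φ (sE {0, 2})) *ᵥ u 0 = -u 0 := by simpa [au_chi, sgn] using E.eig 0 {0, 2} (by decide)
  have g1 : mat (ph φ (sE {0, 2})) *ᵥ u 1 = u 1 := by simpa [au_chi, sgn] using E.eig 1 {0, 2} (by decide)
  have cm : sE {0, 1} * ph φ (sE {0, 2}) = ph φ (sE {0, 2}) * sE {0, 1} := by
    rw [← h, ph_sE φ (by decide) (by decide), ph_sE φ (by decide) (by decide), symmDiff_comm]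
  generalize ph φ (sE {0, 2}) = g at g0 g1 cm
  have hx := root_mat g (fr_root 0)
  have sx := sup (mat g *ᵥ fr 0) (by
    rw [mulVec_mulVec, ← mat_mul, cm, mat_mul, ← mulVec_mulVec, ← sF_eq_two, sF_fr, mulVec_smul]; simp [sgn])
  have d0 := dot_mat g (fr 0) (u 0)
  have d1 := dot_mat g (fr 0) (u 1)
  have d2 := dot_mat g (u 0) (u 1)
  rw [g0, dotProduct_neg, dot _ _ s0, dot _ _ s0] at d0
  rw [g1, dot _ _ s1, dot _ _ s1] at d1
  rw [g0, g1, neg_dotProduct, dot _ _ s1] at d2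
  have f0 : fr 0 0 = 1 := by decide +kernel
  have f1 : fr 0 1 = 1 := by decide +kernel
  rw [f0, f1] at d0 d1
  generalize mat g *ᵥ fr 0 = x at *
  have hx' : (x 0 = 1 ∨ x 0 = -1) ∧ (x 1 = 1 ∨ x 1 = -1) := by
    rcases hx with ⟨i, j, ij, hi, hj, -⟩ | ⟨k, -⟩
    · have k : ∀ l, (x l = 1 ∨ x l = -1) → l = 0 ∨ l = 1 := fun l hl => by
        by_contra! e; rw [sx l e.1 e.2] at hl; norm_num at hl
      rcases k i hi with rfl | rfl <;> rcases k j hj with rfl | rfl
      exacts [(ij rfl).elim, ⟨hi, hj⟩, ⟨hj, hi⟩, (ij rfl).elim]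
    · have := k 2; rw [sx 2 (by decide) (by decide)] at this; norm_num at this
  have ext : ∀ (y : V) (r : ℚ), (∀ k : Fin 8, k ≠ 0 → k ≠ 1 → y k = 0) → u 0 0 = r * y 0 → u 0 1 = r * y 1 → u 0 = r • y :=
    fun y r hy e0 e1 => funext fun k => by
      by_cases h0 : k = 0
      · rw [h0, e0]; rfl
      by_cases h1 : k = 1
      · rw [h1, e1]; rfl
      simp [hy k h0 h1, s0 k h0 h1]
  rcases hx' with ⟨a | a, b | b⟩ <;> rw [a, b] at d0 d1
  · refine (au_R φ E (fr_root 1) (ext (fr 1) (u 0 0) (by decide +kernel) ?_ ?_)).elim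
    exacts [by rw [show fr 1 0 = 1 by decide +kernel, mul_one], by rw [show fr 1 1 = -1 by decide +kernel]; linarith]
  · exact au_D φ E (k := 1) (ext _ (u 0 1) (fun k _ h => by simp [h]) (by simp; linarith) (by simp))
  · exact au_D φ E (k := 0) (ext _ (u 0 0) (fun k h _ => by simp [h]) (by simp) (by simp; linarith))
  · refine (au_R φ E (fr_root 0) (ext (fr 0) (u 0 0) (by decide +kernel) (by rw [f0, mul_one]) ?_)).elim
    have c0 : u 1 0 ≠ 0 := fun e => E.li.ne_zero 1 (funext fun k => by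
      by_cases h0 : k = 0
      · rw [h0, e]; rfl
      by_cases h1 : k = 1
      · rw [h1]; show _ = (0 : ℚ); linarith
      exact s1 k h0 h1)
    rw [show u 1 1 = -u 1 0 by linarith] at d2
    rw [f1, mul_one]
    exact mul_right_cancel₀ c0 (by linarith)

theorem ph_trans (w : W) {g : W} (h : g ∈ L0) : ph (φ.trans (MulAut.conjNormal w)) g = w * ph φ g * w⁻¹ := by
  rw [ph_eq _ h, ph_eq _ h]; rfl

theorem aut_E : ∃ w : W, ∀ c : F8, Even c.card → w * (φ ⟨sE c, sE_mem c⟩ : W) * w⁻¹ = sE c := by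
  obtain ⟨w, hw⟩ := au_B φ
  obtain ⟨v, hv⟩ := au_C (φ.trans (MulAut.conjNormal w)) (by rw [ph_trans φ w (sE_mem _), hw])
  refine ⟨v * w, fun c hc => ?_⟩
  refine .trans ?_ (hv c hc)
  rw [ph_trans φ w (sE_mem _), ph_eq φ (sE_mem c)]; group

theorem au_coc (d : P8 → F8) (hd : ∀ σ τ : P8, Perm.sign σ = 1 → Perm.sign τ = 1 → d (σ * τ) = d σ ∆ (σ • d τ)) :
    ∃ D : F8, ∀ σ : P8, Perm.sign σ = 1 → d σ = D ∆ (σ • D) := by
  have k : ∀ σ : P8, Perm.sign σ = 1 → σ 0 = 0 → 0 ∉ d σ := fun σ h1 h0 => by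
    have m : ∀ σ τ : P8, Perm.sign σ = 1 → Perm.sign τ = 1 → σ 0 = 0 → (0 ∈ d (σ * τ) ↔ ¬ (0 ∈ d σ ↔ 0 ∈ d τ)) :=
      fun σ τ h1 h2 h0 => by
        have : 0 ∈ σ • d τ ↔ 0 ∈ d τ := by nth_rw 1 [← h0]; exact Finset.smul_mem_smul_finset_iff σ
        rw [hd σ τ h1 h2, Finset.mem_symmDiff, this]; tauto
    let f : Perm {x : Fin 8 // x ≠ 0} →* P8 := Perm.ofSubtype
    have f0 : ∀ τ, f τ 0 = 0 := fun τ => Perm.ofSubtype_apply_of_not_mem τ (by simp)
    have fs : ∀ τ, Perm.sign (f τ) = Perm.sign τ := Perm.sign_ofSubtype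
    have sq : ∀ τ, Perm.sign τ = 1 → 0 ∉ d (f (τ * τ)) := fun τ h => by
      rw [map_mul, m _ _ (fs τ ▸ h) (fs τ ▸ h) (f0 τ)]; simp
    have e := Perm.ofSubtype_subtypePerm (p := (· ≠ 0)) (f := σ) (fun x => by
      nth_rw 1 [← h0]; exact σ.injective.ne_iff) fun x hx e => hx (by rw [e, h0])
    have : ∀ τ ∈ alternatingGroup {x : Fin 8 // x ≠ 0}, Perm.sign τ = 1 ∧ 0 ∉ d (f τ) := fun τ hτ => by
      rw [← Perm.closure_three_cycles_eq_alternating] at hτ
      induction hτ using Subgroup.closure_induction'' with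
      | one => exact ⟨map_one _, by simpa using sq 1 (map_one _)⟩
      | mem x hx =>
        refine ⟨hx.sign, ?_⟩
        have := sq (x * x) (by simp)
        rwa [show x * x * (x * x) = x ^ orderOf x * x by rw [hx.orderOf]; simp [pow_succ, mul_assoc], pow_orderOf_eq_one,
          one_mul] at this
      | inv_mem x hx =>
        refine ⟨by simpa using hx.sign, ?_⟩
        have := sq x hx.sign
        rwa [show x * x = x ^ orderOf x * x⁻¹ by rw [hx.orderOf]; simp [pow_succ, mul_assoc], pow_orderOf_eq_one,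
          one_mul] at this
      | mul x y _ _ hx hy =>
        refine ⟨by simp [hx.1, hy.1], ?_⟩
        rw [map_mul, m _ _ (fs x ▸ hx.1) (fs y ▸ hy.1) (f0 x)]; simp [hx.2, hy.2]
    exact e ▸ (this _ (Perm.mem_alternatingGroup.2 (by rw [← fs, ← h1]; exact congrArg _ e))).2
  choose s s1 s0 using fun j : Fin 8 => (au_two (i := j) (j := j + 1) (by revert j; decide)).imp fun σ h => And.intro h.1 h.2.1
  refine ⟨Finset.univ.filter fun j => j ∈ d (s j), fun σ hσ => Finset.ext fun i => ?_⟩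
  obtain ⟨j, rfl⟩ := σ.surjective i
  have h1 := hd σ (s j) hσ (s1 j)
  have t1 : Perm.sign ((s (σ j))⁻¹ * (σ * s j)) = 1 := by simp [hσ, s1]
  have t0 : ((s (σ j))⁻¹ * (σ * s j)) 0 = 0 := by simp [s0, Equiv.symm_apply_eq]
  have h2 := hd (s (σ j)) _ (s1 _) t1
  rw [mul_inv_cancel_left, h1] at h2
  have h3 := Finset.ext_iff.1 h2 (σ j)
  have h4 : σ j ∉ s (σ j) • d ((s (σ j))⁻¹ * (σ * s j)) := fun e =>
    k _ t1 t0 ((Finset.smul_mem_smul_finset_iff (s (σ j))).1 (by rwa [Perm.smul_def, s0]))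
  have h5 : ∀ T : F8, σ j ∈ σ • T ↔ j ∈ T := fun T => Finset.smul_mem_smul_finset_iff σ
  simp only [Finset.mem_symmDiff, h5, h4, Finset.mem_filter, Finset.mem_univ, true_and] at h3 ⊢
  tauto

theorem au_cube : (rf hh * pE (swap 0 1) * sE {0, 1}) ^ 3 = 1 := by
  have e : pE (swap 0 1) * sE {0, 1} = rf (fr 0) := mat_inj (by rw [mat_mul, mat_pE, mat_sE (by decide), mat_rf (fr_root 0), au_m4])
  have h1 := rf_conj (rf hh) (fr_root 0)
  have h2 := rf_conj (rf (fr 0)) hh_root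
  rw [rf_mulVec hh_root, inv_eq_of_mul_eq_one_right (rf_sq _)] at h1
  rw [rf_mulVec (fr_root 0), inv_eq_of_mul_eq_one_right (rf_sq _), show hh - (fr 0 ⬝ᵥ hh) • fr 0 = -(fr 0 - (hh ⬝ᵥ fr 0) • hh) by
    decide +kernel, rf_neg, ← h1] at h2
  rw [mul_assoc, e]
  calc _ = rf hh * rf (fr 0) * rf hh * (rf (fr 0) * rf hh * rf (fr 0)) := by simp [pow_succ, mul_assoc]
    _ = rf hh * (rf (fr 0) * (rf hh * rf hh) * rf (fr 0)) * rf hh := by rw [h2]; simp only [mul_assoc]
    _ = 1 := by simp [rf_sq]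

theorem au_S (S : M8) (h : ∀ σ : P8, Perm.sign σ = 1 → pm σ * S = S * pm σ) (ho : Sᵀ * S = 1) :
    S = 1 ∨ S = -1 ∨ S = 1 - vecMulVec hh hh ∨ S = -(1 - vecMulVec hh hh) := by
  have k : ∀ σ : P8, Perm.sign σ = 1 → ∀ i j, S (σ i) (σ j) = S i j := fun σ hσ i j => by
    have := congrFun (congrFun (h σ hσ) (σ i)) j
    simpa [mul_apply, pm] using this.symm
  have k1 : ∀ i j, S i j = if i = j then S 0 0 else S 0 1 := fun i j => by
    split_ifs with e
    · obtain ⟨σ, h1, h2, -⟩ := au_two (i := j) (j := j + 1) (by clear e; revert j; decide)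
      rw [e, ← h2, k σ h1]
    · obtain ⟨σ, h1, rfl, rfl⟩ := au_two e
      exact k σ h1 0 1
  generalize S 0 0 = a, S 0 1 = b at k1
  have e0 := congrFun (congrFun ho 0) 0
  have e1 := congrFun (congrFun ho 0) 1
  simp [mul_apply, k1, Fin.sum_univ_eight] at e0 e1
  have h1 : b * (a + 3 * b) = 0 := by linarith
  rcases mul_eq_zero.1 h1 with h1 | h1
  · have h2 : (a - 1) * (a + 1) = 0 := by rw [h1] at e0; linarith
    rcases mul_eq_zero.1 h2 with h2 | h2
    · exact .inl (by ext i j; rw [k1, one_apply, h1, show a = 1 by linarith])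
    · exact .inr (.inl (by ext i j; rw [k1, Matrix.neg_apply, one_apply, h1, show a = -1 by linarith]; split_ifs <;> simp))
  · have h2 : (4 * b + 1) * (4 * b - 1) = 0 := by rw [show a = -3 * b by linarith] at e0; linarith
    rcases mul_eq_zero.1 h2 with h2 | h2
    · refine .inr (.inr (.inl ?_))
      ext i j; rw [k1]; simp only [Matrix.sub_apply, one_apply, vecMulVec_apply, hh]; split_ifs <;> linarith
    · refine .inr (.inr (.inr ?_))
      ext i j; rw [k1]; simp only [Matrix.neg_apply, Matrix.sub_apply, one_apply, vecMulVec_apply, hh]; split_ifs <;> linarith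

theorem aut_fix (h : ∀ c : F8, Even c.card → (φ ⟨sE c, sE_mem c⟩ : W) = sE c) :
    ∃ w : W, ∀ x : L0, (φ x : W) = w * x * w⁻¹ := by
  replace h : ∀ c : F8, Even c.card → ph φ (sE c) = sE c := fun c hc => (ph_eq φ _).trans (h c hc)
  choose d hd using fun σ : P8 => show ∃ d : F8, Perm.sign σ = 1 → Even d.card ∧ ph φ (pE σ) = sE d * pE σ by
    by_cases hσ : Perm.sign σ = 1
    swap; · exact ⟨∅, fun k => (hσ k).elim⟩
    obtain ⟨d, h1, h2⟩ := cent_E (g := ph φ (pE σ) * (pE σ)⁻¹) fun c hc => by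
      have hc' : Even (σ⁻¹ • c).card := by rwa [card_smul8]
      have k1 := ph_conj φ hσ hc'
      have k2 := pE_conj σ hc'
      rw [h _ hc', smul_inv_smul, h c hc] at k1
      rw [smul_inv_smul] at k2
      rw [Commute, SemiconjBy, ← mul_assoc, ← k1, ← k2]; group
    exact ⟨d, fun _ => ⟨h1, mul_inv_eq_iff_eq_mul.1 h2⟩⟩
  obtain ⟨D, hD⟩ := au_coc d fun σ τ h1 h2 => by
    have h3 : Perm.sign (σ * τ) = 1 := by simp [h1, h2]
    have e2 : Even (σ • d τ).card := by rw [card_smul8]; exact (hd τ h2).1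
    refine sE_inj (hd _ h3).1 (even_symmDiff (hd σ h1).1 e2) (mul_right_cancel (b := pE (σ * τ)) ?_)
    rw [← (hd _ h3).2, ← sE_mul (hd σ h1).1 e2, ← pE_conj σ (hd τ h2).1, ← pE_mul, ph_mul φ (pE_mem.2 h1) (pE_mem.2 h2),
      (hd σ h1).2, (hd τ h2).2]; group
  obtain ⟨δ, hδ⟩ : ∃ δ : M8, δ = diagonal (sgn D) := ⟨_, rfl⟩
  have δ2 : δ * δ = 1 := by rw [hδ, diagonal_mul_diagonal]; simp [au_sgn2]
  have δc : ∀ A : M8, δ * (δ * A) = A := fun A => by rw [← Matrix.mul_assoc, δ2, Matrix.one_mul]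
  have δt : δᵀ = δ := by rw [hδ, diagonal_transpose]
  have mp : ∀ σ : P8, Perm.sign σ = 1 → mat (ph φ (pE σ)) = δ * (pm σ * δ) := fun σ hσ => by
    rw [(hd σ hσ).2, mat_mul, mat_sE (hd σ hσ).1, mat_pE, hD σ hσ, hδ]
    ext i j
    simp only [diagonal_mul, mul_diagonal, pm, of_apply, au_sgn]
    split_ifs with e
    · simp only [e, one_mul, mul_one, sgn, show σ j ∈ σ • D ↔ j ∈ D from Finset.smul_mem_smul_finset_iff σ]
    · simp
  have yL : rf hh * pE (swap 0 1) ∈ L0 := mul_mem_L0 (rf_not_mem hh_root) (by rw [pE_mem]; decide)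
  have pmm : ∀ σ τ : P8, pm σ * pm τ = pm (σ * τ) := fun σ τ => by rw [← mat_pE, ← mat_pE, ← mat_mul, pE_mul, mat_pE]
  have pm1 : pm 1 = 1 := by rw [← mat_pE, pE_one, mat_one]
  have ss : pm (swap 0 1) * pm (swap 0 1) = 1 := by rw [pmm, Equiv.swap_mul_self, pm1]
  obtain ⟨S, hS⟩ : ∃ S, S = δ * (mat (ph φ (rf hh * pE (swap 0 1))) * (δ * pm (swap 0 1))) := ⟨_, rfl⟩
  have hY : mat (ph φ (rf hh * pE (swap 0 1))) = δ * (S * (pm (swap 0 1) * δ)) := by
    simp only [hS, Matrix.mul_assoc, δc]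
    rw [← Matrix.mul_assoc (pm _), ss, Matrix.one_mul, δ2, Matrix.mul_one]
  have hR : S = 1 - vecMulVec hh hh := by
    obtain ⟨N, hN⟩ : ∃ N, N = pm (swap 0 1) * diagonal (sgn {0, 1}) := ⟨_, rfl⟩
    have pw : ∀ g : W, mat (g ^ 3) = mat g ^ 3 := fun g => by simp only [pow_succ, pow_zero, mat_mul, mat_one]
    have c1 : (S * N) ^ 3 = 1 := by
      have k := congrArg (fun g => δ * (mat (ph φ g) * δ)) au_cube
      have yE := mul_mem yL (sE_mem {0, 1})
      simp only [pow_succ, pow_zero, one_mul, ph_mul φ (mul_mem yE yE) yE, ph_mul φ yE yE, ph_mul φ yL (sE_mem _), mat_mul, hY,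
        h {0, 1} (by decide), mat_sE (c := {0, 1}) (by decide), ph_one, mat_one, δ2] at k
      have k2 : ∀ A : M8, δ * (diagonal (sgn {0, 1}) * (δ * A)) = diagonal (sgn {0, 1}) * A := fun A => by
        rw [← Matrix.mul_assoc _ δ, show diagonal (sgn {0, 1}) * δ = δ * diagonal (sgn {0, 1}) by
          rw [hδ, diagonal_mul_diagonal, diagonal_mul_diagonal]; simp only [mul_comm], Matrix.mul_assoc, δc]
      have k3 := k2 1
      simp only [Matrix.mul_one] at k3
      simpa only [pow_succ, pow_zero, one_mul, hN, Matrix.mul_assoc, δc, k2, k3] using k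
    have c2 : ((1 - vecMulVec hh hh) * N) ^ 3 = 1 := by
      rw [hN, ← mat_rf hh_root, ← mat_pE, ← mat_sE (by decide), ← mat_mul, ← mat_mul, ← pw, ← mul_assoc, au_cube, mat_one]
    have c3 : N ^ 3 = N := by
      rw [hN, ← au_m4, ← mat_rf (fr_root 0), ← pw, pow_succ, pow_two, rf_sq, one_mul]
    have c4 : N 0 0 = 0 := by rw [hN]; decide +kernel
    refine (au_S S (fun σ hσ => ?_) ?_).elim (fun e => ?_) fun e => e.elim (fun e => ?_) fun e => e.elim id fun e => ?_
    rotate_left 2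
    · rw [e, one_mul, c3] at c1; simp [c1] at c4
    · rw [e, neg_mul, one_mul, Odd.neg_pow (by decide), c3, neg_eq_iff_eq_neg] at c1; simp [c1] at c4
    · rw [e, neg_mul, Odd.neg_pow (by decide), c2] at c1
      have := congrFun (congrFun c1 0) 0
      norm_num at this
    · have h1 : Perm.sign (swap 0 1 * σ * swap 0 1) = 1 := by simp [hσ]
      have k : pE σ * (rf hh * pE (swap 0 1)) = rf hh * pE (swap 0 1) * pE (swap 0 1 * σ * swap 0 1) := by
        rw [← mul_assoc, au_hh, mul_assoc, mul_assoc, pE_mul, pE_mul, ← mul_assoc, ← mul_assoc, Equiv.swap_mul_self, one_mul]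
      have k1 := congrArg (fun g => δ * (mat (ph φ g) * (δ * pm (swap 0 1)))) k
      simp only [ph_mul φ (pE_mem.2 hσ) yL, ph_mul φ yL (pE_mem.2 h1), mat_mul, mp _ hσ, mp _ h1, hY, Matrix.mul_assoc, δc,
        pmm] at k1
      simpa [pm1, ← mul_assoc] using k1
    · have o1 := (good_mat (ph φ (rf hh * pE (swap 0 1)))).1
      have o2 := (good_mat (pE (swap 0 1))).1
      rw [mat_pE] at o2
      rw [hS]
      simp only [transpose_mul, δt, Matrix.mul_assoc, δc]
      rw [← Matrix.mul_assoc _ (mat _), o1, Matrix.one_mul, δc, o2]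
  have hE : Even D.card := by
    have r1 : IsRoot (δ *ᵥ fr 0) := .inl ⟨0, 1, by decide, by
      simp only [hδ, mulVec_diagonal, show fr 0 0 = 1 by decide +kernel, show fr 0 1 = 1 by decide +kernel, sgn, mul_one]
      refine ⟨by split_ifs <;> simp, by split_ifs <;> simp, fun k h0 h1 => mul_eq_zero_of_right _ ?_⟩
      revert k; decide +kernel⟩
    have r2 := root_mat (ph φ (rf hh * pE (swap 0 1))) r1
    rw [hY, mulVec_mulVec, Matrix.mul_assoc, Matrix.mul_assoc, Matrix.mul_assoc, δ2, Matrix.mul_one, ← mulVec_mulVec, hR, hδ] at r2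
    obtain ⟨y, hy⟩ : ∃ y, y = ((1 - vecMulVec hh hh) * pm (swap 0 1)) *ᵥ fr 0 := ⟨_, rfl⟩
    have y1 : (∀ i, y i ≠ 0) ∧ 0 < ∏ i, y i := by rw [hy]; decide +kernel
    rw [← hy] at r2
    rcases r2 with ⟨i, j, -, -, -, k⟩ | ⟨-, k⟩
    · obtain ⟨l, l1, l2⟩ : ∃ l, l ≠ i ∧ l ≠ j := by clear k; revert i j; decide
      have := k l l1 l2
      rw [mulVec_diagonal, mul_eq_zero] at this
      exact (this.elim (fun e => by simpa [e] using au_sgn2 D l) (y1.1 l)).elim
    simp only [mulVec_diagonal, Finset.prod_mul_distrib, sgn, Finset.prod_ite, Finset.prod_const, one_pow, mul_one,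
      Finset.filter_mem_eq_inter, Finset.univ_inter] at k
    by_contra ho
    rw [(Nat.not_even_iff_odd.1 ho).neg_one_pow] at k
    linarith [y1.2]
  have w2 : (sE D)⁻¹ = sE D := inv_eq_of_mul_eq_one_right (by rw [sE_mul hE hE, symmDiff_self]; exact sE_empty)
  have mw : ∀ g, mat (sE D * g * (sE D)⁻¹) = δ * (mat g * δ) := fun g => by
    rw [w2, mat_mul, mat_mul, mat_sE hE, ← hδ, Matrix.mul_assoc]
  let H : Subgroup W := (MonoidHom.eqLocus (L0.subtype.comp φ.toMonoidHom)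
    ((MulAut.conj (sE D)).toMonoidHom.comp L0.subtype)).map L0.subtype
  have mH : ∀ g ∈ L0, ph φ g = sE D * g * (sE D)⁻¹ → g ∈ H := fun g hg e => ⟨⟨g, hg⟩, (ph_eq φ hg).symm.trans e, rfl⟩
  refine ⟨sE D, fun x => ?_⟩
  obtain ⟨x', hx, e⟩ := gen_L0' H (fun c hc => mH _ (sE_mem c) (by
      rw [h c hc, sE_mul hE hc, symmDiff_comm, ← sE_mul hc hE, mul_inv_cancel_right]))
    (fun σ hσ => mH _ (pE_mem.2 hσ) (mat_inj (by rw [mw, mp σ hσ, mat_pE])))
    (mH _ yL (mat_inj (by rw [mw, hY, hR, mat_mul, mat_rf hh_root, mat_pE, Matrix.mul_assoc]))) x.2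
  obtain rfl : x' = x := Subtype.ext e
  exact hx

theorem aut_W : ∃ w : W, ∀ x : L0, (φ x : W) = w * x * w⁻¹ := by
  obtain ⟨w, hw⟩ := aut_E φ
  obtain ⟨u, hu⟩ := aut_fix (φ.trans (MulAut.conjNormal w)) hw
  refine ⟨w⁻¹ * u, fun x => ?_⟩
  have h : w * (φ x : W) * w⁻¹ = u * x * u⁻¹ := hu x
  calc (φ x : W) = w⁻¹ * (w * (φ x : W) * w⁻¹) * w := by group
    _ = _ := by rw [h]; group

end Cfsg.Lib.W8
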