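import Cfsg.Agent.Lib.W8.Defs

/-! Roots, reflections, the monomial group `2^7 : S₈`. -/

set_option autoImplicit false

namespace Cfsg.Lib.W8

open Matrix
open scoped Pointwise symmDiff

variable {a x y : V} {g h w : W} {c d : F8} {σ τ : P8}

/-- the root lattice -/
def BaL (x : V) : Prop := ∃ (n : Fin 8 → ℤ) (e : ℤ), (∀ i, x i = n i + e / 2) ∧ Even (∑ i, n i)

theorem ba_sgn_sq (c : F8) (i : Fin 8) : sgn c i * sgn c i = 1 := by unfold sgn; split_ifs <;> norm_num

theorem ba_prod_sgn (c : F8) : ∏ i, sgn c i = (-1) ^ c.card := by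
  simp [sgn]

theorem ba_sum_sgn (c : F8) : ∑ i, sgn c i = 8 - 2 * c.card := by
  have : ∀ i, sgn c i = 1 - 2 * if i ∈ c then 1 else 0 := fun i => by unfold sgn; split_ifs <;> norm_num
  simp [this, Finset.sum_sub_distrib, mul_comm]

theorem ba_half {x : V} : ((∀ i, x i = 1 / 2 ∨ x i = -1 / 2) ∧ 0 < ∏ i, x i) ↔
    ∃ c : F8, Even c.card ∧ x = fun i => sgn c i / 2 := by
  have k : ∀ c : F8, 0 < ∏ i, sgn c i / 2 ↔ Even c.card := fun c => by
    rw [Finset.prod_div_distrib, ba_prod_sgn]
    rcases c.card.even_or_odd with h | h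
    · simp [h, h.neg_one_pow]
    · simp [h.neg_one_pow, Nat.not_even_iff_odd.2 h]
  constructor
  · rintro ⟨h1, h2⟩
    have : x = fun i => sgn (Finset.univ.filter fun i => x i < 0) i / 2 := funext fun i => by
      rcases h1 i with e | e <;> simp [sgn, e] <;> norm_num
    exact ⟨_, (k _).1 (this ▸ h2), this⟩
  · rintro ⟨c, hc, rfl⟩
    exact ⟨fun i => by simp only [sgn]; split_ifs <;> simp, (k c).2 hc⟩

theorem ba_sum2 {i j : Fin 8} (ij : i ≠ j) {M : Type*} [AddCommMonoid M] (f : Fin 8 → M)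
    (h : ∀ k, k ≠ i → k ≠ j → f k = 0) : ∑ k, f k = f i + f j := by
  rw [← Finset.sum_pair ij]
  exact (Finset.sum_subset (Finset.subset_univ _) fun k _ hk => h k (fun e => hk (by simp [e])) fun e => hk (by simp [e])).symm

theorem ba_root_iff : IsRoot x ↔ BaL x ∧ x ⬝ᵥ x = 2 := by
  constructor
  · rintro (⟨i, j, ij, hi, hj, h⟩ | h)
    · refine ⟨⟨fun k => (x k).num, 0, fun k => ?_, ?_⟩, ?_⟩
      · by_cases e : k = i
        · rcases hi with f | f <;> simp [e, f]
        by_cases e' : k = j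
        · rcases hj with f | f <;> simp [e', f]
        simp [h k e e']
      · rw [ba_sum2 ij _ fun k a b => by simp [h k a b]]
        rcases hi with f | f <;> rcases hj with f' | f' <;> simp [f, f']
      · rw [dotProduct, ba_sum2 ij _ fun k a b => by simp [h k a b]]
        rcases hi with f | f <;> rcases hj with f' | f' <;> norm_num [f, f']
    · obtain ⟨c, hc, rfl⟩ := ba_half.1 h
      refine ⟨⟨fun k => -if k ∈ c then 1 else 0, 1, fun k => ?_, by simpa using hc⟩, ?_⟩
      · simp only [sgn]; split_ifs <;> norm_num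
      · simp only [dotProduct, div_mul_div_comm, ba_sgn_sq]; norm_num
  · rintro ⟨⟨n, e, h1, h2⟩, h3⟩
    obtain ⟨m, hm, he⟩ : ∃ m : Fin 8 → ℤ, Even (∑ i, m i) ∧ ((∀ i, x i = m i) ∨ ∀ i, x i = m i + 1 / 2) := by
      refine ⟨fun i => n i + e / 2, by
        rw [Finset.sum_add_distrib]; exact h2.add ⟨4 * (e / 2), by simp; ring⟩, ?_⟩
      rcases e.even_or_odd' with ⟨k, rfl | rfl⟩
      · exact .inl fun i => by rw [h1]; simp
      · exact .inr fun i => by rw [h1, show (2 * k + 1) / 2 = k by omega]; push_cast; ring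
    rcases he with he | he
    · have h4 : ∑ i, m i * m i = 2 := by simp only [dotProduct, he] at h3; exact_mod_cast h3
      have h5 : ∀ i, m i = 0 ∨ m i = 1 ∨ m i = -1 := fun i => by
        have := h4 ▸ Finset.single_le_sum (f := fun i => m i * m i) (fun i _ => mul_self_nonneg _) (Finset.mem_univ i)
        have : m i ≤ 1 := by nlinarith
        have : -1 ≤ m i := by nlinarith
        omega
      have h6 : ∀ i, m i * m i = if m i ≠ 0 then 1 else 0 := fun i => by rcases h5 i with f | f | f <;> simp [f]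
      simp only [h6, Finset.sum_boole] at h4
      obtain ⟨i, j, ij, h7⟩ := Finset.card_eq_two.1 (by exact_mod_cast h4)
      have h8 : ∀ k, m k ≠ 0 ↔ k = i ∨ k = j := fun k => by simpa using Finset.ext_iff.1 h7 k
      have h9 : ∀ k, m k ≠ 0 → x k = 1 ∨ x k = -1 := fun k hk => by
        rw [he]; exact_mod_cast (h5 k).resolve_left hk
      exact .inl ⟨i, j, ij, h9 i ((h8 i).2 (.inl rfl)), h9 j ((h8 j).2 (.inr rfl)), fun k a b => by
        rw [he, show m k = 0 from by_contra fun f => ((h8 k).1 f).elim a b]; simp⟩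
    · have h4 : ∑ i, m i * (m i + 1) = 0 := by
        have : ∑ i, ((m i : ℚ) * (m i + 1)) = 0 := by
          simp only [dotProduct, he, Fin.sum_univ_eight] at h3 ⊢; linear_combination h3
        exact_mod_cast this
      have h5 : ∀ i, m i = 0 ∨ m i = -1 := fun i => by
        have := (Finset.sum_eq_zero_iff_of_nonneg fun i _ => show 0 ≤ m i * (m i + 1) by
          rcases le_total 0 (m i) with f | f
          exacts [by positivity, by rcases f.eq_or_lt with f | f; simp [f]; nlinarith]).1 h4 i (Finset.mem_univ i)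
        rcases mul_eq_zero.1 this with f | f <;> omega
      refine .inr (ba_half.2 ⟨Finset.univ.filter fun i => m i = -1, ?_, funext fun i => ?_⟩)
      · have h6 : ∀ i, m i = -if m i = -1 then 1 else 0 := fun i => by rcases h5 i with f | f <;> simp [f]
        rw [Finset.sum_congr rfl fun i _ => h6 i] at hm
        simpa using hm
      · rcases h5 i with f | f <;> simp [he, sgn, f] <;> norm_num

theorem ba_dot_int (hx : BaL x) (hy : BaL y) : ∃ n : ℤ, x ⬝ᵥ y = n := by
  obtain ⟨n, e, h1, k, hk⟩ := hx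
  obtain ⟨m, f, h2, l, hl⟩ := hy
  refine ⟨∑ i, n i * m i + f * k + e * l + 2 * e * f, ?_⟩
  have hk' := congrArg (Int.cast : ℤ → ℚ) hk
  have hl' := congrArg (Int.cast : ℤ → ℚ) hl
  simp only [dotProduct, h1, h2, Fin.sum_univ_eight] at hk' hl' ⊢
  push_cast at hk' hl' ⊢
  linear_combination (f / 2 : ℚ) * hk' + (e / 2 : ℚ) * hl'

theorem BaL.sub_smul (hx : BaL x) (hy : BaL y) (t : ℤ) : BaL (x - (t : ℚ) • y) := by
  obtain ⟨n, e, h1, hk⟩ := hx
  obtain ⟨m, f, h2, hl⟩ := hy
  refine ⟨fun i => n i - t * m i, e - t * f, fun i => by simp [h1, h2]; ring, ?_⟩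
  rw [Finset.sum_sub_distrib, ← Finset.mul_sum]
  exact hk.sub (hl.mul_left t)

theorem root_dot (h : IsRoot x) : x ⬝ᵥ x = 2 := (ba_root_iff.1 h).2

theorem root_neg (h : IsRoot x) : IsRoot (-x) := by
  obtain ⟨h1, h2⟩ := ba_root_iff.1 h
  exact ba_root_iff.2 ⟨by convert h1.sub_smul h1 2 using 1; ext; simp; ring, by simpa using h2⟩

theorem root_cases (hx : IsRoot x) (hy : IsRoot y) :
    x = y ∨ x ⬝ᵥ y = 1 ∨ x ⬝ᵥ y = 0 ∨ x ⬝ᵥ y = -1 ∨ x = -y := by
  obtain ⟨n, hn⟩ := ba_dot_int (ba_root_iff.1 hx).1 (ba_root_iff.1 hy).1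
  have h1 : (x - y) ⬝ᵥ (x - y) = 4 - 2 * n := by
    rw [sub_dotProduct, dotProduct_sub, dotProduct_sub, dotProduct_comm y x, root_dot hx, root_dot hy, hn]; ring
  have h2 : (x + y) ⬝ᵥ (x + y) = 4 + 2 * n := by
    rw [add_dotProduct, dotProduct_add, dotProduct_add, dotProduct_comm y x, root_dot hx, root_dot hy, hn]; ring
  have k : ∀ v : V, 0 ≤ v ⬝ᵥ v := fun v => Finset.sum_nonneg fun i _ => mul_self_nonneg _
  have h3 : (n : ℚ) ≤ 2 := by linarith [k (x - y)]
  have h4 : (-2 : ℚ) ≤ n := by linarith [k (x + y)]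
  have h3 : n ≤ 2 := by exact_mod_cast h3
  have h4 : -2 ≤ n := by exact_mod_cast h4
  rw [hn]
  interval_cases n
  · exact .inr (.inr (.inr (.inr (eq_neg_of_add_eq_zero_left (dotProduct_self_eq_zero.1 (by rw [h2]; norm_num))))))
  · simp
  · simp
  · simp
  · exact .inl (sub_eq_zero.1 (dotProduct_self_eq_zero.1 (by rw [h1]; norm_num)))

theorem root_refl (ha : IsRoot a) (hx : IsRoot x) : IsRoot (x - (a ⬝ᵥ x) • a) := by
  obtain ⟨n, hn⟩ := ba_dot_int (ba_root_iff.1 ha).1 (ba_root_iff.1 hx).1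
  refine ba_root_iff.2 ⟨hn ▸ (ba_root_iff.1 hx).1.sub_smul (ba_root_iff.1 ha).1 n, ?_⟩
  simp only [sub_dotProduct, dotProduct_sub, dotProduct_smul, smul_dotProduct, dotProduct_comm x a, root_dot hx,
    root_dot ha, smul_eq_mul]
  ring

theorem finite_roots : {x : V | IsRoot x}.Finite := by
  refine (Set.Finite.pi' fun _ : Fin 8 => (Set.toFinite ({0, 1, -1, 1 / 2, -1 / 2} : Set ℚ))).subset ?_
  rintro x (⟨i, j, -, hi, hj, h⟩ | ⟨h, -⟩) k
  · by_cases e : k = i
    · rcases hi with f | f <;> simp [e, f]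
    by_cases e' : k = j
    · rcases hj with f | f <;> simp [e', f]
    simp [h k e e']
  · rcases h k with f | f <;> simp [f]

theorem al_root (i : Fin 8) : IsRoot (al i) := by
  unfold IsRoot; revert i; decide +kernel

theorem hh_root : IsRoot hh := 
  .inr ⟨fun _ => .inl rfl, by simp [hh]⟩

theorem root_mat (g : W) (hx : IsRoot x) : IsRoot (mat g *ᵥ x) := ((good_mat g).2 x).1 hx

theorem dot_mat (g : W) (x y : V) : (mat g *ᵥ x) ⬝ᵥ (mat g *ᵥ y) = x ⬝ᵥ y := by
  rw [dotProduct_mulVec, vecMul_mulVec, (good_mat g).1, vecMul_one]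

/-- the simple roots are a basis -/
theorem ext_al (e : ∀ i, mat g *ᵥ al i = mat h *ᵥ al i) : g = h := by
  refine mat_inj (Matrix.ext fun i j => ?_)
  have k := fun l => congrFun (e l) i
  have k0 := k 0; have k1 := k 1; have k2 := k 2; have k3 := k 3; have k4 := k 4; have k5 := k 5; have k6 := k 6
  have k7 := k 7
  simp [al, mulVec, dotProduct, Fin.sum_univ_eight] at k0 k1 k2 k3 k4 k5 k6 k7
  fin_cases j <;> simp <;> linarith

instance finite_W : Finite W := 
  have := finite_roots.to_subtype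
  Finite.of_injective (fun g : W => fun i => (⟨mat g *ᵥ al i, root_mat g (al_root i)⟩ : {x : V | IsRoot x}))
    fun _ _ e => ext_al fun i => congrArg Subtype.val (congrFun e i)

theorem ba_good {A : M8} (h1 : Aᵀ * A = 1) (h2 : ∀ x, IsRoot x → IsRoot (A *ᵥ x)) : Good A := by
  have inj : Function.Injective fun x : V => A *ᵥ x := fun x y e => by
    simpa [mulVec_mulVec, h1] using congrArg (fun v => Aᵀ *ᵥ v) e
  refine ⟨h1, fun x => ⟨h2 x, fun hx => ?_⟩⟩
  obtain ⟨y, hy, e⟩ := ((finite_roots.injOn_iff_bijOn_of_mapsTo (f := fun x : V => A *ᵥ x) h2).1 inj.injOn).surjOn hx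
  exact inj e ▸ hy

theorem ba_good' {A : M8} (h1 : Aᵀ * A = 1) (h2 : ∀ x, BaL x → BaL (A *ᵥ x)) : Good A :=
  ba_good h1 fun x hx => ba_root_iff.2 ⟨h2 x (ba_root_iff.1 hx).1, by
    rw [dotProduct_mulVec, vecMul_mulVec, h1, vecMul_one, root_dot hx]⟩

theorem mat_z : mat z = -1 := mat_mk (ba_good (by simp) fun x hx => by simpa [neg_mulVec] using root_neg hx)
theorem z_mul_z : z * z = 1 := mat_inj (by simp [mat_mul, mat_z, mat_one])
theorem z_ne_one : z ≠ 1 := fun e => by
  have := congrFun (congrFun (congrArg mat e) 0) 0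
  rw [mat_z, mat_one] at this; norm_num at this
theorem z_comm (g : W) : Commute z g := mat_inj (by simp [mat_mul, mat_z])
theorem z_mem : z ∈ L0 := by rw [mem_L0, mat_z, det_neg]; norm_num

theorem det_cases (g : W) : (mat g).det = 1 ∨ (mat g).det = -1 := by
  have := congrArg det (good_mat g).1
  rw [det_mul, det_transpose, det_one] at this
  exact mul_self_eq_one_iff.1 this

instance normal_L0 : L0.Normal := ⟨fun x hx g => by
  rw [mem_L0, mat_mul, mat_mul, det_mul, det_mul, mem_L0.1 hx, mul_one, ← det_mul, ← mat_mul, mul_inv_cancel, mat_one,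
    det_one]⟩

theorem mul_mem_L0 (hg : g ∉ L0) (hh : h ∉ L0) : g * h ∈ L0 := by
  rw [mem_L0, mat_mul, det_mul, (det_cases g).resolve_left hg, (det_cases h).resolve_left hh]; norm_num

/-- `det (g - 1) = det g * det (1 - gᵀ) = - det (g - 1)`, so `g` fixes a nonzero vector -/
theorem pow_ne_z (hg : g ∉ L0) (n : ℕ) : g ^ n ≠ z := fun e => by
  have h1 : (mat g - 1).det = 0 := by
    have : mat g - 1 = mat g * (-(mat g - 1))ᵀ := by
      rw [neg_sub, transpose_sub, transpose_one, Matrix.mul_sub, (good_mat g).mul_eq, Matrix.mul_one]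
    have := congrArg det this
    rw [det_mul, det_transpose, det_neg, (det_cases g).resolve_left hg] at this
    norm_num at this; linarith
  obtain ⟨v, v0, hv⟩ := exists_mulVec_eq_zero_iff.2 h1
  rw [sub_mulVec, one_mulVec, sub_eq_zero] at hv
  have h2 : ∀ n : ℕ, mat (g ^ n) *ᵥ v = v := fun n => by
    induction n with
    | zero => simp [mat_one]
    | succ n ih => rw [pow_succ, mat_mul, ← mulVec_mulVec, hv, ih]
  have := h2 n
  rw [e, mat_z, neg_mulVec, one_mulVec] at this
  exact v0 (funext fun i => by have := congrFun this i; simp at this ⊢; linarith)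

theorem tr_conj (g h : W) : tr (g * h * g⁻¹) = tr h := by
  rw [tr, mat_mul, trace_mul_comm, ← mat_mul, inv_mul_cancel_left, tr]
theorem tr_z_mul (g : W) : tr (z * g) = -tr g := by simp [tr, mat_mul, mat_z]
theorem tr_one : tr 1 = 8 := by simp [tr, mat_one]

theorem ba_rf_vec (a x : V) : (1 - vecMulVec a a) *ᵥ x = x - (a ⬝ᵥ x) • a := by
  rw [sub_mulVec, one_mulVec, vecMulVec_mulVec]; ext; simp [mul_comm]

theorem mat_rf (ha : IsRoot a) : mat (rf a) = 1 - vecMulVec a a := 
  mat_mk (ba_good (by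
    simp only [transpose_sub, transpose_one, transpose_vecMulVec, Matrix.mul_sub, Matrix.sub_mul, Matrix.one_mul,
      Matrix.mul_one, vecMulVec_mul_vecMulVec, root_dot ha, vecMulVec_smul]
    module) fun x hx => ba_rf_vec a x ▸ root_refl ha hx)
theorem rf_mulVec (ha : IsRoot a) (x : V) : mat (rf a) *ᵥ x = x - (a ⬝ᵥ x) • a := by
  rw [mat_rf ha, ba_rf_vec]
theorem rf_sq (a : V) : rf a * rf a = 1 := by
  by_cases h : Good (1 - vecMulVec a a)
  · exact mat_inj (by simpa [mat_mul, rf, mat_mk h, mat_one] using h.1)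
  · simp [rf, mk, h]
theorem rf_not_mem (ha : IsRoot a) : rf a ∉ L0 := fun e => by
  rw [mem_L0, mat_rf ha, sub_eq_add_neg, ← neg_vecMulVec, vecMulVec_eq Unit,
    det_one_add_replicateCol_mul_replicateRow, dotProduct_neg, root_dot ha] at e
  norm_num at e
theorem rf_conj (g : W) (ha : IsRoot a) : g * rf a * g⁻¹ = rf (mat g *ᵥ a) := mat_inj (by
  rw [mat_mul, mat_mul, mat_inv, mat_rf ha, mat_rf (root_mat g ha), Matrix.mul_sub, Matrix.sub_mul, Matrix.mul_one,
    (good_mat g).mul_eq, mul_vecMulVec, vecMulVec_mul, vecMul_transpose])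
theorem rf_neg (a : V) : rf (-a) = rf a := by simp [rf]
theorem tr_rf (ha : IsRoot a) : tr (rf a) = 6 := by
  rw [tr, mat_rf ha, trace_sub, trace_vecMulVec, root_dot ha]; norm_num
theorem rf_inj (ha : IsRoot a) (hx : IsRoot x) (e : rf a = rf x) : a = x ∨ a = -x := by
  have h1 := congrArg (fun g => (mat g *ᵥ a) ⬝ᵥ a) e
  simp only [rf_mulVec ha, rf_mulVec hx, sub_dotProduct, smul_dotProduct, root_dot ha, smul_eq_mul,
    dotProduct_comm x a] at h1
  rcases root_cases ha hx with f | f | f | f | f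
  exacts [.inl f, by norm_num [f] at h1, by norm_num [f] at h1, by norm_num [f] at h1, .inr f]
theorem rf_comm (ha : IsRoot a) (hx : IsRoot x) (e : Commute (rf a) (rf x)) :
    a = x ∨ a = -x ∨ a ⬝ᵥ x = 0 := by
  have h1 : rf (mat (rf a) *ᵥ x) = rf x := by rw [← rf_conj _ hx, e.eq, mul_inv_cancel_right]
  have h2 := (rf_inj (root_mat _ hx) hx h1).imp (congrArg (· ⬝ᵥ x)) (congrArg (· ⬝ᵥ x))
  simp only [rf_mulVec ha, sub_dotProduct, smul_dotProduct, root_dot hx, smul_eq_mul, neg_dotProduct] at h2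
  rcases root_cases ha hx with f | f | f | f | f
  exacts [.inl f, by norm_num [f] at h2, .inr (.inr f), by norm_num [f] at h2, .inr (.inl f)]

theorem mat_sE (hc : Even c.card) : mat (sE c) = diagonal (sgn c) := 
  mat_mk (ba_good' (by rw [diagonal_transpose, diagonal_mul_diagonal, ← diagonal_one]; simp only [ba_sgn_sq]) (by
    rintro x ⟨n, e, h1, h2⟩
    refine ⟨fun i => n i - if i ∈ c then 2 * n i + e else 0, e, fun i => ?_, ?_⟩
    · simp only [mulVec_diagonal, h1, sgn]; split_ifs <;> push_cast <;> ring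
    · rw [Finset.sum_sub_distrib, Finset.sum_ite_mem, Finset.univ_inter, Finset.sum_add_distrib, ← Finset.mul_sum]
      exact h2.sub ((even_two_mul _).add (by
        rw [Finset.sum_const, nsmul_eq_mul]; exact ((Int.even_coe_nat _).2 hc).mul_right e))))

theorem ba_sgn_mul (c d : F8) (i : Fin 8) : sgn c i * sgn d i = sgn (c ∆ d) i := by
  simp only [sgn, Finset.mem_symmDiff]; by_cases i ∈ c <;> by_cases i ∈ d <;> simp [*]

theorem ba_even {c : F8} : Even c.card ↔ ∏ i, sgn c i = 1 := by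
  rw [ba_prod_sgn, neg_one_pow_eq_one_iff_even (by norm_num)]

theorem even_symmDiff (hc : Even c.card) (hd : Even d.card) : Even (c ∆ d).card := by
  simp only [ba_even, ← ba_sgn_mul, Finset.prod_mul_distrib] at *
  rw [hc, hd, one_mul]

theorem sE_mul (hc : Even c.card) (hd : Even d.card) : sE c * sE d = sE (c ∆ d) := mat_inj (by
  simp [mat_mul, mat_sE hc, mat_sE hd, mat_sE (even_symmDiff hc hd), ba_sgn_mul])
theorem sE_inj (hc : Even c.card) (hd : Even d.card) (e : sE c = sE d) : c = d := by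
  have := congrArg mat e
  rw [mat_sE hc, mat_sE hd, diagonal_eq_diagonal_iff] at this
  ext i
  have := this i
  by_cases a : i ∈ c <;> by_cases b : i ∈ d
  exacts [by simp [a, b], by norm_num [sgn, a, b] at this, by norm_num [sgn, a, b] at this, by simp [a, b]]
theorem sE_empty : sE ∅ = 1 := mat_inj (by rw [mat_sE (by simp), mat_one, ← diagonal_one]; congr 1)
theorem sE_univ : sE Finset.univ = z := mat_inj (by
  rw [mat_sE (by simp; decide), mat_z, ← diagonal_one, diagonal_neg]; congr 1; ext; simp [sgn])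

theorem ba_even_of_good (h : Good (diagonal (sgn c))) : Even c.card := by
  rcases (h.2 _).1 hh_root with ⟨i, j, -, hi, -⟩ | ⟨-, hi⟩
  · simp only [mulVec_diagonal, hh, sgn] at hi
    split_ifs at hi <;> norm_num at hi
  · simp only [mulVec_diagonal, hh, Finset.prod_mul_distrib, ba_prod_sgn] at hi
    by_contra e
    rw [(Nat.not_even_iff_odd.1 e).neg_one_pow] at hi
    norm_num at hi

theorem sE_mem (c : F8) : sE c ∈ L0 := by
  by_cases h : Good (diagonal (sgn c))
  · rw [mem_L0, mat_sE (ba_even_of_good h), det_diagonal, ba_even.1 (ba_even_of_good h)]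
  · simp [sE, mk, h]
theorem tr_sE (hc : Even c.card) : tr (sE c) = 8 - 2 * c.card := by
  rw [tr, mat_sE hc, trace_diagonal, ba_sum_sgn]
theorem card_smul8 (σ : P8) (c : F8) : (σ • c).card = c.card := Finset.card_smul_finset σ c

theorem ba_pm (σ : P8) : pm σ = σ⁻¹.permMatrix ℚ := by
  ext i j; simp [pm, PEquiv.toMatrix_apply, Equiv.symm_apply_eq, Equiv.Perm.inv_def]

theorem mat_pE (σ : P8) : mat (pE σ) = pm σ := 
  mat_mk (ba_good' (by rw [ba_pm, transpose_permMatrix, ← permMatrix_mul]; simp) (by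
    rintro x ⟨n, e, h1, h2⟩
    exact ⟨fun i => n (σ⁻¹ i), e, fun i => by simp [ba_pm, permMatrix_mulVec, h1], by rwa [Equiv.sum_comp σ⁻¹ n]⟩))
theorem pE_mul (σ τ : P8) : pE σ * pE τ = pE (σ * τ) := mat_inj (by
  simp only [mat_mul, mat_pE, ba_pm, _root_.mul_inv_rev, permMatrix_mul])
theorem pE_one : pE 1 = 1 := mat_inj (by simp [mat_pE, ba_pm, mat_one])
theorem pE_conj (σ : P8) (hc : Even c.card) : pE σ * sE c * (pE σ)⁻¹ = sE (σ • c) := by
  rw [mul_inv_eq_iff_eq_mul]
  refine mat_inj (Matrix.ext fun i j => ?_)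
  rw [mat_mul, mat_mul, mat_pE, mat_sE hc, mat_sE ((card_smul8 σ c).symm ▸ hc), mul_diagonal, diagonal_mul]
  by_cases e : i = σ j
  · subst e
    have : σ j ∈ σ • c ↔ j ∈ c := Finset.smul_mem_smul_finset_iff σ
    simp [pm, sgn, this]
  · simp [pm, e]
theorem pE_mem : pE σ ∈ L0 ↔ Equiv.Perm.sign σ = 1 := by
  rw [mem_L0, mat_pE, ba_pm, det_permutation, Equiv.Perm.sign_inv]
  rcases Int.units_eq_one_or σ.sign with e | e <;> simp [e]; norm_num

/-- `g (e a + e j)` is a root having inner product 1 with `g (e a) = ± e b`, so `g (e j) = ± e k`; the number of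
signs is even because `g hh` is a root. -/
theorem mon {i j : Fin 8}
    (e : mat g *ᵥ Pi.single i 1 = Pi.single j 1 ∨ mat g *ᵥ Pi.single i 1 = -Pi.single j 1) :
    ∃ d : F8, Even d.card ∧ ∃ σ : P8, g = sE d * pE σ := by
  have col : ∀ k, ∃ l, mat g *ᵥ Pi.single k 1 = Pi.single l 1 ∨ mat g *ᵥ Pi.single k 1 = -Pi.single l 1 := fun k => by
    by_cases ki : k = i
    · exact ⟨j, ki ▸ e⟩
    have r : IsRoot (mat g *ᵥ (Pi.single i 1 + Pi.single k 1)) := root_mat g (.inl ⟨i, k, Ne.symm ki, by simp [Ne.symm ki],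
      by simp [ki], fun l a b => by simp [a, b]⟩)
    have o : (mat g *ᵥ Pi.single k 1) j = 0 := by
      have := dot_mat g (Pi.single k 1) (Pi.single i 1)
      rcases e with e | e <;> simpa [e, Ne.symm ki] using this
    obtain ⟨v, hv⟩ : ∃ v, v = mat g *ᵥ Pi.single k 1 := ⟨_, rfl⟩
    rw [mulVec_add, ← hv] at r
    rw [← hv] at o ⊢
    obtain ⟨s, hs, e⟩ : ∃ s : ℚ, (s = 1 ∨ s = -1) ∧ mat g *ᵥ Pi.single i 1 = Pi.single j s := by
      rcases e with e | e
      exacts [⟨1, .inl rfl, e⟩, ⟨-1, .inr rfl, by rw [e, Pi.single_neg]⟩]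
    rw [e] at r
    have fin : ∀ l, l ≠ j → (v l = 1 ∨ v l = -1) → (∀ m, m ≠ j → m ≠ l → v m = 0) →
        ∃ l, v = Pi.single l 1 ∨ v = -Pi.single l 1 := fun l lj h1 h2 => ⟨l, h1.imp (fun f => funext fun m => by
      by_cases a : m = l
      · simp [a, f]
      by_cases b : m = j
      exacts [by simp [b, o, lj.symm], by simp [a, h2 m b a]]) fun f => funext fun m => by
      by_cases a : m = l
      · simp [a, f]
      by_cases b : m = j
      exacts [by simp [b, o, lj.symm], by simp [a, h2 m b a]]⟩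
    rcases r with ⟨p, q, pq, hp, hq, h⟩ | ⟨h, -⟩
    · by_cases a : p = j
      · subst a
        exact fin q pq.symm (by simpa [pq.symm] using hq) fun m b c => by simpa [b] using h m b c
      by_cases b : q = j
      · subst b
        exact fin p pq (by simpa [pq] using hp) fun m b c => by simpa [b] using h m c b
      have := h j (Ne.symm a) (Ne.symm b)
      rcases hs with rfl | rfl <;> simp [o] at this
    · have := h j
      rcases hs with rfl | rfl <;> norm_num [o] at this
  choose f hf using col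
  have inj : Function.Injective f := fun k l kl => by
    by_contra n
    have := dot_mat g (Pi.single k 1) (Pi.single l 1)
    rcases hf k with a | a <;> rcases hf l with b | b <;> simp [a, b, kl, Ne.symm n] at this
  let σ : P8 := Equiv.ofBijective f (Finite.injective_iff_bijective.1 inj)
  let d : F8 := Finset.univ.filter fun l => mat g l (σ⁻¹ l) < 0
  have k : mat g = diagonal (sgn d) * pm σ := Matrix.ext fun l k => by
    have h1 : mat g l k = (mat g *ᵥ Pi.single k 1) l := by simp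
    have h2 : σ k = f k := rfl
    rw [diagonal_mul]
    by_cases a : l = σ k
    · have : l ∈ d ↔ mat g l k < 0 := by simp [d, a]
      rcases hf k with b | b <;> rw [b, a, h2] at h1 <;> simp only [pm, sgn, this] <;> simp [a, h2, h1]
    · rcases hf k with b | b <;> rw [b] at h1 <;> simp [pm, h1, a, ← h2]
  have k2 : mat (g * (pE σ)⁻¹) = diagonal (sgn d) := by
    rw [mat_mul, k, ← mat_pE, Matrix.mul_assoc, ← mat_mul, mul_inv_cancel, mat_one, Matrix.mul_one]
  have ev := ba_even_of_good (k2 ▸ good_mat _)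
  exact ⟨d, ev, σ, mat_inj (by rw [mat_mul, mat_sE ev, mat_pE, k])⟩

theorem cent_E (e : ∀ c : F8, Even c.card → Commute g (sE c)) :
    ∃ d : F8, Even d.card ∧ g = sE d := by
  have off : ∀ i j, i ≠ j → mat g i j = 0 := fun i j ij => by
    obtain ⟨k, ki, kj⟩ : ∃ k, k ≠ i ∧ k ≠ j := by revert i j; decide
    have hc : Even ({i, k} : F8).card := by rw [Finset.card_pair ki.symm]; decide
    have := congrFun (congrFun (congrArg mat (e _ hc).eq) i) j
    simp [mat_mul, mat_sE hc, sgn, ij.symm, kj.symm] at this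
    linarith
  have dg : ∀ i, mat g i i = 1 ∨ mat g i i = -1 := fun i => by
    have := congrFun (congrFun (good_mat g).1 i) i
    rw [mul_apply, Finset.sum_eq_single i (fun j _ ji => by simp [off j i ji]) (by simp)] at this
    exact mul_self_eq_one_iff.1 (by simpa using this)
  let d : F8 := Finset.univ.filter fun l => mat g l l < 0
  have k : mat g = diagonal (sgn d) := Matrix.ext fun i j => by
    by_cases ij : i = j
    · subst ij; rcases dg i with a | a <;> simp [sgn, d, a]
    · simp [off i j ij, ij]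
  have ev := ba_even_of_good (k ▸ good_mat _)
  exact ⟨d, ev, mat_inj (by rw [mat_sE ev, k])⟩

theorem cent_L0 (e : ∀ x ∈ L0, Commute g x) : g = 1 ∨ g = z := by
  obtain ⟨d, hd, rfl⟩ := cent_E fun c _ => e _ (sE_mem c)
  rcases d.eq_empty_or_nonempty with rfl | ⟨i, hi⟩
  · exact .inl sE_empty
  refine .inr ((congrArg sE (Finset.eq_univ_of_forall (s := d) fun j => ?_)).trans sE_univ)
  by_contra hj
  have ij : i ≠ j := fun f => hj (f ▸ hi)
  obtain ⟨k, ki, kj⟩ := (by decide : ∀ i j : Fin 8, ∃ k, k ≠ i ∧ k ≠ j) i j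
  have h1 := e (pE (Equiv.swap j k * Equiv.swap i k)) (pE_mem.2 (by simp [ki.symm, kj.symm]))
  have h2 := pE_conj (Equiv.swap j k * Equiv.swap i k) hd
  rw [← h1.eq, mul_inv_cancel_right] at h2
  have := Finset.smul_mem_smul_finset (a := Equiv.swap j k * Equiv.swap i k) hi
  rw [← sE_inj hd ((card_smul8 _ d).symm ▸ hd) h2] at this
  exact hj (by simpa using this)

end Cfsg.Lib.W8
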