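import Cfsg.Agent.Lib.W8.BasB0

/-! The frame group `2^8 : AGL(3,2)` (second part; the first part is `BasB0`). -/

set_option autoImplicit false

namespace Cfsg.Lib.W8

open Matrix
open scoped Pointwise symmDiff

variable {a x y : V} {g h w : W} {c d : F8} {σ τ : P8}

/-- the pairs `a < b` -/
def bbP : List (Fin 8 × Fin 8) := [(0,1), (0,2), (1,2), (0,3), (1,3), (2,3), (0,4), (1,4), (2,4), (3,4),
  (0,5), (1,5), (2,5), (3,5), (4,5), (0,6), (1,6), (2,6), (3,6), (4,6), (5,6), (0,7), (1,7), (2,7), (3,7),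
  (4,7), (5,7), (6,7)]

theorem bb_sign_list (σ : P8) : Equiv.Perm.sign σ =
    (bbP.map fun p => if σ p.1 < σ p.2 then (1 : ℤˣ) else -1).prod := by
  rw [Equiv.Perm.sign_eq_prod_prod_Iio, Fin.prod_univ_eight]
  have h0 : Finset.Iio (0 : Fin 8) = ∅ := by decide
  have h1 : Finset.Iio (1 : Fin 8) = {0} := by decide
  have h2 : Finset.Iio (2 : Fin 8) = {0, 1} := by decide
  have h3 : Finset.Iio (3 : Fin 8) = {0, 1, 2} := by decide
  have h4 : Finset.Iio (4 : Fin 8) = {0, 1, 2, 3} := by decide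
  have h5 : Finset.Iio (5 : Fin 8) = {0, 1, 2, 3, 4} := by decide
  have h6 : Finset.Iio (6 : Fin 8) = {0, 1, 2, 3, 4, 5} := by decide
  have h7 : Finset.Iio (7 : Fin 8) = {0, 1, 2, 3, 4, 5, 6} := by decide
  rw [h0, h1, h2, h3, h4, h5, h6, h7]
  simp only [bbP, List.map_cons, List.map_nil, List.prod_cons, List.prod_nil]
  repeat rw [Finset.prod_insert (by decide)]
  simp only [Finset.prod_singleton, Finset.prod_empty, mul_assoc, one_mul, mul_one]

theorem bb_prod_par {α : Type} (l : List α) (p : α → Prop) [DecidablePred p] :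
    (l.map fun a => if p a then (1 : ℤˣ) else -1).prod =
      if l.foldr (fun a b => xor (decide (p a)) b) true = l.foldr (fun _ b => !b) true then 1 else -1 := by
  induction l with
  | nil => simp
  | cons a l ih =>
    rw [List.map_cons, List.prod_cons, ih, List.foldr_cons, List.foldr_cons]
    generalize l.foldr (fun a b => xor (decide (p a)) b) true = u
    generalize l.foldr (fun _ b => !b) true = v
    by_cases h : p a <;> cases u <;> cases v <;> simp [h]

theorem bb_sign_dec : ∀ i j k l : Fin 8, i ≠ j → i ≠ k → j ≠ k → l ≠ i → l ≠ j → l ≠ k →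
    l ≠ i ^^^ j ^^^ k →
    bbP.foldr (fun p b => xor (decide (bbF i j k l p.1 < bbF i j k l p.2)) b) true = true := by
  decide +kernel

theorem AG_sign (hσ : σ ∈ AG) : Equiv.Perm.sign σ = 1 := by
  rw [bb_sign_list, bb_prod_par, if_pos]
  have e : (fun (p : Fin 8 × Fin 8) b => xor (decide (σ p.1 < σ p.2)) b) = fun p b =>
      xor (decide (bbF (σ 0) (σ 1) (σ 2) (σ 4) p.1 < bbF (σ 0) (σ 1) (σ 2) (σ 4) p.2)) b := by
    funext p b
    rw [← bb_eq_F hσ, ← bb_eq_F hσ]
  rw [e, bb_sign_dec _ _ _ _ (σ.injective.ne (by decide)) (σ.injective.ne (by decide))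
    (σ.injective.ne (by decide)) (σ.injective.ne (by decide)) (σ.injective.ne (by decide))
    (σ.injective.ne (by decide))]
  · rfl
  · rw [← bb_aff hσ]
    exact σ.injective.ne (by decide)

theorem pF_mem (hσ : σ ∈ AG) : pF σ ∈ L0 := by
  rw [mem_L0, bb_mat_pF hσ, bbA_det, ← mat_pE, ← mem_L0, pE_mem]
  exact AG_sign hσ

/-- standard subsets -/
def bbStd (n : ℕ) (b : Prop) [Decidable b] : F8 :=
  if n = 0 then ∅ else if n = 1 then {0} else if n = 2 then {0, 1} else if n = 3 then {0, 1, 2} else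
    if b then {0, 1, 2, 3} else {0, 1, 2, 4}

theorem bb_ex_third : ∀ i j : Fin 8, ∃ k, i ≠ k ∧ j ≠ k := by decide
theorem bb_ex_second : ∀ i : Fin 8, ∃ j k, i ≠ j ∧ i ≠ k ∧ j ≠ k := by decide

theorem bb_std (h : c.card ≤ 4) : ∃ σ ∈ AG, σ • bbStd c.card (Pl c) = c := by
  have h5 : c.card = 0 ∨ c.card = 1 ∨ c.card = 2 ∨ c.card = 3 ∨ c.card = 4 := by omega
  unfold bbStd
  rcases h5 with e | e | e | e | e
  · refine ⟨1, AG.one_mem, ?_⟩
    rw [if_pos e, one_smul, Finset.card_eq_zero.1 e]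
  · obtain ⟨i, rfl⟩ := Finset.card_eq_one.1 e
    obtain ⟨j, k, h1, h2, h3⟩ := bb_ex_second i
    obtain ⟨σ, hσ, e0, -, -⟩ := AG_three h1 h2 h3
    refine ⟨σ, hσ, ?_⟩
    rw [e, if_neg (by decide), if_pos rfl]
    ext m
    simp only [bb_mem_smul, Finset.mem_singleton, Equiv.Perm.inv_eq_iff_eq, e0]
  · obtain ⟨i, j, h1, rfl⟩ := Finset.card_eq_two.1 e
    obtain ⟨k, h2, h3⟩ := bb_ex_third i j
    obtain ⟨σ, hσ, e0, e1, -⟩ := AG_three h1 h2 h3
    refine ⟨σ, hσ, ?_⟩
    rw [e, if_neg (by decide), if_neg (by decide), if_pos rfl]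
    ext m
    simp only [bb_mem_smul, Finset.mem_insert, Finset.mem_singleton, Equiv.Perm.inv_eq_iff_eq, e0, e1]
  · obtain ⟨i, j, k, h1, h2, h3, rfl⟩ := Finset.card_eq_three.1 e
    obtain ⟨σ, hσ, e0, e1, e2⟩ := AG_three h1 h2 h3
    refine ⟨σ, hσ, ?_⟩
    rw [e, if_neg (by decide), if_neg (by decide), if_neg (by decide), if_pos rfl]
    ext m
    simp only [bb_mem_smul, Finset.mem_insert, Finset.mem_singleton, Equiv.Perm.inv_eq_iff_eq, e0, e1, e2]
  · obtain ⟨l, s, hl, rfl, hs⟩ := Finset.card_eq_succ.1 e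
    obtain ⟨i, j, k, h1, h2, h3, rfl⟩ := Finset.card_eq_three.1 hs
    simp only [Finset.mem_insert, Finset.mem_singleton, not_or] at hl
    have ec : (insert l {i, j, k} : F8) = {i, j, k, l} := by
      ext m; simp only [Finset.mem_insert, Finset.mem_singleton]; tauto
    rw [e, if_neg (by decide), if_neg (by decide), if_neg (by decide), if_neg (by decide)]
    split_ifs with hp
    · rw [ec] at hp ⊢
      obtain ⟨σ, hσ, e0, e1, e2⟩ := AG_three h1 h2 h3
      refine ⟨σ, hσ, ?_⟩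
      have e3 : σ 3 = l := by
        rw [(bb_pl4.1 hp).2.2.2, ← e0, ← e1, ← e2]
        exact bb_aff hσ 0 1 2
      rw [bb_smul4, e0, e1, e2, e3]
    · rw [ec] at hp ⊢
      obtain ⟨σ, hσ, e0, e1, e2, e3⟩ := bb_ex4 h1 h2 h3 hl.1 hl.2.1 hl.2.2
        (fun e => hp (bb_pl4.2 ⟨h1, h2, h3, e⟩))
      exact ⟨σ, hσ, by rw [bb_smul4, e0, e1, e2, e3]⟩

theorem bb_smul_compl (σ : P8) (c : F8) : σ • cᶜ = (σ • c)ᶜ := by
  ext m
  rw [Finset.mem_compl, bb_mem_smul, bb_mem_smul, Finset.mem_compl]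

theorem bb_trans (h0 : c.card ≤ 4) (h1 : c.card = d.card) (h2 : Pl c ↔ Pl d) : ∃ σ ∈ AG, σ • c = d := by
  obtain ⟨σ, hσ, e1⟩ := bb_std h0
  obtain ⟨τ, hτ, e2⟩ := bb_std (h1 ▸ h0 : d.card ≤ 4)
  have e : bbStd c.card (Pl c) = bbStd d.card (Pl d) := by
    unfold bbStd
    rw [h1]
    simp only [h2]
  refine ⟨τ * σ⁻¹, AG.mul_mem hτ (AG.inv_mem hσ), ?_⟩
  rw [mul_smul, ← e2, ← e]
  congr 1
  rw [inv_smul_eq_iff, e1]

/-- the orbits on subsets -/
theorem AG_trans (h1 : c.card = d.card) (h2 : Pl c ↔ Pl d) : ∃ σ ∈ AG, σ • c = d := by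
  by_cases h0 : c.card ≤ 4
  · exact bb_trans h0 h1 h2
  · have hc := Finset.card_compl c
    have hd := Finset.card_compl d
    rw [Fintype.card_fin] at hc hd
    obtain ⟨σ, hσ, e⟩ := bb_trans (c := cᶜ) (d := dᶜ) (by omega) (by omega)
      ⟨fun h => by have := h.card; omega, fun h => by have := h.card; omega⟩
    refine ⟨σ, hσ, ?_⟩
    rw [bb_smul_compl] at e
    exact compl_injective e

theorem AG_inv (h : ∀ σ ∈ AG, σ • c = c) : c = ∅ ∨ c = Finset.univ := by
  rcases c.eq_empty_or_nonempty with e | ⟨i, hi⟩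
  · exact Or.inl e
  refine Or.inr (Finset.eq_univ_iff_forall.2 fun j => ?_)
  obtain ⟨σ, hσ, e⟩ := AG_trans (c := {i}) (d := {j}) rfl
    ⟨fun h => by have := h.card; simp at this, fun h => by have := h.card; simp at this⟩
  have h1 : j ∈ σ • ({i} : F8) := by rw [e]; exact Finset.mem_singleton_self j
  rw [← h σ hσ, bb_mem_smul]
  rw [bb_mem_smul, Finset.mem_singleton] at h1
  rwa [h1]

theorem bb_Hm_inj (e : Hm *ᵥ x = Hm *ᵥ y) : x = y := by
  have h : ∀ v : V, v = (1 / 2 : ℚ) • (Hm *ᵥ (Hm *ᵥ v)) := fun v => by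
    rw [← mulVec_smul, bb_half]
  rw [h x, e, ← h y]

/-- half the sum of four frame roots is a root iff they form a plane -/
theorem monF (e : ∀ i, ∃ j, mat g *ᵥ fr i = fr j ∨ mat g *ᵥ fr i = -fr j) :
    ∃ d : F8, ∃ σ ∈ AG, g = sF d * pF σ := by
  choose φ hφ using e
  have hinj : Function.Injective φ := by
    intro i j hij
    by_contra hne
    have h1 := dot_mat g (fr i) (fr j)
    rw [fr_dot, if_neg hne] at h1
    have h2 := fr_dot (φ j) (φ j)
    rw [if_pos rfl] at h2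
    rcases hφ i with a | a <;> rcases hφ j with b | b <;> rw [a, b, hij] at h1 <;>
      simp only [neg_dotProduct, dotProduct_neg, neg_neg, h2] at h1 <;> norm_num at h1
  let σ : P8 := Equiv.ofBijective φ (Finite.injective_iff_bijective.1 hinj)
  have hσ : ∀ i, σ i = φ i := fun _ => rfl
  classical
  let d : F8 := Finset.univ.filter fun j => mat g *ᵥ fr (σ⁻¹ j) = -fr j
  have hd : ∀ i, mat g *ᵥ fr i = sgn d (σ i) • fr (σ i) := by
    intro i
    unfold sgn
    split_ifs with hi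
    · have := (Finset.mem_filter.1 hi).2
      rw [show σ⁻¹ (σ i) = i by simp] at this
      rw [this]; simp
    · rcases hφ i with a | a
      · rw [a, one_smul]; rfl
      · exact absurd (Finset.mem_filter.2 ⟨Finset.mem_univ _, by
          rw [show σ⁻¹ (σ i) = i by simp]; exact a⟩) hi
  have hM : mat g = bbA (diagonal (sgn d) * pm σ) := by
    refine bb_ext fun i => ?_
    rw [hd, bb_fr, bb_fr, bbA_mulVec, ← mulVec_smul]
    congr 1
    funext k
    rw [← mulVec_mulVec, mulVec_diagonal, bb_pm_mulVec, Pi.smul_apply, Pi.single_apply, Pi.single_apply,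
      smul_eq_mul, if_congr (Equiv.Perm.inv_eq_iff_eq (f := σ) (x := k) (y := i)) rfl rfl]
    split_ifs with a
    · rw [a]
    · simp
  have hAG : σ ∈ AG := by
    refine bb_AG_of_aff (bb_aff_of fun c hc => ?_)
    have h1 : bbR fun i => if i ∈ c then (1 / 2 : ℚ) else 0 :=
      Or.inr ⟨c, hc, fun i => ⟨fun hi => Or.inl (if_pos hi), fun hi => if_neg hi⟩⟩
    have h2 := root_mat g ((bb_iff _).2 h1)
    rw [hM, bbA_mulVec, bb_iff] at h2
    have h3 : ∀ k, ((diagonal (sgn d) * pm σ) *ᵥ fun i => if i ∈ c then (1 / 2 : ℚ) else 0) k =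
        sgn d k * if k ∈ σ • c then (1 / 2 : ℚ) else 0 := by
      intro k
      rw [← mulVec_mulVec, mulVec_diagonal, bb_pm_mulVec, if_congr bb_mem_smul rfl rfl]
    rcases h2 with ⟨i, h2 | h2⟩ | ⟨c', hc', h2⟩
    · have := h2 i
      rw [h3, if_pos rfl] at this
      rcases bb_sgn_cases d i with s | s <;> rw [s] at this <;> split_ifs at this <;> norm_num at this
    · have := h2 i
      rw [h3, if_pos rfl] at this
      rcases bb_sgn_cases d i with s | s <;> rw [s] at this <;> split_ifs at this <;> norm_num at this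
    · have : σ • c = c' := by
        ext k
        have := h2 k
        rw [h3] at this
        refine ⟨fun hk => ?_, fun hk => ?_⟩
        · by_contra hk'
          have h4 := this.2 hk'
          rw [if_pos hk] at h4
          rcases bb_sgn_cases d k with s | s <;> rw [s] at h4 <;> norm_num at h4
        · by_contra hk'
          have h4 := this.1 hk
          rw [if_neg hk'] at h4
          norm_num at h4
      rw [this]; exact hc'
  refine ⟨d, σ, hAG, ext_fr fun i => ?_⟩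
  rw [mat_mul, ← mulVec_mulVec, pF_fr hAG, sF_fr, hd]

/-- `fr i` spans the common `-1` eigenspace of the `sF {i, j}`; traces show `g (sF {i,j}) g⁻¹ = sF d` with
`d.card = 2` -/
theorem norm_F (e : ∀ c : F8, Even c.card → ∃ d, g * sF c * g⁻¹ = sF d) :
    ∃ d : F8, ∃ σ ∈ AG, g = sF d * pF σ := by
  refine monF fun i => ?_
  obtain ⟨j, -, hj, -⟩ := bb_ex_second i
  have hc : ({i, j} : F8).card = 2 := Finset.card_pair hj
  obtain ⟨d, hd⟩ := e {i, j} (by rw [hc]; decide)
  have hd2 : d.card = 2 := by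
    have h1 := tr_conj g (sF {i, j})
    rw [hd, tr_sF, tr_sF, hc] at h1
    have : (d.card : ℚ) = (2 : ℕ) := by linarith
    exact_mod_cast this
  obtain ⟨y, hy⟩ : ∃ y, mat g *ᵥ fr i = Hm *ᵥ y := ⟨_, (bb_half _).symm⟩
  have h1 : mat (sF d) *ᵥ (mat g *ᵥ fr i) = -(mat g *ᵥ fr i) := by
    rw [mulVec_mulVec, ← mat_mul, ← hd, inv_mul_cancel_right, mat_mul, ← mulVec_mulVec, sF_fr,
      mulVec_smul]
    unfold sgn
    rw [if_pos (Finset.mem_insert_self i _)]
    simp
  rw [hy, bb_mat_sF, bbA_mulVec, ← mulVec_neg] at h1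
  have h2 := bb_Hm_inj h1
  have h3 := root_mat g (fr_root i)
  rw [hy, isRoot_frame] at h3
  rcases h3 with ⟨k, h3 | h3⟩ | ⟨c, hc', h3⟩
  · exact ⟨k, Or.inl (by rw [hy, h3, bb_fr])⟩
  · exact ⟨k, Or.inr (by rw [hy, h3, bb_fr, mulVec_neg])⟩
  · have h4 : c ⊆ d := by
      intro k hk
      by_contra hk'
      have h5 := congrFun h2 k
      rw [mulVec_diagonal, Pi.neg_apply] at h5
      unfold sgn at h5
      rw [if_neg hk'] at h5
      rcases (h3 k).1 hk with s | s <;> rw [s] at h5 <;> norm_num at h5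
    have := Finset.card_le_card h4
    have := hc'.card
    omega

end Cfsg.Lib.W8
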