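import Cfsg.Agent.Lib.W8.BasA

/-! The frame group `2^8 : AGL(3,2)`. -/

set_option autoImplicit false

namespace Cfsg.Lib.W8

open Matrix
open scoped Pointwise symmDiff

variable {a x y : V} {g h w : W} {c d : F8} {σ τ : P8}

theorem Hm_mul_Hm : Hm * Hm = (2 : ℚ) • (1 : M8) := by
  have : ∀ i j : Fin 8, ∑ k, Hm i k * Hm k j = 2 * (if i = j then 1 else 0) := by decide +kernel
  ext i j
  rw [Matrix.mul_apply, this, Matrix.smul_apply, Matrix.one_apply, smul_eq_mul]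

theorem Hm_transpose : Hmᵀ = Hm := by
  have : ∀ i j : Fin 8, (Hm j i : ℚ) = Hm i j := by
    intro i j; fin_cases i <;> fin_cases j <;> rfl
  ext i j
  rw [transpose_apply, this]

/-- the plane list -/
def bbL : List F8 := [{0,1,2,3}, {4,5,6,7}, {0,1,4,5}, {2,3,6,7}, {0,1,6,7}, {2,3,4,5}, {0,2,4,6}, {1,3,5,7},
    {0,2,5,7}, {1,3,4,6}, {0,3,4,7}, {1,2,5,6}, {0,3,5,6}, {1,2,4,7}]

theorem bb_pl : Pl c ↔ c ∈ bbL := Iff.rfl

/-- roots in frame coordinates -/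
def bbR (y : V) : Prop :=
  (∃ i : Fin 8, (∀ k, y k = if k = i then 1 else 0) ∨ (∀ k, y k = if k = i then -1 else 0)) ∨
    ∃ c ∈ bbL, ∀ i, (i ∈ c → y i = 1 / 2 ∨ y i = -1 / 2) ∧ (i ∉ c → y i = 0)

def bbH {R : Type} [Add R] [Sub R] (y : Fin 8 → R) : Fin 8 → R :=
  ![y 0 + y 1, y 0 - y 1, y 2 + y 3, y 2 - y 3, y 4 + y 5, y 4 - y 5, y 6 + y 7, y 6 - y 7]

theorem bb_H (y : V) : Hm *ᵥ y = bbH y := by
  funext i
  fin_cases i <;> simp [Hm, bbH, mulVec, dotProduct, Fin.sum_univ_eight, sub_eq_add_neg]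

/-- integer vectors, scaled by `4` -/
def bbC (v : Fin 8 → ℤ) : V := fun i => (v i : ℚ) / 4

theorem bb_HC (v : Fin 8 → ℤ) : bbH (bbC v) = bbC (bbH v) := by
  funext i
  fin_cases i <;> simp [bbH, bbC] <;> ring

def bbQ : List (Fin 8 × Fin 8 × Fin 8 × Fin 8) := [(0,1,2,3), (4,5,6,7), (0,1,4,5), (2,3,6,7), (0,1,6,7),
  (2,3,4,5), (0,2,4,6), (1,3,5,7), (0,2,5,7), (1,3,4,6), (0,3,4,7), (1,2,5,6), (0,3,5,6), (1,2,4,7)]

def bbIn (p : Fin 8 × Fin 8 × Fin 8 × Fin 8) (k : Fin 8) : Prop :=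
  k = p.1 ∨ k = p.2.1 ∨ k = p.2.2.1 ∨ k = p.2.2.2

instance (p : Fin 8 × Fin 8 × Fin 8 × Fin 8) : DecidablePred (bbIn p) := fun k => by
  unfold bbIn; infer_instance

theorem bb_LQ' : (bbL.all fun c => bbQ.any fun p => decide (∀ k, k ∈ c ↔ bbIn p k)) = true := by
  decide +kernel

theorem bb_QL' : (bbQ.all fun p => bbL.any fun c => decide (∀ k, k ∈ c ↔ bbIn p k)) = true := by
  decide +kernel

theorem bb_LQ (h : c ∈ bbL) : ∃ p ∈ bbQ, ∀ k, k ∈ c ↔ bbIn p k := by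
  simpa using List.all_eq_true.1 bb_LQ' c h

theorem bb_QL {p : Fin 8 × Fin 8 × Fin 8 × Fin 8} (h : p ∈ bbQ) : ∃ c ∈ bbL, ∀ k, k ∈ c ↔ bbIn p k := by
  simpa using List.all_eq_true.1 bb_QL' p h

def bbRz (y : Fin 8 → ℤ) : Bool :=
  decide (∃ i : Fin 8, (∀ k, y k = if k = i then 4 else 0) ∨ (∀ k, y k = if k = i then -4 else 0)) ||
    bbQ.any fun p => decide (∀ i, (bbIn p i → y i = 2 ∨ y i = -2) ∧ (¬ bbIn p i → y i = 0))

theorem bbRz_R {v : Fin 8 → ℤ} (h : bbRz v = true) : bbR (bbC v) := by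
  unfold bbRz at h
  rw [Bool.or_eq_true, decide_eq_true_eq, List.any_eq_true] at h
  rcases h with ⟨i, h | h⟩ | ⟨p, hp, h⟩
  · refine Or.inl ⟨i, Or.inl fun k => ?_⟩
    unfold bbC; rw [h k]; split_ifs <;> norm_num
  · refine Or.inl ⟨i, Or.inr fun k => ?_⟩
    unfold bbC; rw [h k]; split_ifs <;> norm_num
  · rw [decide_eq_true_eq] at h
    obtain ⟨c, hc, e⟩ := bb_QL hp
    refine Or.inr ⟨c, hc, fun i => ⟨fun hi => ?_, fun hi => ?_⟩⟩
    · unfold bbC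
      rcases (h i).1 ((e i).1 hi) with h1 | h1 <;> rw [h1] <;> norm_num
    · unfold bbC
      rw [(h i).2 (fun h1 => hi ((e i).2 h1))]; norm_num

def bbT (x : Fin 8 → ℤ) : Prop :=
  ((∀ i, x i = 2 ∨ x i = -2) ∧ 0 < x 0 * x 1 * x 2 * x 3 * x 4 * x 5 * x 6 * x 7) ∨
  (∃ i : Fin 8, (x i = 4 ∨ x i = -4) ∧ ∃ j : Fin 8, i ≠ j ∧ (x j = 4 ∨ x j = -4) ∧
      ∀ k, k ≠ i → k ≠ j → x k = 0)

instance : DecidablePred bbT := fun y => by unfold bbT; infer_instance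

theorem bbT.root {v : Fin 8 → ℤ} (h : bbT v) : IsRoot (bbC v) := by
  rcases h with ⟨h1, h2⟩ | ⟨i, h1, j, h2, h3, h4⟩
  · refine Or.inr ⟨fun i => ?_, ?_⟩
    · unfold bbC
      rcases h1 i with h | h <;> rw [h] <;> norm_num
    · rw [Fin.prod_univ_eight]
      unfold bbC
      have : (0 : ℚ) < ((v 0 * v 1 * v 2 * v 3 * v 4 * v 5 * v 6 * v 7 : ℤ) : ℚ) := by exact_mod_cast h2
      push_cast at this
      have e : (v 0 : ℚ) / 4 * (v 1 / 4) * (v 2 / 4) * (v 3 / 4) * (v 4 / 4) * (v 5 / 4) * (v 6 / 4) *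
        (v 7 / 4) = (v 0 * v 1 * v 2 * v 3 * v 4 * v 5 * v 6 * v 7) / 65536 := by ring
      rw [e]; positivity
  · refine Or.inl ⟨i, j, h2, ?_, ?_, fun k a b => ?_⟩
    · unfold bbC
      rcases h1 with h | h <;> rw [h] <;> norm_num
    · unfold bbC
      rcases h3 with h | h <;> rw [h] <;> norm_num
    · unfold bbC
      rw [h4 k a b]; norm_num

def bbS (s : Bool) (q : ℤ) : ℤ := if s then q else -q

theorem bb_d1 : ∀ (i j : Fin 8) (s t : Bool), i ≠ j →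
    bbRz (bbH fun k => if k = i then bbS s 2 else if k = j then bbS t 2 else 0) = true := by
  decide +kernel

theorem bb_d2 : ∀ (s0 s1 s2 s3 s4 s5 s6 s7 : Bool),
    0 < bbS s0 1 * bbS s1 1 * bbS s2 1 * bbS s3 1 * bbS s4 1 * bbS s5 1 * bbS s6 1 * bbS s7 1 →
    bbRz (bbH ![bbS s0 1, bbS s1 1, bbS s2 1, bbS s3 1, bbS s4 1, bbS s5 1, bbS s6 1, bbS s7 1]) = true := by
  decide +kernel

theorem bb_d3 : ∀ (i : Fin 8) (s : Bool), bbT (bbH fun k => if k = i then bbS s 4 else 0) := by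
  decide +kernel

theorem bb_d4 : (bbQ.all fun p => decide (∀ (s0 s1 s2 s3 : Bool),
    bbT (bbH fun k => if k = p.1 then bbS s0 2 else if k = p.2.1 then bbS s1 2 else
      if k = p.2.2.1 then bbS s2 2 else if k = p.2.2.2 then bbS s3 2 else 0))) = true := by
  decide +kernel


theorem bb_root_R (h : IsRoot x) : bbR (bbH ((1 / 2 : ℚ) • x)) := by
  rcases h with ⟨i, j, hij, h1, h2, h3⟩ | ⟨h1, h2⟩
  · have e : (1 / 2 : ℚ) • x = bbC fun k => if k = i then bbS (decide (x i = 1)) 2 else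
        if k = j then bbS (decide (x j = 1)) 2 else 0 := by
      funext k
      simp only [bbC, Pi.smul_apply, smul_eq_mul]
      split_ifs with a b
      · subst a
        rcases h1 with h | h <;> rw [h] <;> norm_num [bbS]
      · subst b
        rcases h2 with h | h <;> rw [h] <;> norm_num [bbS]
      · rw [h3 k a b]; norm_num
    rw [e, bb_HC]
    exact bbRz_R (bb_d1 i j _ _ hij)
  · have e0 : ∀ k, x k = (bbS (decide (x k = 1 / 2)) 1 : ℚ) / 2 := by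
      intro k
      rcases h1 k with h | h <;> rw [h] <;> norm_num [bbS]
    have e : (1 / 2 : ℚ) • x = bbC ![bbS (decide (x 0 = 1 / 2)) 1, bbS (decide (x 1 = 1 / 2)) 1,
        bbS (decide (x 2 = 1 / 2)) 1, bbS (decide (x 3 = 1 / 2)) 1, bbS (decide (x 4 = 1 / 2)) 1,
        bbS (decide (x 5 = 1 / 2)) 1, bbS (decide (x 6 = 1 / 2)) 1, bbS (decide (x 7 = 1 / 2)) 1] := by
      funext k
      have := e0 k
      fin_cases k <;> simp only [bbC, Pi.smul_apply, smul_eq_mul] <;> simp at this ⊢ <;> linarith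
    rw [e, bb_HC]
    refine bbRz_R (bb_d2 _ _ _ _ _ _ _ _ ?_)
    rw [Fin.prod_univ_eight, e0 0, e0 1, e0 2, e0 3, e0 4, e0 5, e0 6, e0 7] at h2
    generalize bbS (decide (x 0 = 1 / 2)) 1 = a0 at *
    generalize bbS (decide (x 1 = 1 / 2)) 1 = a1 at *
    generalize bbS (decide (x 2 = 1 / 2)) 1 = a2 at *
    generalize bbS (decide (x 3 = 1 / 2)) 1 = a3 at *
    generalize bbS (decide (x 4 = 1 / 2)) 1 = a4 at *
    generalize bbS (decide (x 5 = 1 / 2)) 1 = a5 at *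
    generalize bbS (decide (x 6 = 1 / 2)) 1 = a6 at *
    generalize bbS (decide (x 7 = 1 / 2)) 1 = a7 at *
    have : (0 : ℚ) < ((a0 * a1 * a2 * a3 * a4 * a5 * a6 * a7 : ℤ) : ℚ) := by
      push_cast
      have e : (a0 : ℚ) / 2 * (a1 / 2) * (a2 / 2) * (a3 / 2) * (a4 / 2) * (a5 / 2) * (a6 / 2) *
        (a7 / 2) = (a0 * a1 * a2 * a3 * a4 * a5 * a6 * a7) / 256 := by ring
      rw [e] at h2
      linarith
    exact_mod_cast this

theorem bb_R_root (h : bbR y) : IsRoot (bbH y) := by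
  rcases h with ⟨i, h | h⟩ | ⟨c, hc, h⟩
  · have e : y = bbC fun k => if k = i then bbS true 4 else 0 := by
      funext k
      rw [h k]; simp only [bbC]
      split_ifs <;> norm_num [bbS]
    rw [e, bb_HC]
    exact (bb_d3 i true).root
  · have e : y = bbC fun k => if k = i then bbS false 4 else 0 := by
      funext k
      rw [h k]; simp only [bbC]
      split_ifs <;> norm_num [bbS]
    rw [e, bb_HC]
    exact (bb_d3 i false).root
  · obtain ⟨p, hp, e1⟩ := bb_LQ hc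
    have h4 := List.all_eq_true.1 bb_d4 p hp
    rw [decide_eq_true_eq] at h4
    have e0 : ∀ k, bbIn p k → y k = (bbS (decide (y k = 1 / 2)) 2 : ℚ) / 4 := by
      intro k hk
      rcases (h k).1 ((e1 k).2 hk) with h | h <;> rw [h] <;> norm_num [bbS]
    have e : y = bbC fun k => if k = p.1 then bbS (decide (y p.1 = 1 / 2)) 2 else
        if k = p.2.1 then bbS (decide (y p.2.1 = 1 / 2)) 2 else
        if k = p.2.2.1 then bbS (decide (y p.2.2.1 = 1 / 2)) 2 else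
        if k = p.2.2.2 then bbS (decide (y p.2.2.2 = 1 / 2)) 2 else 0 := by
      funext k
      simp only [bbC]
      split_ifs with a1 a2 a3 a4
      · rw [← a1]; exact e0 k (Or.inl a1)
      · rw [← a2]; exact e0 k (Or.inr (Or.inl a2))
      · rw [← a3]; exact e0 k (Or.inr (Or.inr (Or.inl a3)))
      · rw [← a4]; exact e0 k (Or.inr (Or.inr (Or.inr a4)))
      · rw [(h k).2 fun hk => by rcases (e1 k).1 hk with b | b | b | b <;> contradiction]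
        norm_num
    rw [e, bb_HC]
    exact (h4 _ _ _ _).root

theorem bb_half (y : V) : Hm *ᵥ ((1 / 2 : ℚ) • (Hm *ᵥ y)) = y := by
  rw [mulVec_smul, mulVec_mulVec, Hm_mul_Hm, smul_mulVec, one_mulVec, smul_smul]
  norm_num

theorem bb_iff (y : V) : IsRoot (Hm *ᵥ y) ↔ bbR y := by
  refine ⟨fun h => ?_, fun h => ?_⟩
  · have := bb_root_R h
    rwa [← bb_H, bb_half] at this
  · rw [bb_H]; exact bb_R_root h

theorem bb_fr (i : Fin 8) : fr i = Hm *ᵥ Pi.single i 1 := by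
  funext k
  rw [mulVec_single_one]; rfl

theorem bb_single {i : Fin 8} : y = Pi.single i 1 ↔ ∀ k, y k = if k = i then 1 else 0 := by
  rw [funext_iff]
  simp only [Pi.single_apply]

theorem bb_single' {i : Fin 8} : y = -Pi.single i 1 ↔ ∀ k, y k = if k = i then -1 else 0 := by
  rw [funext_iff]
  refine forall_congr' fun k => ?_
  rw [Pi.neg_apply, Pi.single_apply]
  split_ifs <;> simp

theorem fr_root (i : Fin 8) : IsRoot (fr i) := by
  rw [bb_fr, bb_iff]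
  exact Or.inl ⟨i, Or.inl (bb_single.1 rfl)⟩

theorem fr_dot (i j : Fin 8) : fr i ⬝ᵥ fr j = if i = j then 2 else 0 := by
  have h := congrFun (congrFun Hm_mul_Hm i) j
  rw [Matrix.mul_apply, Matrix.smul_apply, Matrix.one_apply, smul_eq_mul] at h
  have e : fr i ⬝ᵥ fr j = ∑ k, Hm i k * Hm k j := by
    refine Finset.sum_congr rfl fun k _ => ?_
    show Hm k i * Hm k j = _
    rw [← transpose_apply Hm i k, Hm_transpose]
  rw [e, h]
  split_ifs <;> norm_num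

theorem bb_ext {A B : M8} (e : ∀ i, A *ᵥ fr i = B *ᵥ fr i) : A = B := by
  have h1 : A * Hm = B * Hm := by
    ext k i
    have := congrFun (e i) k
    rw [bb_fr, mulVec_mulVec, mulVec_mulVec, mulVec_single_one, mulVec_single_one] at this
    exact this
  have h2 : ∀ C : M8, C = (1 / 2 : ℚ) • (C * Hm * Hm) := fun C => by
    rw [Matrix.mul_assoc, Hm_mul_Hm, Matrix.mul_smul, Matrix.mul_one, smul_smul]; norm_num
  rw [h2 A, h1, ← h2 B]

theorem ext_fr (e : ∀ i, mat g *ᵥ fr i = mat h *ᵥ fr i) : g = h := mat_inj (bb_ext e)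

/-- the roots in frame coordinates -/
theorem isRoot_frame (y : V) : IsRoot (Hm *ᵥ y) ↔
    (∃ i, y = Pi.single i 1 ∨ y = -Pi.single i 1) ∨
      ∃ c, Pl c ∧ ∀ i, (i ∈ c → y i = 1 / 2 ∨ y i = -1 / 2) ∧ (i ∉ c → y i = 0) := by
  rw [bb_iff]
  simp only [bb_single, bb_single']
  rfl

/-- change of basis -/
def bbA (M : M8) : M8 := (1 / 2 : ℚ) • (Hm * M * Hm)

theorem bbA_mulVec (M : M8) (y : V) : bbA M *ᵥ (Hm *ᵥ y) = Hm *ᵥ (M *ᵥ y) := by
  rw [bbA, smul_mulVec, mulVec_mulVec, Matrix.mul_assoc, Hm_mul_Hm, Matrix.mul_smul, Matrix.mul_one,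
    smul_mulVec, smul_smul, mulVec_mulVec]
  norm_num

theorem bbA_mul (M N : M8) : bbA M * bbA N = bbA (M * N) := by
  refine bb_ext fun i => ?_
  rw [bb_fr, ← mulVec_mulVec, bbA_mulVec, bbA_mulVec, bbA_mulVec, mulVec_mulVec, mulVec_mulVec,
    mulVec_mulVec, Matrix.mul_assoc]

theorem bbA_one : bbA 1 = 1 := by
  rw [bbA, Matrix.mul_one, Hm_mul_Hm, smul_smul]; norm_num

theorem bbA_transpose (M : M8) : (bbA M)ᵀ = bbA Mᵀ := by
  rw [bbA, bbA, transpose_smul, transpose_mul, transpose_mul, Hm_transpose, Matrix.mul_assoc]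

theorem bbA_det (M : M8) : (bbA M).det = M.det := by
  have h := congrArg Matrix.det Hm_mul_Hm
  rw [det_mul, det_smul, det_one, Fintype.card_fin] at h
  rw [bbA, det_smul, det_mul, det_mul, Fintype.card_fin]
  linear_combination ((1 / 2) ^ 8 * M.det) * h

theorem bbA_trace (M : M8) : (bbA M).trace = M.trace := by
  rw [bbA, trace_smul, trace_mul_comm, ← Matrix.mul_assoc, Hm_mul_Hm, Matrix.smul_mul, Matrix.one_mul,
    trace_smul, smul_smul]
  norm_num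

theorem bbA_good {M : M8} (h1 : Mᵀ * M = 1) (h2 : ∀ y, bbR y → bbR (M *ᵥ y))
    (h3 : ∀ y, bbR y → bbR (Mᵀ *ᵥ y)) : Good (bbA M) := by
  refine ⟨by rw [bbA_transpose, bbA_mul, h1, bbA_one], fun x => ?_⟩
  rw [← bb_half x, bbA_mulVec, bb_iff, bb_iff]
  refine ⟨h2 _, fun h => ?_⟩
  have := h3 _ h
  rwa [mulVec_mulVec, h1, one_mulVec] at this

theorem bb_sgn_cases (c : F8) (i : Fin 8) : sgn c i = 1 ∨ sgn c i = -1 := by
  unfold sgn; split_ifs <;> simp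

theorem bb_sgn_mul (c d : F8) (i : Fin 8) : sgn c i * sgn d i = sgn (c ∆ d) i := by
  unfold sgn
  by_cases h1 : i ∈ c <;> by_cases h2 : i ∈ d <;> simp [h1, h2, Finset.mem_symmDiff]

theorem bb_R_diag (c : F8) (y : V) (h : bbR y) : bbR (diagonal (sgn c) *ᵥ y) := by
  rcases h with ⟨i, h | h⟩ | ⟨d, hd, h⟩
  · refine Or.inl ⟨i, ?_⟩
    rcases bb_sgn_cases c i with e | e
    · refine Or.inl fun k => ?_
      rw [mulVec_diagonal, h k]; split_ifs with a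
      · rw [a, e]; norm_num
      · simp
    · refine Or.inr fun k => ?_
      rw [mulVec_diagonal, h k]; split_ifs with a
      · rw [a, e]; norm_num
      · simp
  · refine Or.inl ⟨i, ?_⟩
    rcases bb_sgn_cases c i with e | e
    · refine Or.inr fun k => ?_
      rw [mulVec_diagonal, h k]; split_ifs with a
      · rw [a, e]; norm_num
      · simp
    · refine Or.inl fun k => ?_
      rw [mulVec_diagonal, h k]; split_ifs with a
      · rw [a, e]; norm_num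
      · simp
  · refine Or.inr ⟨d, hd, fun i => ⟨fun hi => ?_, fun hi => ?_⟩⟩
    · rw [mulVec_diagonal]
      rcases bb_sgn_cases c i with e | e <;> rcases (h i).1 hi with e' | e' <;> rw [e, e'] <;> norm_num
    · rw [mulVec_diagonal, (h i).2 hi, mul_zero]

theorem mat_sF (c : F8) : mat (sF c) = (1 / 2 : ℚ) • (Hm * diagonal (sgn c) * Hm) := by
  refine mat_mk (bbA_good ?_ (bb_R_diag c) ?_)
  · rw [diagonal_transpose, diagonal_mul_diagonal, ← diagonal_one]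
    congr 1
    funext i
    rcases bb_sgn_cases c i with e | e <;> rw [e] <;> norm_num
  · rw [diagonal_transpose]; exact bb_R_diag c

theorem bb_mat_sF (c : F8) : mat (sF c) = bbA (diagonal (sgn c)) := mat_sF c

theorem sF_fr (c : F8) (i : Fin 8) : mat (sF c) *ᵥ fr i = sgn c i • fr i := by
  rw [bb_mat_sF, bb_fr, bbA_mulVec, ← mulVec_smul]
  congr 1
  funext k
  rw [mulVec_diagonal, Pi.smul_apply, Pi.single_apply]
  split_ifs with a
  · rw [a]; rfl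
  · simp

theorem sF_mul (c d : F8) : sF c * sF d = sF (c ∆ d) := by
  refine ext_fr fun i => ?_
  rw [mat_mul, ← mulVec_mulVec, sF_fr, mulVec_smul, sF_fr, sF_fr, smul_smul, mul_comm, bb_sgn_mul]

theorem bb_fr_ne (i : Fin 8) : fr i ≠ 0 := fun h => by
  have := fr_dot i i
  rw [h] at this
  simp at this

theorem sF_inj (e : sF c = sF d) : c = d := by
  ext i
  have h := sF_fr c i
  rw [e, sF_fr] at h
  have h1 := smul_left_injective ℚ (bb_fr_ne i) h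
  unfold sgn at h1
  by_cases h2 : i ∈ c <;> by_cases h3 : i ∈ d <;> simp [h2, h3] at h1 ⊢ <;> norm_num at h1

theorem sF_empty : sF ∅ = 1 := by
  refine ext_fr fun i => ?_
  rw [sF_fr, mat_one, one_mulVec]
  simp [sgn]

theorem sF_univ : sF Finset.univ = z := by
  refine ext_fr fun i => ?_
  rw [sF_fr, mat_z, neg_mulVec, one_mulVec]
  simp [sgn]

theorem z_mul_sF (c : F8) : z * sF c = sF cᶜ := by
  rw [← sF_univ, sF_mul]
  congr 1
  ext i
  simp [Finset.mem_symmDiff]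

theorem bb_prod_sgn (c : F8) : ∏ i, sgn c i = (-1) ^ c.card := by
  unfold sgn
  rw [Finset.prod_ite, Finset.prod_const, Finset.prod_const_one, mul_one]
  congr 2
  ext i; simp

theorem bb_sum_sgn (c : F8) : ∑ i, sgn c i = 8 - 2 * c.card := by
  have : ∀ i, sgn c i = 1 - 2 * (if i ∈ c then 1 else 0) := fun i => by
    unfold sgn; split_ifs <;> norm_num
  simp only [this]
  rw [Finset.sum_sub_distrib, ← Finset.mul_sum, Finset.sum_boole]
  simp

theorem sF_mem : sF c ∈ L0 ↔ Even c.card := by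
  rw [mem_L0, bb_mat_sF, bbA_det, det_diagonal, bb_prod_sgn]
  exact neg_one_pow_eq_one_iff_even (by norm_num)

theorem tr_sF (c : F8) : tr (sF c) = 8 - 2 * c.card := by
  rw [tr, bb_mat_sF, bbA_trace, trace_diagonal, bb_sum_sgn]

theorem sF_single (i : Fin 8) : sF {i} = rf (fr i) := by
  refine ext_fr fun j => ?_
  rw [sF_fr, rf_mulVec (fr_root i), fr_dot]
  unfold sgn
  by_cases h : i = j
  · subst h
    rw [if_pos (Finset.mem_singleton_self i), if_pos rfl, ← one_smul ℚ (fr i), smul_smul, smul_smul,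
      ← sub_smul]
    norm_num
  · rw [if_neg (fun h1 => h (Finset.mem_singleton.1 h1).symm), if_neg h]
    simp

theorem bb_sF_sE (hc : Even c.card) (h : ∀ i k : Fin 8, i.1 / 2 = k.1 / 2 → (i ∈ c ↔ k ∈ c)) :
    sF c = sE c := by
  refine ext_fr fun i => ?_
  rw [sF_fr, mat_sE hc]
  funext k
  rw [mulVec_diagonal, Pi.smul_apply, smul_eq_mul]
  by_cases e : k.1 / 2 = i.1 / 2
  · unfold sgn
    rw [if_congr (h k i e) rfl rfl]
  · have : fr i k = 0 := by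
      show (if k.1 / 2 = i.1 / 2 then _ else _) = _
      rw [if_neg e]
    rw [this, mul_zero, mul_zero]

theorem sF_eq_two : sF {0, 1} = sE {0, 1} := bb_sF_sE (by decide) (by decide)
theorem sF_eq_four : sF {0, 1, 2, 3} = sE {0, 1, 2, 3} := bb_sF_sE (by decide) (by decide)
theorem sF_eq_six : sF {2, 3, 4, 5, 6, 7} = sE {2, 3, 4, 5, 6, 7} := bb_sF_sE (by decide) (by decide)

theorem bb_pm_mulVec (σ : P8) (y : V) (i : Fin 8) : (pm σ *ᵥ y) i = y (σ⁻¹ i) := by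
  simp only [pm, mulVec, dotProduct, Matrix.of_apply]
  rw [Finset.sum_eq_single (σ⁻¹ i)]
  · simp
  · intro j _ hj
    rw [if_neg, zero_mul]
    rintro rfl
    simp at hj
  · simp

theorem bb_pm_transpose (σ : P8) : (pm σ)ᵀ = pm σ⁻¹ := by
  ext i j
  simp only [pm, transpose_apply, Matrix.of_apply]
  refine if_congr ?_ rfl rfl
  rw [Equiv.Perm.eq_inv_iff_eq, eq_comm]

theorem bb_pm_mul (σ τ : P8) : pm σ * pm τ = pm (σ * τ) := by
  rw [← mat_pE, ← mat_pE, ← mat_mul, pE_mul, mat_pE]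

theorem bb_pm_one : pm 1 = 1 := by rw [← mat_pE, pE_one, mat_one]

theorem bb_mem_smul {i : Fin 8} : i ∈ σ • c ↔ σ⁻¹ i ∈ c := by
  rw [← Finset.inv_smul_mem_iff]; rfl

theorem bb_R_pm (hσ : σ ∈ AG) (y : V) (h : bbR y) : bbR (pm σ *ᵥ y) := by
  rcases h with ⟨i, h | h⟩ | ⟨d, hd, h⟩
  · refine Or.inl ⟨σ i, Or.inl fun k => ?_⟩
    rw [bb_pm_mulVec, h]
    exact if_congr Equiv.Perm.inv_eq_iff_eq rfl rfl
  · refine Or.inl ⟨σ i, Or.inr fun k => ?_⟩
    rw [bb_pm_mulVec, h]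
    exact if_congr Equiv.Perm.inv_eq_iff_eq rfl rfl
  · refine Or.inr ⟨σ • d, (hσ d).1 hd, fun i => ?_⟩
    rw [bb_pm_mulVec, bb_mem_smul]
    exact h _

theorem mat_pF (hσ : σ ∈ AG) : mat (pF σ) = (1 / 2 : ℚ) • (Hm * pm σ * Hm) := by
  refine mat_mk (bbA_good ?_ (bb_R_pm hσ) ?_)
  · rw [bb_pm_transpose, bb_pm_mul, inv_mul_cancel, bb_pm_one]
  · rw [bb_pm_transpose]; exact bb_R_pm (AG.inv_mem hσ)

theorem bb_mat_pF (hσ : σ ∈ AG) : mat (pF σ) = bbA (pm σ) := mat_pF hσ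

theorem pF_fr (hσ : σ ∈ AG) (i : Fin 8) : mat (pF σ) *ᵥ fr i = fr (σ i) := by
  rw [bb_mat_pF hσ, bb_fr, bbA_mulVec, bb_fr]
  congr 1
  funext k
  rw [bb_pm_mulVec, Pi.single_apply, Pi.single_apply]
  exact if_congr Equiv.Perm.inv_eq_iff_eq rfl rfl

theorem pF_mul (hσ : σ ∈ AG) (hτ : τ ∈ AG) : pF σ * pF τ = pF (σ * τ) := by
  refine ext_fr fun i => ?_
  rw [mat_mul, ← mulVec_mulVec, pF_fr hτ, pF_fr hσ, pF_fr (AG.mul_mem hσ hτ)]
  rfl

theorem pF_conj (hσ : σ ∈ AG) (c : F8) : pF σ * sF c * (pF σ)⁻¹ = sF (σ • c) := by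
  rw [mul_inv_eq_iff_eq_mul]
  refine ext_fr fun i => ?_
  rw [mat_mul, mat_mul, ← mulVec_mulVec, ← mulVec_mulVec, sF_fr, mulVec_smul, pF_fr hσ, sF_fr]
  congr 1
  unfold sgn
  refine if_congr ?_ rfl rfl
  rw [bb_mem_smul]
  simp

theorem Pl.card (h : Pl c) : c.card = 4 := by
  have : (bbL.all fun c => decide (c.card = 4)) = true := by decide +kernel
  simpa using List.all_eq_true.1 this c h

theorem Pl.compl (h : Pl c) : Pl cᶜ := by
  have : (bbL.all fun c => decide (Pl cᶜ)) = true := by decide +kernel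
  simpa using List.all_eq_true.1 this c h

/-- the planes through xor -/
theorem bb_pl4' : ∀ i j k l : Fin 8, (∃ p ∈ bbQ, ∀ m, (m = i ∨ m = j ∨ m = k ∨ m = l) ↔ bbIn p m) ↔
    (i ≠ j ∧ i ≠ k ∧ j ≠ k ∧ l = i ^^^ j ^^^ k) := by
  have : ∀ i j k l : Fin 8, (bbQ.any fun p => decide (∀ m, (m = i ∨ m = j ∨ m = k ∨ m = l) ↔ bbIn p m)) =
      decide (i ≠ j ∧ i ≠ k ∧ j ≠ k ∧ l = i ^^^ j ^^^ k) := by decide +kernel
  intro i j k l
  have h := this i j k l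
  rw [← decide_eq_true_iff (p := i ≠ j ∧ i ≠ k ∧ j ≠ k ∧ l = i ^^^ j ^^^ k), ← h, List.any_eq_true]
  simp only [decide_eq_true_eq]

theorem bb_pl4 {i j k l : Fin 8} : Pl {i, j, k, l} ↔ (i ≠ j ∧ i ≠ k ∧ j ≠ k ∧ l = i ^^^ j ^^^ k) := by
  rw [← bb_pl4']
  constructor
  · intro h
    obtain ⟨p, hp, e⟩ := bb_LQ h
    exact ⟨p, hp, fun m => by rw [← e]; simp⟩
  · rintro ⟨p, hp, e⟩
    obtain ⟨c, hc, e'⟩ := bb_QL hp
    have : ({i, j, k, l} : F8) = c := by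
      ext m
      rw [e', ← e]; simp
    rw [this]; exact hc

theorem bb_pl_ex (h : Pl c) : ∃ i j k l, c = {i, j, k, l} := by
  obtain ⟨p, -, e⟩ := bb_LQ h
  refine ⟨p.1, p.2.1, p.2.2.1, p.2.2.2, ?_⟩
  ext m
  rw [e]; simp [bbIn]

theorem bb_xor_ne : ∀ i j k : Fin 8, i ≠ j → i ≠ k → j ≠ k →
    i ^^^ j ^^^ k ≠ i ∧ i ^^^ j ^^^ k ≠ j ∧ i ^^^ j ^^^ k ≠ k := by decide +kernel

/-- three points lie in exactly one plane -/
theorem pl_ex {i j k : Fin 8} (h1 : i ≠ j) (h2 : i ≠ k) (h3 : j ≠ k) :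
    ∃ l, l ≠ i ∧ l ≠ j ∧ l ≠ k ∧ Pl {i, j, k, l} ∧ ∀ m, Pl {i, j, k, m} → m = l := by
  obtain ⟨a, b, c⟩ := bb_xor_ne i j k h1 h2 h3
  exact ⟨_, a, b, c, bb_pl4.2 ⟨h1, h2, h3, rfl⟩, fun m hm => (bb_pl4.1 hm).2.2.2⟩

/-- affine maps -/
def bbAff (f : Fin 8 → Fin 8) : Prop := ∀ a b c, f (a ^^^ b ^^^ c) = f a ^^^ f b ^^^ f c

theorem bb_smul4 (σ : P8) (i j k l : Fin 8) : σ • ({i, j, k, l} : F8) = {σ i, σ j, σ k, σ l} := by
  ext m
  simp only [bb_mem_smul, Finset.mem_insert, Finset.mem_singleton, Equiv.Perm.inv_eq_iff_eq]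

theorem bb_x1 : ∀ a b : Fin 8, a ^^^ a ^^^ b = b ∧ a ^^^ b ^^^ a = b ∧ b ^^^ a ^^^ a = b := by
  decide +kernel

theorem bb_aff_of (h : ∀ c, Pl c → Pl (σ • c)) : bbAff σ := by
  intro a b c
  by_cases h1 : a = b
  · subst h1; rw [(bb_x1 _ _).1, (bb_x1 _ _).1]
  by_cases h2 : a = c
  · subst h2; rw [(bb_x1 _ _).2.1, (bb_x1 _ _).2.1]
  by_cases h3 : b = c
  · subst h3; rw [(bb_x1 _ _).2.2, (bb_x1 _ _).2.2]
  have := h _ (bb_pl4.2 ⟨h1, h2, h3, rfl⟩)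
  rw [bb_smul4] at this
  exact (bb_pl4.1 this).2.2.2

theorem bb_pl_of_aff (h : bbAff σ) (hc : Pl c) : Pl (σ • c) := by
  obtain ⟨i, j, k, l, rfl⟩ := bb_pl_ex hc
  obtain ⟨h1, h2, h3, rfl⟩ := bb_pl4.1 hc
  rw [bb_smul4]
  exact bb_pl4.2 ⟨σ.injective.ne h1, σ.injective.ne h2, σ.injective.ne h3, h _ _ _⟩

theorem bb_AG_of_aff (h : bbAff σ) : σ ∈ AG := by
  have h' : bbAff (σ⁻¹ : P8) := by
    intro a b c
    apply σ.injective
    rw [h]
    simp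
  refine fun c => ⟨bb_pl_of_aff h, fun hc => ?_⟩
  have := bb_pl_of_aff h' hc
  rwa [inv_smul_smul] at this

theorem bb_aff (hσ : σ ∈ AG) : bbAff σ := bb_aff_of fun c => (hσ c).1

/-- the affine map with `0 ↦ i`, `1 ↦ j`, `2 ↦ k`, `4 ↦ l` -/
def bbF (i j k l : Fin 8) : Fin 8 → Fin 8 :=
  ![i, j, k, i ^^^ j ^^^ k, l, i ^^^ j ^^^ l, i ^^^ k ^^^ l, j ^^^ k ^^^ l]

def bbLin (u v w x : Fin 8) : Fin 8 :=
  (if x.1 % 2 = 1 then u else 0) ^^^ (if x.1 / 2 % 2 = 1 then v else 0) ^^^ (if x.1 / 4 = 1 then w else 0)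

theorem bb_lin : ∀ u v w a b : Fin 8, bbLin u v w (a ^^^ b) = bbLin u v w a ^^^ bbLin u v w b := by
  decide +kernel

theorem bb_F_lin : ∀ i j k l x : Fin 8, bbF i j k l x = i ^^^ bbLin (i ^^^ j) (i ^^^ k) (i ^^^ l) x := by
  decide +kernel

theorem bb_x2 : ∀ i a b c : Fin 8, i ^^^ (a ^^^ b ^^^ c) = (i ^^^ a) ^^^ (i ^^^ b) ^^^ (i ^^^ c) := by
  decide +kernel

theorem bb_F_aff (i j k l : Fin 8) : bbAff (bbF i j k l) := by
  intro a b c
  rw [bb_F_lin, bb_F_lin, bb_F_lin, bb_F_lin, bb_lin, bb_lin, bb_x2]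

theorem bb_lin_inj : ∀ u v w : Fin 8, u ≠ 0 → v ≠ 0 → u ≠ v → w ≠ 0 → w ≠ u → w ≠ v → w ≠ u ^^^ v →
    ∀ a b, bbLin u v w a = bbLin u v w b → a = b := by decide +kernel

theorem bb_x3 : ∀ i a b : Fin 8, (i ^^^ a = i ^^^ b → a = b) ∧ (i ^^^ a = 0 → i = a) := by
  decide +kernel

theorem bb_x4 : ∀ i j k l : Fin 8, i ^^^ l = (i ^^^ j) ^^^ (i ^^^ k) → l = i ^^^ j ^^^ k := by
  decide +kernel

theorem bb_ex4 {i j k l : Fin 8} (h1 : i ≠ j) (h2 : i ≠ k) (h3 : j ≠ k) (h4 : l ≠ i) (h5 : l ≠ j)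
    (h6 : l ≠ k) (h7 : l ≠ i ^^^ j ^^^ k) :
    ∃ σ ∈ AG, σ 0 = i ∧ σ 1 = j ∧ σ 2 = k ∧ σ 4 = l := by
  have hinj : Function.Injective (bbF i j k l) := by
    intro a b e
    rw [bb_F_lin, bb_F_lin] at e
    exact bb_lin_inj _ _ _ (fun h => h1 ((bb_x3 i j 0).2 h)) (fun h => h2 ((bb_x3 i k 0).2 h))
      (fun h => h3 ((bb_x3 i _ _).1 h)) (fun h => h4 ((bb_x3 i l 0).2 h).symm)
      (fun h => h5 ((bb_x3 i _ _).1 h)) (fun h => h6 ((bb_x3 i _ _).1 h)) (fun h => h7 (bb_x4 _ _ _ _ h))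
      a b ((bb_x3 i _ _).1 e)
  exact ⟨Equiv.ofBijective _ (Finite.injective_iff_bijective.1 hinj), bb_AG_of_aff (bb_F_aff i j k l),
    rfl, rfl, rfl, rfl⟩

theorem bb_ex_out : ∀ i j k : Fin 8, ∃ l, l ≠ i ∧ l ≠ j ∧ l ≠ k ∧ l ≠ i ^^^ j ^^^ k := by decide +kernel

/-- 3-transitivity (e.g. `decide` with a list of generators / of explicit elements) -/
theorem AG_three {i j k : Fin 8} (h1 : i ≠ j) (h2 : i ≠ k) (h3 : j ≠ k) :
    ∃ σ ∈ AG, σ 0 = i ∧ σ 1 = j ∧ σ 2 = k := by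
  obtain ⟨l, a, b, c, d⟩ := bb_ex_out i j k
  obtain ⟨σ, hσ, e1, e2, e3, -⟩ := bb_ex4 h1 h2 h3 a b c d
  exact ⟨σ, hσ, e1, e2, e3⟩

theorem bb_eq_F (hσ : σ ∈ AG) (x : Fin 8) : σ x = bbF (σ 0) (σ 1) (σ 2) (σ 4) x := by
  have h := bb_aff hσ
  fin_cases x
  · rfl
  · rfl
  · rfl
  · exact h 0 1 2
  · rfl
  · exact h 0 1 4
  · exact h 0 2 4
  · exact h 1 2 4

/-- an element of `AG` fixing `0,1,2` fixes `3` and is determined by the image of `4` -/
theorem AG_fix (hσ : σ ∈ AG) (h0 : σ 0 = 0) (h1 : σ 1 = 1) (h2 : σ 2 = 2) (h4 : σ 4 = 4) : σ = 1 := by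
  ext x
  rw [bb_eq_F hσ, h0, h1, h2, h4]
  fin_cases x <;> rfl

theorem AG_four {l : Fin 8} (h : 4 ≤ l.1) :
    ∃ σ ∈ AG, σ 0 = 0 ∧ σ 1 = 1 ∧ σ 2 = 2 ∧ σ 4 = l := by
  have : ∀ l : Fin 8, 4 ≤ l.1 → l ≠ 0 ∧ l ≠ 1 ∧ l ≠ 2 ∧ l ≠ 0 ^^^ 1 ^^^ 2 := by decide
  obtain ⟨a, b, c, d⟩ := this l h
  exact bb_ex4 (by decide) (by decide) (by decide) a b c d

end Cfsg.Lib.W8
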