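import Cfsg.Agent.Lib.W8.Frame

/-! Simultaneous diagonalisation of elementary abelian subgroups. -/

set_option autoImplicit false

namespace Cfsg.Lib.W8

open Matrix
open scoped Pointwise symmDiff

variable {g h w : W} {c d : F8} {σ τ : P8}

/-- the character of the group of subsets defined by `S` -/
def chi (S c : F8) : ℚ := (-1) ^ (S ∩ c).card

/-- `v` is a basis of common eigenvectors of the `θ c` (`c` satisfying `P`) with characters `S i` -/
structure Eig (P : F8 → Prop) (θ : F8 → W) (v : Fin 8 → V) (S : Fin 8 → F8) : Prop where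
  li : LinearIndependent ℚ v
  eig : ∀ i c, P c → mat (θ c) *ᵥ v i = chi (S i) c • v i

theorem dg_span (l : List W) (h2 : ∀ g ∈ l, g * g = 1) (hc : ∀ g ∈ l, ∀ h ∈ l, Commute g h) :
    ⊤ ≤ Submodule.span ℚ {u : V | ∀ g ∈ l, mat g *ᵥ u = u ∨ mat g *ᵥ u = -u} := by
  induction l with
  | nil => exact fun u _ => Submodule.subset_span (by simp)
  | cons g l ih =>
    refine (ih (fun a ha => h2 a (by simp [ha])) fun a ha b hb => hc a (by simp [ha]) b (by simp [hb])).trans
      (Submodule.span_le.2 fun u hu => ?_)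
    have e2 : mat g *ᵥ (mat g *ᵥ u) = u := by rw [mulVec_mulVec, ← mat_mul, h2 g (by simp), mat_one, one_mulVec]
    have e3 : ∀ a ∈ l, mat a *ᵥ (mat g *ᵥ u) = mat g *ᵥ (mat a *ᵥ u) := fun a ha => by
      rw [mulVec_mulVec, mulVec_mulVec, ← mat_mul, ← mat_mul, (hc a (by simp [ha]) g (by simp)).eq]
    have : u = (1 / 2 : ℚ) • (u + mat g *ᵥ u) + (1 / 2 : ℚ) • (u - mat g *ᵥ u) := by module
    rw [SetLike.mem_coe, this]
    refine add_mem (Submodule.smul_mem _ _ (Submodule.subset_span fun a ha => ?_))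
      (Submodule.smul_mem _ _ (Submodule.subset_span fun a ha => ?_))
    · rcases List.mem_cons.1 ha with rfl | ha
      · left; rw [mulVec_add, e2, add_comm]
      · rw [mulVec_add, e3 a ha]
        refine (hu a ha).imp (fun e => by rw [e]) fun e => ?_
        rw [e, mulVec_neg, neg_add]
    · rcases List.mem_cons.1 ha with rfl | ha
      · right; rw [mulVec_sub, e2, neg_sub]
      · rw [mulVec_sub, e3 a ha]
        refine (hu a ha).imp (fun e => by rw [e]) fun e => ?_
        rw [e, mulVec_neg, neg_sub, sub_neg_eq_add, neg_add_eq_sub]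

/-- commuting involutions have a common eigenbasis -/
theorem diag_list (l : List W) (h2 : ∀ g ∈ l, g * g = 1) (hc : ∀ g ∈ l, ∀ h ∈ l, Commute g h) :
    ∃ v : Fin 8 → V, LinearIndependent ℚ v ∧
      ∀ i, ∀ g ∈ l, mat g *ᵥ v i = v i ∨ mat g *ᵥ v i = -v i := by
  obtain ⟨b, hb, hs, hl⟩ := exists_linearIndependent ℚ {u : V | ∀ g ∈ l, mat g *ᵥ u = u ∨ mat g *ᵥ u = -u}
  haveI : Fintype b := hl.setFinite.fintype
  have B := Module.Basis.mk hl (by rw [Subtype.range_coe, hs]; exact dg_span l h2 hc)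
  have hcard : Fintype.card b = 8 := by rw [← Module.finrank_eq_card_basis B]; simp
  obtain ⟨e⟩ : Nonempty (Fin 8 ≃ b) := ⟨(Fintype.equivFinOfCardEq hcard).symm⟩
  exact ⟨fun i => e i, hl.comp e e.injective, fun i => hb (e i).2⟩

theorem dg_card (c d : F8) : (c ∆ d).card + 2 * (c ∩ d).card = c.card + d.card := by
  have h1 := Finset.card_sdiff_add_card_inter c d
  have h2 := Finset.card_sdiff_add_card_inter d c
  rw [Finset.inter_comm d c] at h2
  rw [symmDiff_def, Finset.sup_eq_union, Finset.card_union_of_disjoint disjoint_sdiff_sdiff]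
  omega

theorem dg_even (c d : F8) : Even (c ∆ d).card ↔ (Even c.card ↔ Even d.card) := by
  have := dg_card c d
  simp only [Nat.even_iff]; omega

theorem chi_symmDiff (S c d : F8) : chi S (c ∆ d) = chi S c * chi S d := by
  have := dg_card (S ∩ c) (S ∩ d)
  rw [chi, chi, chi, ← pow_add, ← this, pow_add, pow_mul, ← Finset.inf_eq_inter, inf_symmDiff_distrib_left]
  simp

theorem chi_comm (S c : F8) : chi S c = chi c S := by rw [chi, chi, Finset.inter_comm]

theorem chi_single (S : F8) (j : Fin 8) : chi S {j} = if j ∈ S then -1 else 1 := by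
  by_cases h : j ∈ S <;> simp [chi, h]

theorem chi_smul (σ : P8) (S c : F8) : chi (σ • S) (σ • c) = chi S c := by
  rw [chi, chi, ← Finset.smul_finset_inter, card_smul8]

theorem chi_cases (S c : F8) : chi S c = 1 ∨ chi S c = -1 := neg_one_pow_eq_or ℚ _

theorem chi_eq_one {S c : F8} : chi S c = 1 ↔ Even (S ∩ c).card := neg_one_pow_eq_one_iff_even (by norm_num)

theorem chi_eq_neg {S c : F8} : chi S c = -1 ↔ Odd (S ∩ c).card := neg_one_pow_eq_neg_one_iff_odd (by norm_num)

theorem dg_insert {j : Fin 8} (h : j ∉ c) : insert j c = {j} ∆ c := by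
  ext k; by_cases e : k = j <;> simp [Finset.mem_symmDiff, e, h]

theorem diagA (θ : F8 → W) (hm : ∀ c d, θ c * θ d = θ (c ∆ d)) :
    ∃ v S, Eig (fun _ => True) θ v S := by
  classical
  have h0 : θ ∅ = 1 := by
    have := hm ∅ ∅
    rw [symmDiff_self, Finset.bot_eq_empty] at this
    exact mul_eq_left.1 this
  obtain ⟨v, li, hv⟩ := diag_list (List.ofFn fun j : Fin 8 => θ {j})
    (fun g hg => by
      obtain ⟨j, rfl⟩ := List.mem_ofFn.1 hg
      rw [hm, symmDiff_self, Finset.bot_eq_empty, h0])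
    (fun g hg h hh => by
      obtain ⟨j, rfl⟩ := List.mem_ofFn.1 hg
      obtain ⟨k, rfl⟩ := List.mem_ofFn.1 hh
      rw [Commute, SemiconjBy, hm, hm, symmDiff_comm])
  refine ⟨v, fun i => Finset.univ.filter fun j => mat (θ {j}) *ᵥ v i = -v i, li, fun i c _ => ?_⟩
  induction c using Finset.induction_on with
  | empty => simp [h0, mat_one, chi]
  | insert j c hj ih =>
    rw [dg_insert hj, ← hm, mat_mul, ← mulVec_mulVec, ih, mulVec_smul, chi_symmDiff, mul_comm, mul_smul, chi_single]
    congr 1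
    split_ifs with e
    · rw [(Finset.mem_filter.1 e).2]; simp
    · rw [one_smul]
      exact (hv i _ (List.mem_ofFn.2 ⟨j, rfl⟩)).resolve_right fun e' => e (Finset.mem_filter.2 ⟨by simp, e'⟩)

theorem diagE (θ : F8 → W) (hm : ∀ c d : F8, Even c.card → Even d.card → θ c * θ d = θ (c ∆ d)) :
    ∃ v S, Eig (fun c => Even c.card) θ v S := by
  have ev : ∀ c : F8, Even (if Even c.card then c else c ∆ {0}).card := fun c => by
    split_ifs with e
    · exact e
    · rw [dg_even]; simp [e]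
  obtain ⟨v, S, E⟩ := diagA (fun c => θ (if Even c.card then c else c ∆ {0})) fun c d => by
    rw [hm _ _ (ev c) (ev d)]
    congr 1
    by_cases e1 : Even c.card <;> by_cases e2 : Even d.card <;> simp only [dg_even, e1, e2, if_true, if_false,
      iff_true, iff_false, not_false_iff, iff_self, true_iff, not_true]
    · rw [symmDiff_assoc]
    · rw [symmDiff_right_comm]
    · rw [symmDiff_symmDiff_symmDiff_comm, symmDiff_self, symmDiff_bot]
  exact ⟨v, S, E.li, fun i c hc => by simpa [hc] using E.eig i c trivial⟩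

variable {P : F8 → Prop} {θ : F8 → W} {v : Fin 8 → V} {S : Fin 8 → F8}

theorem dg_unit (li : LinearIndependent ℚ v) : IsUnit (Matrix.of v)ᵀ :=
  linearIndependent_cols_iff_isUnit.1 li

theorem dg_ext (li : LinearIndependent ℚ v) {A B : M8} (h : ∀ i, A *ᵥ v i = B *ᵥ v i) : A = B := by
  refine (dg_unit li).mul_right_cancel ?_
  ext i j
  exact congrFun (h j) i

theorem dg_sim (li : LinearIndependent ℚ v) {A : M8} {r : Fin 8 → ℚ} (h : ∀ i, A *ᵥ v i = r i • v i) :
    ∃ u : M8ˣ, A = u * diagonal r * (u⁻¹ : M8ˣ) := by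
  obtain ⟨u, hu⟩ := dg_unit li
  refine ⟨u, ?_⟩
  rw [Units.eq_mul_inv_iff_mul_eq, hu]
  ext i j
  rw [mul_diagonal, mul_comm]
  exact congrFun (h j) i

theorem Eig.tr (E : Eig P θ v S) (hc : P c) : tr (θ c) = ∑ i, chi (S i) c := by
  obtain ⟨u, hu⟩ := dg_sim E.li fun i => E.eig i c hc
  rw [W8.tr, hu, trace_units_conj, trace_diagonal]

theorem Eig.det (E : Eig P θ v S) (hc : P c) : (mat (θ c)).det = ∏ i, chi (S i) c := by
  obtain ⟨u, hu⟩ := dg_sim E.li fun i => E.eig i c hc
  rw [hu, det_units_conj, det_diagonal]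

theorem Eig.eq_one (E : Eig P θ v S) (hc : P c) (h : ∀ i, Even (S i ∩ c).card) : θ c = 1 :=
  mat_inj (dg_ext E.li fun i => by rw [E.eig i c hc, chi_eq_one.2 (h i), mat_one, one_mulVec, one_smul])

theorem Eig.odd (E : Eig P θ v S) (hc : P c) (h : θ c = z) (i : Fin 8) : Odd (S i ∩ c).card := by
  have := E.eig i c hc
  rw [h, mat_z, neg_mulVec, one_mulVec, ← neg_one_smul ℚ] at this
  exact chi_eq_neg.1 (smul_left_injective ℚ (E.li.ne_zero i) this).symm

theorem dg_line {ι : Type*} (li : LinearIndependent ℚ v) (A : ι → M8) (r : ι → Fin 8 → ℚ)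
    (h : ∀ c i, A c *ᵥ v i = r c i • v i) {u : V} {i : Fin 8} (hu : ∀ c, A c *ᵥ u = r c i • u)
    (hi : ∀ j, j ≠ i → ∃ c, r c j ≠ r c i) : ∃ s : ℚ, u = s • v i := by
  have top : Submodule.span ℚ (Set.range v) = ⊤ := li.span_eq_top_of_card_eq_finrank (by simp)
  obtain ⟨a, ha⟩ := (Submodule.mem_span_range_iff_exists_fun ℚ).1 (top ▸ Submodule.mem_top : u ∈ _)
  refine ⟨a i, ?_⟩
  rw [← ha]
  refine Finset.sum_eq_single i (fun j _ hj => ?_) (by simp)
  obtain ⟨c, hc⟩ := hi j hj
  have h1 := hu c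
  rw [← ha, mulVec_sum, Finset.smul_sum, ← sub_eq_zero, ← Finset.sum_sub_distrib] at h1
  simp only [mulVec_smul, h, smul_smul, ← sub_smul] at h1
  have h2 := Fintype.linearIndependent_iff.1 li _ h1 j
  rw [mul_comm, ← sub_mul] at h2
  rw [(mul_eq_zero.1 h2).resolve_left (sub_ne_zero.2 hc), zero_smul]

/-- a common eigenvector lies in the span of the basis vectors with the same character -/
theorem Eig.line (E : Eig P θ v S) {u : V} {i : Fin 8}
    (hu : ∀ c, P c → mat (θ c) *ᵥ u = chi (S i) c • u)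
    (hi : ∀ j, j ≠ i → ∃ c, P c ∧ chi (S j) c ≠ chi (S i) c) : ∃ r : ℚ, u = r • v i :=
  dg_line (ι := {c // P c}) E.li (fun c => mat (θ c)) (fun c i => chi (S i) c) (fun c i => E.eig i c c.2)
    (fun c => hu c c.2) fun j hj => let ⟨c, h1, h2⟩ := hi j hj; ⟨⟨c, h1⟩, h2⟩

/-- number of basis vectors with the character `T` of the group of even subsets -/
def cnt (S : Fin 8 → F8) (T : F8) : ℕ := (Finset.univ.filter fun i => S i = T ∨ S i = Tᶜ).card

theorem dg_orth0 : ∀ U : F8, ∑ c ∈ Finset.univ.filter (fun c : F8 => Even c.card), (-1 : ℤ) ^ (U ∩ c).card =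
    if U = ∅ ∨ U = Finset.univ then 128 else 0 := by decide +kernel

theorem dg_orth (S T : F8) : ∑ c ∈ Finset.univ.filter (fun c : F8 => Even c.card), chi S c * chi T c =
    if S = T ∨ S = Tᶜ then 128 else 0 := by
  have h := congrArg (Int.cast : ℤ → ℚ) (dg_orth0 (S ∆ T))
  have e : (S ∆ T = ∅ ∨ S ∆ T = Finset.univ) ↔ (S = T ∨ S = Tᶜ) := by
    rw [← Finset.bot_eq_empty, symmDiff_eq_bot, ← Finset.top_eq_univ, symmDiff_eq_top, eq_compl_iff_isCompl]
  push_cast at h
  simp only [e] at h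
  rw [← h]
  refine Finset.sum_congr rfl fun c _ => ?_
  rw [chi_comm S, chi_comm T, ← chi_symmDiff, chi_comm, chi]

theorem Eig.cnt_eq (E : Eig (fun c => Even c.card) θ v S) (T : F8) :
    (128 * cnt S T : ℚ) = ∑ c ∈ Finset.univ.filter (fun c : F8 => Even c.card), W8.tr (θ c) * chi T c := by
  rw [Finset.sum_congr rfl fun c hc => by rw [E.tr (Finset.mem_filter.1 hc).2, Finset.sum_mul], Finset.sum_comm]
  simp only [dg_orth, cnt]
  rw [Finset.sum_ite, Finset.sum_const_zero, Finset.sum_const]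
  simp [mul_comm]

/-- traces and `∑_{c even} chi S c * chi T c = 128 [S = T ∨ S = Tᶜ]` -/
theorem Eig.cnt_smul (E : Eig (fun c => Even c.card) θ v S)
    (h : ∀ c : F8, Even c.card → W8.tr (θ (σ • c)) = W8.tr (θ c)) (T : F8) :
    cnt S (σ • T) = cnt S T := by
  have : (128 * cnt S (σ • T) : ℚ) = 128 * cnt S T := by
    rw [E.cnt_eq, E.cnt_eq]
    refine (Finset.sum_equiv (MulAction.toPerm σ) (fun c => ?_) fun c hc => ?_).symm
    · simp [card_smul8]
    · rw [MulAction.toPerm_apply, h c (Finset.mem_filter.1 hc).2, chi_smul]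
  exact_mod_cast mul_left_cancel₀ (by norm_num : (128 : ℚ) ≠ 0) this

/-- The involutions of `B` form a subgroup of index 2; if it had order `≥ 32` there would be at least 5 distinct
characters on an eigenbasis, so one of multiplicity one, and `i` would act on a rational line with square `-1`. -/
theorem w6 (B : Subgroup W) (hc : ∀ a ∈ B, ∀ b ∈ B, Commute a b)
    (h2 : ∀ b ∈ B, b * b = 1 ∨ b * b = z) {i : W} (hi : i ∈ B) (hz : i * i = z) :
    Nat.card B ≤ 32 := by
  classical
  haveI := Fintype.ofFinite W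
  obtain ⟨v, li, hv⟩ := diag_list (Finset.univ.filter fun b => b ∈ B ∧ b * b = 1).toList
    (fun g hg => (Finset.mem_filter.1 (Finset.mem_toList.1 hg)).2.2) fun g hg h hh =>
      hc g (Finset.mem_filter.1 (Finset.mem_toList.1 hg)).2.1 h (Finset.mem_filter.1 (Finset.mem_toList.1 hh)).2.1
  have hv' : ∀ (b : {b // b ∈ B ∧ b * b = 1}) j,
      mat b *ᵥ v j = (if mat b *ᵥ v j = v j then (1 : ℚ) else -1) • v j := fun b j => by
    split_ifs with e
    · rw [e, one_smul]
    · rw [(hv j b (by simpa using b.2)).resolve_left e, neg_one_smul]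
  obtain ⟨f, hf⟩ : ∃ f : Fin 8 → {b // b ∈ B ∧ b * b = 1} → ℚ,
      f = fun j (b : {b // b ∈ B ∧ b * b = 1}) => if mat b.1 *ᵥ v j = v j then (1 : ℚ) else -1 := ⟨_, rfl⟩
  have h4 : 2 * (Finset.univ.image f).card ≤ 8 := by
    refine (Finset.mul_card_image_le_card Finset.univ 2 fun a ha => ?_).trans (by simp)
    obtain ⟨j, -, rfl⟩ := Finset.mem_image.1 ha
    by_contra! hlt
    obtain ⟨s, hs⟩ := dg_line li (fun b : {b // b ∈ B ∧ b * b = 1} => mat b) (fun b j => f j b)
      (by rw [hf]; exact hv') (u := mat i *ᵥ v j) (i := j) (fun b => by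
        rw [mulVec_mulVec, ← mat_mul, (hc _ b.2.1 i hi).eq, mat_mul, ← mulVec_mulVec, hv' b j, mulVec_smul, hf])
      fun k hk => Function.ne_iff.1 fun e => hk (Finset.card_le_one.1 (Nat.le_of_lt_succ hlt) k (by simp [e]) j (by simp))
    have h1 : mat i *ᵥ (mat i *ᵥ v j) = (-1 : ℚ) • v j := by
      rw [mulVec_mulVec, ← mat_mul, hz, mat_z, neg_mulVec, one_mulVec, neg_one_smul]
    rw [hs, mulVec_smul, hs, smul_smul] at h1
    have := smul_left_injective ℚ (li.ne_zero j) h1
    nlinarith [mul_self_nonneg s]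
  have h16 : Nat.card {b // b ∈ B ∧ b * b = 1} ≤ 16 := by
    have := Nat.card_le_card_of_injective (β := (Finset.univ.image f) → Prop) (fun b a => a.1 b = 1) fun b b' e => by
      refine Subtype.ext (mat_inj (dg_ext li fun j => ?_))
      have := congrFun e ⟨f j, by simp⟩
      rw [hv' b, hv' b']
      simp only [hf, eq_iff_iff] at this
      split_ifs at this ⊢ <;> first | rfl | norm_num at this
    rw [Nat.card_fun, Nat.card_eq_fintype_card (α := Prop), Fintype.card_prop,
      Nat.card_eq_finsetCard] at this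
    exact this.trans (Nat.pow_le_pow_right two_pos (show _ ≤ 4 by omega))
  have := Nat.card_le_card_of_surjective (β := B) (Sum.elim (fun b : {b // b ∈ B ∧ b * b = 1} => ⟨b, b.2.1⟩)
    fun b : {b // b ∈ B ∧ b * b = 1} => ⟨b * i, mul_mem b.2.1 hi⟩) fun b => by
      rcases h2 b b.2 with e | e
      · exact ⟨Sum.inl ⟨b, b.2, e⟩, rfl⟩
      · refine ⟨Sum.inr ⟨b * i⁻¹, mul_mem b.2 (inv_mem hi), ?_⟩, Subtype.ext (by simp)⟩
        rw [(hc _ (inv_mem hi) _ b.2).mul_mul_mul_comm, ← _root_.mul_inv_rev, e, hz, mul_inv_cancel]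
  rw [Nat.card_sum] at this
  omega

/-- An elementary abelian group of order 256: the eight characters are independent, so there are eight commuting
distinct elements of trace 6 generating the group; use `refl_of_tr`, `to_frame`. -/
theorem fr3 (θ : F8 → W) (hm : ∀ c d, θ c * θ d = θ (c ∆ d)) (hi : Function.Injective θ) :
    ∃ l ∈ L0, (∀ c, ∃ d, l * θ c * l⁻¹ = sF d) ∧ ∀ d, ∃ c, l * θ c * l⁻¹ = sF d := by
  obtain ⟨v, S, E⟩ := diagA θ hm
  have h0 : θ ∅ = 1 := E.eq_one trivial (by simp)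
  obtain ⟨φ, hφ⟩ : ∃ φ : F8 → F8, ∀ c i, i ∈ φ c ↔ chi (S i) c = -1 :=
    ⟨fun c => Finset.univ.filter fun i => chi (S i) c = -1, by simp⟩
  have φm : ∀ c d, φ (c ∆ d) = φ c ∆ φ d := fun c d => by
    ext i
    rw [Finset.mem_symmDiff, hφ, hφ, hφ, chi_symmDiff]
    rcases chi_cases (S i) c with e | e <;> rcases chi_cases (S i) d with e' | e' <;> rw [e, e'] <;> norm_num
  have φi : Function.Injective φ := fun c d e => by
    rw [← symmDiff_eq_bot]
    refine hi ((E.eq_one trivial fun i => chi_eq_one.1 ((chi_cases _ _).resolve_right fun e' => ?_)).trans h0.symm)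
    rw [← hφ, φm, e] at e'
    simp at e'
  choose k hk using fun i : Fin 8 => Finite.injective_iff_surjective.1 φi {i}
  have sq : ∀ c, θ c * θ c = 1 := fun c => by rw [hm, symmDiff_self, Finset.bot_eq_empty, h0]
  choose a ha hr using fun i => refl_of_tr (sq (k i)) (by
    rw [E.tr trivial, Finset.sum_congr rfl (g := fun j => if j = i then (-1 : ℚ) else 1) fun j _ => ?_]
    · rw [Finset.sum_ite]; simp [Finset.filter_eq', Finset.filter_ne']; norm_num
    · split_ifs with e
      · rw [← hφ, hk, e]; simp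
      · exact (chi_cases _ _).resolve_right fun e' => e (by rwa [← hφ, hk, Finset.mem_singleton] at e'))
  obtain ⟨l, hl, f, fi, hf⟩ := to_frame a ha fun i j hij => by
    have ne : rf (a i) ≠ rf (a j) := fun e => hij (Finset.singleton_injective (by
      rw [← hk, ← hk, hi ((hr i).trans (e.trans (hr j).symm))]))
    rcases rf_comm (ha i) (ha j) (by rw [← hr, ← hr, Commute, SemiconjBy, hm, hm, symmDiff_comm]) with e | e | e
    · exact (ne (by rw [e])).elim
    · exact (ne (by rw [e, rf_neg])).elim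
    · exact e
  have key : ∀ d : F8, ∃ c, φ c = d ∧ l * θ c * l⁻¹ = sF (d.image f) := fun d => by
    induction d using Finset.induction_on with
    | empty => exact ⟨∅, by ext i; simp [hφ, chi]; norm_num, by simp [h0, sF_empty]⟩
    | insert j d hj ih =>
      obtain ⟨c, e1, e2⟩ := ih
      refine ⟨k j ∆ c, by rw [φm, hk, e1, dg_insert hj], ?_⟩
      rw [Finset.image_insert, dg_insert (by simpa [fi.eq_iff] using hj), ← sF_mul, ← e2, ← hm, ← conj_mul, hr,
        rf_conj l (ha j), sF_single]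
      rcases hf j with e | e <;> rw [e]
      rw [rf_neg]
  refine ⟨l, hl, fun c => ?_, fun d => ?_⟩
  · obtain ⟨c', e1, e2⟩ := key (φ c)
    exact ⟨_, φi e1 ▸ e2⟩
  · obtain ⟨d', rfl⟩ := Finite.injective_iff_surjective.1 (Finset.image_injective fi) d
    exact (key d').imp fun c hc => hc.2

end Cfsg.Lib.W8
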