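import Cfsg.Agent.Lib.W8.Diag

/-! Character multisets of a subgroup `2^7` invariant under a group of permutations. -/

set_option autoImplicit false

namespace Cfsg.Lib.W8

open Matrix
open scoped Pointwise symmDiff

variable {θ : F8 → W} {c0 : F8} {σ τ : P8}

/-- an embedding of the group of even subsets sending `c0` to `-1` -/
structure TH (θ : F8 → W) (c0 : F8) : Prop where
  mul : ∀ c d : F8, Even c.card → Even d.card → θ c * θ d = θ (c ∆ d)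
  inj : ∀ c d : F8, Even c.card → Even d.card → θ c = θ d → c = d
  top : θ c0 = z

/-- `σ` is induced by an element of `W`, up to a sign outside `L0` -/
def Inv (θ : F8 → W) (σ : P8) : Prop :=
  ∃ w : W, ∀ c : F8, Even c.card → w * θ c * w⁻¹ = θ (σ • c) ∨
    (θ c ∉ L0 ∧ w * θ c * w⁻¹ = z * θ (σ • c))

/-- the sign is the same for all `c` with `θ c ∉ L0` (multiply two of them), so it cancels in the square -/
theorem Inv.sq (h : TH θ c0) (hi : Inv θ σ) :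
    ∃ w : W, ∀ c : F8, Even c.card → w * θ c * w⁻¹ = θ ((σ * σ) • c) := by
  obtain ⟨w, hw⟩ := hi
  have ev : ∀ c : F8, Even c.card → Even (σ • c).card := fun c hc => by rwa [card_smul8]
  have zc : ∀ x : W, w * (z * x) * w⁻¹ = z * (w * x * w⁻¹) := fun x => by
    rw [← mul_assoc w, ← (z_comm w).eq]; group
  have nl : ∀ x : W, w * x * w⁻¹ ∈ L0 ↔ x ∈ L0 := fun x =>
    ⟨fun e => by simpa [mul_assoc] using normal_L0.conj_mem' _ e w, fun e => normal_L0.conj_mem _ e w⟩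
  have key : ∀ c d : F8, Even c.card → Even d.card → θ c ∉ L0 → θ d ∉ L0 → w * θ c * w⁻¹ = θ (σ • c) →
      w * θ d * w⁻¹ ≠ z * θ (σ • d) := fun c d hc hd c1 d1 e1 e2 => by
    have e3 := (hw _ (even_symmDiff hc hd)).resolve_right fun e => e.1 (h.mul c d hc hd ▸ mul_mem_L0 c1 d1)
    rw [← h.mul c d hc hd, ← conj_mul, e1, e2, Finset.smul_finset_symmDiff, ← h.mul _ _ (ev c hc) (ev d hd)] at e3
    exact z_ne_one (mul_eq_right.1 (mul_left_cancel e3))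
  refine ⟨w * w, fun c hc => ?_⟩
  rw [show w * w * θ c * (w * w)⁻¹ = w * (w * θ c * w⁻¹) * w⁻¹ by group, mul_smul]
  rcases hw c hc with e1 | ⟨c1, e1⟩ <;> rcases hw _ (ev c hc) with e2 | ⟨c2, e2⟩
  · rw [e1, e2]
  · exact (key c _ hc (ev c hc) (by rwa [← nl, e1]) c2 e1 e2).elim
  · refine (key _ c (ev c hc) hc (fun e => c1 ?_) c1 e2 e1).elim
    rw [← nl, e1]; exact mul_mem z_mem e
  · rw [e1, zc, e2, ← mul_assoc, z_mul_z, one_mul]

variable {v : Fin 8 → V} {S : Fin 8 → F8}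

theorem ea_compl (T : F8) : cnt S Tᶜ = cnt S T := by simp [cnt, or_comm]

theorem ea_chi {c : F8} (hc : Even c.card) (T : F8) : chi Tᶜ c = chi T c := by
  rw [show Tᶜ = T ∆ ⊤ from (symmDiff_top T).symm, chi_comm, chi_symmDiff, chi_comm, (chi_eq_one (S := c) (c := ⊤)).2 (by simpa using hc), mul_one]

theorem ea_zero (h : TH θ c0) (h0 : Even c0.card) (E : Eig (fun c => Even c.card) θ v S) {T : F8}
    (hT : Even (T ∩ c0).card) : cnt S T = 0 := by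
  rw [cnt, Finset.card_eq_zero, Finset.filter_eq_empty_iff]
  intro i _ e
  have h1 := chi_eq_neg.2 (E.odd h0 h.top i)
  have h2 := chi_eq_one.2 hT
  rcases e with e | e <;> rw [e] at h1
  · rw [h1] at h2; norm_num at h2
  · rw [ea_chi h0, h2] at h1; norm_num at h1

theorem ea_sq (h : TH θ c0) (E : Eig (fun c => Even c.card) θ v S) (hi : Inv θ σ) (T : F8) :
    cnt S ((σ * σ) • T) = cnt S T := by
  obtain ⟨w, hw⟩ := hi.sq h
  exact E.cnt_smul (fun c hc => by rw [← hw c hc, tr_conj]) T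

/-- the contribution of the class `k` to the trace -/
def eaA {K : ℕ} (κ : F8 → Fin K) (c : F8) (k : Fin K) : ℤ :=
  ∑ T ∈ Finset.univ.filter (fun T => κ T = k), (-1) ^ (T ∩ c).card

theorem ea_tr (E : Eig (fun c => Even c.card) θ v S) {K : ℕ} (κ : F8 → Fin K) (n : Fin K → ℕ)
    (hn : ∀ T, cnt S T = n (κ T)) {c : F8} (hc : Even c.card) {a : Fin K → ℤ} (ha : eaA κ c = a) :
    ∃ t : ℤ, tr (θ c) = t ∧ 2 * t = ∑ k, n k * a k := by
  have h1 : 2 * tr (θ c) = ∑ T, cnt S T * chi T c := by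
    simp only [cnt, Finset.card_filter, Nat.cast_sum, Finset.sum_mul]
    rw [Finset.sum_comm, E.tr hc, Finset.mul_sum]
    refine Finset.sum_congr rfl fun i _ => ?_
    have ne : S i ≠ (S i)ᶜ := fun e => by
      have := congrArg (0 ∈ ·) e
      simp at this
    rw [← Finset.sum_subset (Finset.subset_univ {S i, (S i)ᶜ}) fun T _ hT => ?_, Finset.sum_pair ne]
    · simp [ea_chi hc, two_mul]
    · rw [if_neg]; · simp
      rintro (e | e) <;> simp [e] at hT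
  refine ⟨∑ i, (-1) ^ (S i ∩ c).card, by rw [E.tr hc]; simp [chi], ?_⟩
  have h2 : ((2 * ∑ i, (-1) ^ (S i ∩ c).card : ℤ) : ℚ) = ((∑ k, n k * a k : ℤ) : ℚ) := by
    rw [E.tr hc] at h1
    rw [← ha]
    simp only [eaA, chi] at h1 ⊢
    push_cast
    rw [h1, ← Finset.sum_fiberwise Finset.univ κ]
    refine Finset.sum_congr rfl fun k _ => ?_
    rw [Finset.mul_sum]
    exact Finset.sum_congr rfl fun T hT => by rw [hn, (Finset.mem_filter.1 hT).2]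
  exact_mod_cast h2

theorem ea_L0 (E : Eig (fun c => Even c.card) θ v S) {c : F8} (hc : Even c.card) {t : ℤ} (ht : tr (θ c) = t) :
    θ c ∈ L0 ↔ 4 ∣ t := by
  obtain ⟨m, hm⟩ : ∃ m, m = (Finset.univ.filter fun i => chi (S i) c = -1).card := ⟨_, rfl⟩
  have e : ∀ i, chi (S i) c = if chi (S i) c = -1 then -1 else 1 := fun i => by
    rcases chi_cases (S i) c with e | e <;> rw [e] <;> norm_num
  have h1 : (mat (θ c)).det = (-1) ^ m := by
    rw [E.det hc, Finset.prod_congr rfl fun i _ => e i, Finset.prod_ite, hm]; simp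
  have h2 : (t : ℚ) = (8 - 2 * m : ℤ) := by
    have := Finset.card_filter_add_card_filter_not (s := Finset.univ) fun i => chi (S i) c = -1
    rw [← hm, Finset.card_univ, Fintype.card_fin] at this
    rw [← ht, E.tr hc, Finset.sum_congr rfl fun i _ => e i, Finset.sum_ite, Finset.sum_const, Finset.sum_const, ← hm,
      eq_tsub_of_add_eq ((add_comm _ _).trans this), nsmul_eq_mul, nsmul_eq_mul, Nat.cast_sub (by omega)]
    push_cast; ring
  rw [mem_L0, h1, neg_one_pow_eq_one_iff_even (by norm_num), Int.cast_injective h2, Nat.even_iff]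
  omega

theorem ea_empty (h : TH θ c0) : tr (θ ∅) = 8 := by
  have := h.mul ∅ ∅ (by simp) (by simp)
  rw [symmDiff_self, Finset.bot_eq_empty] at this
  rw [mul_eq_left.1 this, tr_one]

theorem ea_eight (h : TH θ c0) (E : Eig (fun c => Even c.card) θ v S) {c : F8} (hc : Even c.card) (c1 : c ≠ ∅) :
    tr (θ c) ≠ 8 := fun e => by
  refine c1 (h.inj _ _ hc (by simp) ((E.eq_one hc fun i => chi_eq_one.1 ?_).trans (E.eq_one (by simp) (by simp)).symm))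
  refine (Finset.sum_eq_sum_iff_of_le (s := Finset.univ) (f := fun i => chi (S i) c) (g := fun _ => 1)
    fun i _ => ?_).1 (by rw [← E.tr hc, e]; simp) i (Finset.mem_univ i)
  rcases chi_cases (S i) c with e | e <;> rw [e]
  norm_num

/-- a code of a subset -/
def eaP (T : F8) : ℕ := ∑ i ∈ T, 2 ^ i.1

/-- greedy normal form -/
def eaG (ms : List P8) (T : F8) : F8 := ms.foldl (fun T σ => if eaP (σ • T) < eaP T then σ • T else T) T

theorem ea_G {ms : List P8} (h : ∀ σ ∈ ms, ∀ T, cnt S (σ • T) = cnt S T) (T : F8) : cnt S (eaG ms T) = cnt S T := by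
  induction ms generalizing T with
  | nil => rfl
  | cons σ ms ih =>
    refine (ih (fun τ hτ => h τ (by simp [hτ])) _).trans ?_
    dsimp only
    split_ifs
    exacts [h σ (by simp) T, rfl]

/-- the 3-cycle `(a b c)` -/
def ea3 (p : Fin 8 × Fin 8 × Fin 8) : P8 := Equiv.swap p.1 p.2.1 * Equiv.swap p.2.1 p.2.2

theorem ea_G3 (h : TH θ c0) (E : Eig (fun c => Even c.card) θ v S)
    (hi : ∀ σ : P8, Equiv.Perm.sign σ = 1 → σ • c0 = c0 → Inv θ σ) {l : List (Fin 8 × Fin 8 × Fin 8)}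
    (hl : ∀ p ∈ l, p.1 ≠ p.2.1 ∧ p.2.1 ≠ p.2.2 ∧ ea3 p • c0 = c0) (T : F8) :
    cnt S (eaG (l.map fun p => ea3 p * ea3 p) T) = cnt S T := by
  refine ea_G (fun σ hσ => ?_) T
  obtain ⟨p, hp, rfl⟩ := List.mem_map.1 hσ
  exact ea_sq h E (hi _ (by simp [ea3, (hl p hp).1, (hl p hp).2.1]) (hl p hp).2.2)

def eaL6 : List (Fin 8 × Fin 8 × Fin 8) := [(2, 4, 3), (3, 4, 5), (2, 4, 3), (4, 5, 6), (5, 7, 6), (2, 3, 4), (3, 5, 4),
  (4, 6, 5), (2, 3, 4), (5, 6, 7), (5, 7, 6)]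

def eaK6 (T : F8) : Fin 14 :=
  if 0 ∈ T then Fin.ofNat 14 ((T ∩ {2, 3, 4, 5, 6, 7}).card + if 1 ∈ T then 7 else 0)
  else Fin.ofNat 14 (6 - (T ∩ {2, 3, 4, 5, 6, 7}).card + if 1 ∈ T then 0 else 7)

def eaR6 (k : Fin 14) : F8 := Finset.univ.filter fun i => i = 0 ∨ (i = 1 ∧ 7 ≤ k.1) ∨ (2 ≤ i.1 ∧ i.1 < 2 + k.1 % 7)

theorem ea_n6 : ∀ T, eaG (eaL6.map fun p => ea3 p * ea3 p) (if 0 ∈ T then T else Tᶜ) = eaR6 (eaK6 T) := by
  decide +kernel

theorem ea_c6 (h : TH θ c0) (E : Eig (fun c => Even c.card) θ v S)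
    (hi : ∀ σ : P8, Equiv.Perm.sign σ = 1 → σ • c0 = c0 → Inv θ σ)
    (hl : ∀ p ∈ eaL6, p.1 ≠ p.2.1 ∧ p.2.1 ≠ p.2.2 ∧ ea3 p • c0 = c0) (T : F8) : cnt S T = cnt S (eaR6 (eaK6 T)) := by
  rw [← ea_n6, ea_G3 h E hi hl]
  split_ifs
  exacts [rfl, (ea_compl T).symm]

theorem ea_a6 : eaA eaK6 ∅ = ![2, 12, 30, 40, 30, 12, 2, 2, 12, 30, 40, 30, 12, 2] := by decide +kernel

theorem ea_b6 : eaA eaK6 {2, 3} = ![2, 4, -2, -8, -2, 4, 2, 2, 4, -2, -8, -2, 4, 2] ∧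
    eaA eaK6 {0, 2} = ![-2, -8, -10, 0, 10, 8, 2, -2, -8, -10, 0, 10, 8, 2] ∧
    eaA eaK6 {1, 2} = ![2, 8, 10, 0, -10, -8, -2, -2, -8, -10, 0, 10, 8, 2] ∧
    eaA eaK6 {0, 2}ᶜ = ![2, -8, 10, 0, -10, 8, -2, -2, 8, -10, 0, 10, -8, 2] ∧
    eaA eaK6 {1, 2}ᶜ = ![-2, 8, -10, 0, 10, -8, 2, -2, 8, -10, 0, 10, -8, 2] := by decide +kernel

theorem ea_p5 (h : TH θ c0) (hi : Inv θ τ) (c : Fin 5 → F8) (hc : ∀ i, Even (c i).card ∧ (τ * τ) • c i = c (i + 1))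
    (ci : Function.Injective c) : tr (θ (c 0)) ≠ 6 := fun e => by
  obtain ⟨w, hw⟩ := hi.sq h
  have h1 : ∀ i, w * θ (c i) * w⁻¹ = θ (c (i + 1)) := fun i => by rw [hw _ (hc i).1, (hc i).2]
  have h2 : ∀ i, tr (θ (c (i + 1))) = tr (θ (c i)) := fun i => by rw [← h1, tr_conj]
  have h0 := h.mul ∅ ∅ (by simp) (by simp)
  rw [symmDiff_self, Finset.bot_eq_empty] at h0
  refine p5 (w := w) (fun i => θ (c i)) (fun i j e => ci (h.inj _ _ (hc i).1 (hc j).1 e)) (fun i => ?_) (fun i => ?_)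
    (fun i j => ?_) h1
  · rw [h.mul _ _ (hc i).1 (hc i).1, symmDiff_self, Finset.bot_eq_empty, mul_eq_left.1 h0]
  · have e1 := (h2 0).trans e
    have e2 := (h2 1).trans e1
    have e3 := (h2 2).trans e2
    have e4 := (h2 3).trans e3
    fin_cases i
    exacts [e, e1, e2, e3, e4]
  · rw [Commute, SemiconjBy, h.mul _ _ (hc i).1 (hc j).1, h.mul _ _ (hc j).1 (hc i).1, symmDiff_comm]

/-- `diagE`; every `S i` meets `{0,1}` in one point (`Eig.odd`), so `S i` or its complement is `{0} ∪ T`,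
`T ⊆ {2,…,7}`; `n T := cnt S ({0} ∪ T)` has sum 8 and is invariant under the 3-cycles on `{2,…,7}` (`Inv.sq`,
`tr_conj`, `Eig.cnt_smul`), so depends only on `T.card`: `n0 + 6 n1 + 15 n2 + 20 n3 + 15 n4 + 6 n5 + n6 = 8`;
`θ {2,3} ≠ 1` gives `n1 + n5 = 1`, `n0 + n6 = 2`. If `n0 = n6 = 1` every `θ c` has determinant 1, so `(0 1)(2 3)` preserves
`cnt`, but it interchanges `n1` and `n5`. Otherwise six sets `c j` (`{1,j}` if `(n1,n0) = (1,2)`; the complement of `{1,j}` if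
`(n1,n6) = (1,2)`; the same with `0` for `1` if `n5 = 1`) have trace 6 and the 5-cycle `(2 3 4 5 6)` contradicts `p5`. -/
theorem earg_bp (h : TH θ {0, 1})
    (hi : ∀ σ : P8, Equiv.Perm.sign σ = 1 → σ • ({0, 1} : F8) = {0, 1} → Inv θ σ) : False := by
  obtain ⟨v, S, E⟩ := diagE θ h.mul
  obtain ⟨n, hk⟩ : ∃ n : Fin 14 → ℕ, ∀ k, cnt S (eaR6 k) = n k := ⟨_, fun _ => rfl⟩
  have hn := fun T => (ea_c6 h E hi (by decide +kernel) T).trans (hk _)
  have z : ∀ k : Fin 14, 7 ≤ k.1 → n k = 0 := fun k h1 =>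
    hk k ▸ ea_zero h (by decide) E (by revert k; decide +kernel)
  obtain ⟨b1, b2, b3, b4, b5⟩ := ea_b6
  obtain ⟨t0, e0, f0⟩ := ea_tr E _ _ hn (by decide) ea_a6
  obtain ⟨t1, e1, f1⟩ := ea_tr E _ _ hn (by decide) b1
  obtain ⟨t2, e2, f2⟩ := ea_tr E _ _ hn (by decide) b2
  obtain ⟨t3, e3, f3⟩ := ea_tr E _ _ hn (by decide) b3
  obtain ⟨t4, e4, f4⟩ := ea_tr E _ _ hn (by decide) b4
  obtain ⟨t5, e5, f5⟩ := ea_tr E _ _ hn (by decide) b5
  have i5 := hi (ea3 (2, 5, 3) * ea3 (3, 6, 4)) (by simp [ea3]) (by decide +kernel)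
  have g0 : t0 = 8 := by exact_mod_cast e0.symm.trans (ea_empty h)
  have g1 : t1 ≠ 8 := fun e => ea_eight h E (by decide) (by decide) (e1.trans (by simp [e]))
  have g2 : t2 ≠ 6 := fun e => ea_p5 h i5 ![{0, 2}, {0, 3}, {0, 4}, {0, 5}, {0, 6}] (by decide +kernel) (by decide +kernel)
    (e2.trans (by simp [e]))
  have g3 : t3 ≠ 6 := fun e => ea_p5 h i5 ![{1, 2}, {1, 3}, {1, 4}, {1, 5}, {1, 6}] (by decide +kernel) (by decide +kernel)
    (e3.trans (by simp [e]))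
  have g4 : t4 ≠ 6 := fun e => ea_p5 h i5 ![{0, 2}ᶜ, {0, 3}ᶜ, {0, 4}ᶜ, {0, 5}ᶜ, {0, 6}ᶜ] (by decide +kernel) (by decide +kernel)
    (e4.trans (by simp [e]))
  have g5 : t5 ≠ 6 := fun e => ea_p5 h i5 ![{1, 2}ᶜ, {1, 3}ᶜ, {1, 4}ᶜ, {1, 5}ᶜ, {1, 6}ᶜ] (by decide +kernel) (by decide +kernel)
    (e5.trans (by simp [e]))
  have g6 : 4 ∣ t2 → t3 = t2 := fun e => by
    obtain ⟨w, hw⟩ := hi (Equiv.swap 0 1 * Equiv.swap 3 4) (by simp) (by decide +kernel)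
    have := (hw {0, 2} (by decide)).resolve_right fun e' => e'.1 ((ea_L0 E (by decide) e2).2 e)
    rw [show (Equiv.swap 0 1 * Equiv.swap 3 4 : P8) • ({0, 2} : F8) = {1, 2} by decide +kernel] at this
    rw [← this, tr_conj, e2] at e3
    exact_mod_cast e3.symm
  have z7 := z 7 (by decide)
  have z8 := z 8 (by decide)
  have z9 := z 9 (by decide)
  have z10 := z 10 (by decide)
  have z11 := z 11 (by decide)
  have z12 := z 12 (by decide)
  have z13 := z 13 (by decide)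
  simp [Fin.sum_univ_succ] at f0 f1 f2 f3 f4 f5
  have : n 2 = 0 ∧ n 3 = 0 ∧ n 4 = 0 := by omega
  have : (n 1 = 1 ∧ n 5 = 0) ∨ (n 1 = 0 ∧ n 5 = 1) := by omega
  have : (n 0 = 2 ∧ n 6 = 0) ∨ (n 0 = 1 ∧ n 6 = 1) ∨ (n 0 = 0 ∧ n 6 = 2) := by omega
  omega

/-- every `S i` meets `{2,…,7}` in an odd set, so all orbits of `A₆` on these characters have length 6 or 20, and 8 is
not a sum of such numbers -/
theorem earg_bm (h : TH θ {2, 3, 4, 5, 6, 7})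
    (hi : ∀ σ : P8, Equiv.Perm.sign σ = 1 → σ • ({2, 3, 4, 5, 6, 7} : F8) = {2, 3, 4, 5, 6, 7} → Inv θ σ) :
    False := by
  obtain ⟨v, S, E⟩ := diagE θ h.mul
  obtain ⟨n, hk⟩ : ∃ n : Fin 14 → ℕ, ∀ k, cnt S (eaR6 k) = n k := ⟨_, fun _ => rfl⟩
  have hn := fun T => (ea_c6 h E hi (by decide +kernel) T).trans (hk _)
  have z : ∀ k : Fin 14, k.1 % 7 % 2 = 0 → n k = 0 := fun k h1 =>
    hk k ▸ ea_zero h (by decide) E (by revert k; decide +kernel)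
  obtain ⟨t0, e0, f0⟩ := ea_tr E _ _ hn (by decide) ea_a6
  have g0 : t0 = 8 := by exact_mod_cast e0.symm.trans (ea_empty h)
  have z0 := z 0 rfl
  have z2 := z 2 rfl
  have z4 := z 4 rfl
  have z6 := z 6 rfl
  have z7 := z 7 rfl
  have z9 := z 9 rfl
  have z11 := z 11 rfl
  have z13 := z 13 rfl
  simp [Fin.sum_univ_succ] at f0
  omega

def eaL4 : List (Fin 8 × Fin 8 × Fin 8) := [(5, 6, 7), (1, 2, 3), (0, 2, 1), (5, 6, 7), (0, 1, 2), (4, 5, 6), (5, 7, 6)]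

/-- normalisation modulo complements -/
def eaQ (c T : F8) : F8 := if (T ∩ c).card = 1 then T else if (T ∩ c).card = 3 then Tᶜ else ∅

theorem ea_Q (h : TH θ c0) (h0 : c0.card = 4) (E : Eig (fun c => Even c.card) θ v S) (T : F8) :
    cnt S (eaQ c0 T) = cnt S T := by
  have ev : Even c0.card := by rw [h0]; decide
  rw [eaQ]
  split_ifs
  · rfl
  · exact ea_compl T
  · have := Finset.card_le_card (Finset.inter_subset_right (s₁ := T) (s₂ := c0))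
    rw [ea_zero h ev E (by simp), ea_zero h ev E (by rw [Nat.even_iff]; omega)]

def eaK4 (T : F8) : Fin 6 :=
  if eaQ {0, 1, 2, 3} T = ∅ then 5 else Fin.ofNat 6 (eaQ {0, 1, 2, 3} T ∩ {4, 5, 6, 7}).card

def eaR4 : Fin 6 → F8 := ![{0}, {0, 4}, {0, 4, 5}, {0, 4, 5, 6}, {0, 4, 5, 6, 7}, ∅]

theorem ea_n4 : ∀ T, eaG (eaL4.map fun p => ea3 p * ea3 p) (eaQ {0, 1, 2, 3} T) = eaR4 (eaK4 T) := by
  decide +kernel

theorem ea_a4 : eaA eaK4 ∅ = ![8, 32, 48, 32, 8, 128] ∧ eaA eaK4 {4, 5} = ![8, 0, -16, 0, 8, 0] := by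
  decide +kernel

/-- `S i` or its complement is `{i} ∪ T`, `T ⊆ {4,…,7}`; the orbits of `A₄ × A₄` have lengths 4, 16, 24, 16, 4, so
`T = ∅` or `T = {4,…,7}` always, and then `θ {4,5} = 1` -/
theorem earg_a (h : TH θ {0, 1, 2, 3})
    (hi : ∀ σ : P8, Equiv.Perm.sign σ = 1 → σ • ({0, 1, 2, 3} : F8) = {0, 1, 2, 3} → Inv θ σ) :
    False := by
  obtain ⟨v, S, E⟩ := diagE θ h.mul
  obtain ⟨n, hk⟩ : ∃ n : Fin 6 → ℕ, ∀ k, cnt S (eaR4 k) = n k := ⟨_, fun _ => rfl⟩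
  have hn : ∀ T, cnt S T = n (eaK4 T) := fun T => by
    rw [← hk, ← ea_n4, ea_G3 h E hi (by decide +kernel), ea_Q h (by decide) E]
  obtain ⟨t0, e0, f0⟩ := ea_tr E _ _ hn (by decide) ea_a4.1
  obtain ⟨t1, e1, f1⟩ := ea_tr E _ _ hn (by decide) ea_a4.2
  have g0 : t0 = 8 := by exact_mod_cast e0.symm.trans (ea_empty h)
  have g1 : t1 ≠ 8 := fun e => ea_eight h E (by decide) (by decide) (e1.trans (by simp [e]))
  simp [Fin.sum_univ_succ] at f0 f1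
  omega

def eaLF : List P8 := [Equiv.swap 2 4 * Equiv.swap 5 3, Equiv.swap 0 1 * Equiv.swap 7 6, Equiv.swap 0 2 * Equiv.swap 7 5,
  Equiv.swap 1 4 * Equiv.swap 6 3, Equiv.swap 1 2 * Equiv.swap 6 5]

theorem ea_AG : ∀ σ ∈ eaLF, (∀ c : F8, Pl c ↔ Pl (σ • c)) ∧ σ • ({0, 1, 2, 4} : F8) = {0, 1, 2, 4} := by
  have : eaLF.all (fun σ => decide (∀ c : F8, Pl c ↔ Pl (σ • c)) &&
    decide (σ • ({0, 1, 2, 4} : F8) = {0, 1, 2, 4})) = true := by decide +kernel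
  simpa using this

def eaRF : Fin 9 → F8 := ![{0}, {3, 4}, {0, 3}, {2, 3, 5}, {0, 3, 5}, {1, 3, 5, 6}, {0, 3, 5, 6}, {0, 3, 5, 6, 7}, ∅]

def eaKF (T : F8) : Fin 9 :=
  if eaQ {0, 1, 2, 4} T = ∅ then 8 else
    Fin.ofNat 9 (2 * (eaQ {0, 1, 2, 4} T ∩ {3, 5, 6, 7}).card -
      if ∃ i ∈ eaQ {0, 1, 2, 4} T, i.rev ∈ eaQ {0, 1, 2, 4} T ∧ i ∈ ({0, 1, 2, 4} : F8) then 1 else 0)

theorem ea_nF : ∀ T, eaG eaLF (eaQ {0, 1, 2, 4} T) = eaRF (eaKF T) := by decide +kernel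

theorem ea_aF : eaA eaKF ∅ = ![8, 8, 24, 24, 24, 24, 8, 8, 128] ∧ eaA eaKF {3, 5} = ![8, 0, 0, -8, -8, 0, 0, 8, 0] ∧
    eaA eaKF {0, 1, 6, 7} = ![0, 8, -8, 0, 0, -8, 8, 0, 0] ∧
    eaA eaKF {0, 7} = ![4, 8, 0, 12, -12, 0, -8, -4, 0] := by decide +kernel

/-- Suppose all `θ c ∈ L0`. The stabiliser in `AG` of `{0,1,2,4}` is `S₄`, commuting with `p i = i xor 7`
(`0↦7, 1↦6, 2↦5, 4↦3`). `S i` or its complement is `{i} ∪ T`, `T ⊆ {3,5,6,7}`; the orbits of length `≤ 8` are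
`T = ∅`, `{p i}`, `{3,5,6,7} \ {p i}`, `{3,5,6,7}` (length 4 each; the others have length 12). Two of them (possibly
equal) make up the eight characters: either `θ {3,5} = 1` or `θ {0,7,1,6} = 1`… (not faithful) or the product of the
characters (the determinant, `Eig.det`) is `chi {3,5,6,7} ≠ 1`. -/
theorem farg (h : TH θ {0, 1, 2, 4})
    (hi : ∀ σ ∈ AG, σ • ({0, 1, 2, 4} : F8) = {0, 1, 2, 4} → Inv θ σ) :
    ∃ c : F8, Even c.card ∧ θ c ∉ L0 := by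
  by_contra! hL
  obtain ⟨v, S, E⟩ := diagE θ h.mul
  obtain ⟨n, hk⟩ : ∃ n : Fin 9 → ℕ, ∀ k, cnt S (eaRF k) = n k := ⟨_, fun _ => rfl⟩
  have hn : ∀ T, cnt S T = n (eaKF T) := fun T => by
    rw [← hk, ← ea_nF, ea_G (fun σ hσ => E.cnt_smul fun c hc => ?_), ea_Q h (by decide) E]
    obtain ⟨w, hw⟩ := hi σ (ea_AG σ hσ).1 (ea_AG σ hσ).2
    rw [← (hw c hc).resolve_right fun e => e.1 (hL c hc), tr_conj]
  obtain ⟨b0, b1, b2, b3⟩ := ea_aF
  obtain ⟨t0, e0, f0⟩ := ea_tr E _ _ hn (by decide) b0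
  obtain ⟨t1, e1, f1⟩ := ea_tr E _ _ hn (by decide) b1
  obtain ⟨t2, e2, f2⟩ := ea_tr E _ _ hn (by decide) b2
  obtain ⟨t3, e3, f3⟩ := ea_tr E _ _ hn (by decide) b3
  have g0 : t0 = 8 := by exact_mod_cast e0.symm.trans (ea_empty h)
  have g1 : t1 ≠ 8 := fun e => ea_eight h E (by decide) (by decide) (e1.trans (by simp [e]))
  have g2 : t2 ≠ 8 := fun e => ea_eight h E (by decide) (by decide) (e2.trans (by simp [e]))
  have g3 := (ea_L0 E (by decide) e3).1 (hL _ (by decide))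
  have z : n 8 = 0 := hk 8 ▸ ea_zero h (by decide) E (by decide)
  simp [Fin.sum_univ_succ] at f0 f1 f2 f3
  have : n 2 = 0 ∧ n 3 = 0 ∧ n 4 = 0 ∧ n 5 = 0 := by omega
  have : ((n 0 = 1 ∧ n 7 = 0) ∨ (n 0 = 0 ∧ n 7 = 1)) ∧ ((n 1 = 1 ∧ n 6 = 0) ∨ (n 1 = 0 ∧ n 6 = 1)) := by omega
  omega

end Cfsg.Lib.W8
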