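import Cfsg.Agent.Lib.W8.BasB

/-! Orthogonal roots and involutions. -/

set_option autoImplicit false

namespace Cfsg.Lib.W8

open Matrix
open scoped Pointwise symmDiff

variable {a x y : V} {g h w : W} {c d : F8} {σ τ : P8}

theorem fm_dot (y x : V) : (Hm *ᵥ y) ⬝ᵥ x = ∑ l, y l * (x ⬝ᵥ fr l) := by
  simp only [dotProduct, mulVec, fr, Finset.sum_mul, Finset.mul_sum]
  rw [Finset.sum_comm]
  exact Finset.sum_congr rfl fun l _ => Finset.sum_congr rfl fun i _ => by ring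

theorem fm_dot_fr (y : V) (l : Fin 8) : (Hm *ᵥ y) ⬝ᵥ fr l = 2 * y l := by
  rw [fm_dot, Finset.sum_eq_single l (fun m _ e => by rw [fr_dot, if_neg (Ne.symm e), mul_zero]) (by simp),
    fr_dot, if_pos rfl, mul_comm]

theorem fm_cases (hx : IsRoot x) : (∃ i, x = fr i ∨ x = -fr i) ∨
    ∃ c, Pl c ∧ ∀ i, (i ∈ c → x ⬝ᵥ fr i = 1 ∨ x ⬝ᵥ fr i = -1) ∧ (i ∉ c → x ⬝ᵥ fr i = 0) := by
  have e : Hm *ᵥ ((1 / 2 : ℚ) • Hm *ᵥ x) = x := by
    rw [mulVec_smul, mulVec_mulVec, Hm_mul_Hm, smul_mulVec, one_mulVec, smul_smul]; norm_num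
  generalize (1 / 2 : ℚ) • Hm *ᵥ x = y at e
  subst e
  have k : ∀ i, Hm *ᵥ Pi.single i 1 = fr i := fun i => by ext j; simp [fr]
  rcases (isRoot_frame y).1 hx with ⟨i, rfl | rfl⟩ | ⟨c, h1, h2⟩
  · exact .inl ⟨i, .inl (k i)⟩
  · exact .inl ⟨i, .inr (by rw [mulVec_neg, k])⟩
  · refine .inr ⟨c, h1, fun i => ⟨fun hi => ?_, fun hi => ?_⟩⟩
    · rw [fm_dot_fr]
      rcases (h2 i).1 hi with e | e <;> rw [e] <;> norm_num
    · rw [fm_dot_fr, (h2 i).2 hi, mul_zero]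

theorem fm_sub (hx : IsRoot x) (hy : IsRoot y) (e : y ⬝ᵥ x = 1) : IsRoot (x - y) := by
  simpa [e] using root_refl hy hx

theorem fm_mul (g h : W) (x : V) : mat (g * h) *ᵥ x = mat g *ᵥ (mat h *ᵥ x) := by rw [mat_mul, mulVec_mulVec]

theorem fm_step (I : F8) (hx : IsRoot x) (ho : ∀ i ∈ I, x ⬝ᵥ fr i = 0) :
    ∃ r : W, ∃ i, i ∉ I ∧ (mat r *ᵥ x = fr i ∨ mat r *ᵥ x = -fr i) ∧ ∀ j ∈ I, mat r *ᵥ fr j = fr j := by
  rcases fm_cases hx with ⟨i, e⟩ | ⟨c, h1, h2⟩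
  · refine ⟨1, i, fun hi => ?_, by simpa [mat_one] using e, fun j _ => by simp [mat_one]⟩
    have := ho i hi
    rcases e with rfl | rfl <;> simp [fr_dot] at this
  · obtain ⟨i, hi⟩ := Finset.card_pos.1 (show 0 < c.card by rw [h1.card]; norm_num)
    have iI : i ∉ I := fun h => by rcases (h2 i).1 hi with e | e <;> rw [ho i h] at e <;> norm_num at e
    have k : ∀ y, IsRoot y → x ⬝ᵥ y = 1 → (∀ j ∈ I, y ⬝ᵥ fr j = 0) →
        ∃ r : W, mat r *ᵥ x = y ∧ ∀ j ∈ I, mat r *ᵥ fr j = fr j := fun y hy e h => by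
      have hr := fm_sub hx hy (by rw [dotProduct_comm, e])
      refine ⟨rf (x - y), ?_, fun j hj => ?_⟩
      · rw [rf_mulVec hr, sub_dotProduct, root_dot hx, dotProduct_comm y, e]; norm_num
      · rw [rf_mulVec hr, sub_dotProduct, ho j hj, h j hj]; simp
    have o : ∀ j ∈ I, fr i ⬝ᵥ fr j = 0 := fun j hj => by rw [fr_dot, if_neg fun e : i = j => iI (e ▸ hj)]
    rcases (h2 i).1 hi with e | e
    · obtain ⟨r, r1, r2⟩ := k _ (fr_root i) e o
      exact ⟨r, i, iI, .inl r1, r2⟩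
    · obtain ⟨r, r1, r2⟩ := k _ (root_neg (fr_root i)) (by rw [dotProduct_neg, e]; norm_num)
        fun j hj => by rw [neg_dotProduct, o j hj, neg_zero]
      exact ⟨r, i, iI, .inr r1, r2⟩

theorem fm_to {k : ℕ} (β : Fin k → V) (hr : ∀ j, IsRoot (β j)) (ho : ∀ i j, i ≠ j → β i ⬝ᵥ β j = 0) :
    ∃ g : W, ∃ f : Fin k → Fin 8, Function.Injective f ∧
      ∀ j, mat g *ᵥ β j = fr (f j) ∨ mat g *ᵥ β j = -fr (f j) := by
  induction k with
  | zero => exact ⟨1, Fin.elim0, fun i => i.elim0, fun i => i.elim0⟩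
  | succ k ih =>
    obtain ⟨g, f, f1, f2⟩ := ih (fun j => β j.succ) (fun j => hr _) fun i j e => ho _ _ fun e' => e (Fin.succ_inj.1 e')
    obtain ⟨r, i, i1, i2, i3⟩ := fm_step (Finset.univ.image f) (root_mat g (hr 0)) fun i hi => by
      obtain ⟨j, -, rfl⟩ := Finset.mem_image.1 hi
      have := dot_mat g (β 0) (β j.succ)
      rw [ho _ _ (Fin.succ_ne_zero j).symm] at this
      rcases f2 j with e | e <;> rw [e] at this
      · exact this
      · rwa [dotProduct_neg, neg_eq_zero] at this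
    refine ⟨r * g, Fin.cons i f, Fin.cons_injective_iff.2 ⟨fun ⟨j, e⟩ => i1 (e ▸ by simp), f1⟩, fun j => ?_⟩
    refine Fin.cases ?_ (fun j => ?_) j
    · simpa [fm_mul] using i2
    · have := i3 (f j) (by simp)
      rcases f2 j with e | e
      · left; simp only [fm_mul, Fin.cons_succ]; rw [e, this]
      · right; simp only [fm_mul, Fin.cons_succ]; rw [e, mulVec_neg, this]

theorem fm_not_mem : sF {0} ∉ L0 := by rw [sF_mem]; simp

theorem to_frame {k : ℕ} (β : Fin k → V) (hr : ∀ j, IsRoot (β j))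
    (ho : ∀ i j, i ≠ j → β i ⬝ᵥ β j = 0) :
    ∃ g ∈ L0, ∃ f : Fin k → Fin 8, Function.Injective f ∧
      ∀ j, mat g *ᵥ β j = fr (f j) ∨ mat g *ᵥ β j = -fr (f j) := by
  obtain ⟨g, f, f1, f2⟩ := fm_to β hr ho
  by_cases hg : g ∈ L0
  · exact ⟨g, hg, f, f1, f2⟩
  refine ⟨sF {0} * g, mul_mem_L0 fm_not_mem hg, f, f1, fun j => ?_⟩
  rcases f2 j with e | e <;> rw [fm_mul, e] <;> simp only [mulVec_neg, sF_fr, sgn] <;> split_ifs <;> simp

theorem fm_root2 {j k : Fin 8} (jk : j ≠ k) {ε : ℚ} (hε : ε = 1 ∨ ε = -1) :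
    IsRoot (Pi.single j 1 + ε • Pi.single k 1) :=
  .inl ⟨j, k, jk, by simp [jk], by simpa [jk.symm] using hε, fun l h1 h2 => by simp [h1, h2]⟩

theorem fm_mon (hw : w * w = 1) (h1 : w ≠ 1) {i : Fin 8} (e : mat w *ᵥ Pi.single i 1 = -Pi.single i 1) :
    ∃ a, IsRoot a ∧ mat w *ᵥ a = -a := by
  obtain ⟨d, hd, σ, e⟩ := mon (.inr e)
  have k : ∀ j, mat w *ᵥ Pi.single j 1 = sgn d (σ j) • Pi.single (σ j) 1 := fun j => by
    rw [e, mat_mul, mat_sE hd, mat_pE]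
    ext l
    by_cases hl : l = σ j <;> simp [pm, hl, diagonal_mul]
  by_cases hσ : ∀ j, σ j = j
  · have hc : 1 < d.card := by
      obtain ⟨n, hn⟩ := hd
      rcases Nat.eq_zero_or_pos n with rfl | h
      · rw [Finset.card_eq_zero.1 hn, show σ = 1 from Equiv.ext hσ, sE_empty, pE_one, one_mul] at e
        exact absurd e h1
      · omega
    obtain ⟨j, hj, l, hl, jl⟩ := Finset.one_lt_card.1 hc
    exact ⟨_, fm_root2 jl (.inl rfl), by
      rw [mulVec_add, mulVec_smul, k, k, hσ, hσ]; simp [sgn, hj, hl, add_comm]⟩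
  · push Not at hσ
    obtain ⟨j, hj⟩ := hσ
    have k2 : mat w *ᵥ (sgn d (σ j) • Pi.single (σ j) 1) = Pi.single j 1 := by
      rw [← k, ← fm_mul, hw, mat_one, one_mulVec]
    refine ⟨_, fm_root2 hj.symm (ε := -sgn d (σ j)) (by unfold sgn; split_ifs <;> simp), ?_⟩
    rw [neg_smul, mulVec_add, mulVec_neg, k2, k]; abel

theorem fm_conj {l : W} (e : mat (l * w * l⁻¹) *ᵥ a = -a) : mat w *ᵥ (mat l⁻¹ *ᵥ a) = -(mat l⁻¹ *ᵥ a) := by
  rw [← mulVec_neg, ← e, ← fm_mul, ← fm_mul]; congr 2; group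

theorem fm_cancel (l w : W) (x : V) : mat (l * w * l⁻¹) *ᵥ (mat l *ᵥ x) = mat l *ᵥ (mat w *ᵥ x) := by
  rw [← fm_mul, ← fm_mul, inv_mul_cancel_right]

theorem fm_pl2 : ∀ c, Pl c → ∀ i ∈ c, ∃ d, Pl d ∧ ∃ j, i ≠ j ∧ c ∩ d = {i, j} := by
  unfold Pl
  decide +kernel

theorem fm_a3 (hx : IsRoot x) (hy : IsRoot y) (e : x ⬝ᵥ y = -1) : ∃ β, IsRoot β ∧ β ⬝ᵥ x = 1 ∧ β ⬝ᵥ y = 0 := by
  obtain ⟨r, i, -, h1, -⟩ := fm_step ∅ hx (by simp)
  obtain ⟨ε, hε, h1⟩ : ∃ ε : ℚ, (ε = 1 ∨ ε = -1) ∧ mat r *ᵥ x = ε • fr i :=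
    h1.elim (fun e => ⟨1, .inl rfl, by simpa using e⟩) fun e => ⟨-1, .inr rfl, by simpa using e⟩
  have e1 : ε * ((mat r *ᵥ y) ⬝ᵥ fr i) = -1 := by
    rw [← e, ← dot_mat r x y, h1, smul_dotProduct, dotProduct_comm, smul_eq_mul]
  suffices ∃ β, IsRoot β ∧ β ⬝ᵥ (mat r *ᵥ x) = 1 ∧ β ⬝ᵥ (mat r *ᵥ y) = 0 by
    obtain ⟨β, b1, b2, b3⟩ := this
    have k : mat r *ᵥ (mat r⁻¹ *ᵥ β) = β := by rw [← fm_mul, mul_inv_cancel, mat_one, one_mulVec]
    exact ⟨_, root_mat r⁻¹ b1, by rw [← dot_mat r, k, b2], by rw [← dot_mat r, k, b3]⟩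
  have hy' := root_mat r hy
  generalize mat r *ᵥ y = y' at e1 hy'
  rcases fm_cases hy' with ⟨j, e2⟩ | ⟨c, c1, c2⟩
  · exfalso
    rcases e2 with rfl | rfl <;> rcases hε with rfl | rfl <;> simp only [neg_dotProduct, fr_dot] at e1 <;>
      split_ifs at e1 <;> norm_num at e1
  have ic : i ∈ c := by_contra fun h => by rw [(c2 i).2 h] at e1; norm_num at e1
  obtain ⟨d, d1, j, ij, d2⟩ := fm_pl2 c c1 i ic
  have m : ∀ l, l ∈ c ∧ l ∈ d ↔ l = i ∨ l = j := fun l => by rw [← Finset.mem_inter, d2]; simp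
  have jc := ((m j).2 (.inr rfl))
  refine ⟨Hm *ᵥ fun l => if l = i then ε / 2 else if l = j then (y' ⬝ᵥ fr j) / 2 else if l ∈ d then 1 / 2 else 0,
    (isRoot_frame _).2 (.inr ⟨d, d1, fun l => ⟨fun hl => ?_, fun hl => ?_⟩⟩), ?_, ?_⟩
  · split_ifs
    · rcases hε with rfl | rfl <;> simp
    · rcases (c2 j).1 jc.1 with e | e <;> rw [e] <;> simp
    · simp
  · rw [if_neg fun e : l = i => hl (e ▸ ((m i).2 (.inl rfl)).2), if_neg fun e : l = j => hl (e ▸ jc.2), if_neg hl]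
  · rw [h1, dotProduct_smul, fm_dot_fr, if_pos rfl]
    rcases hε with rfl | rfl <;> norm_num
  · rw [fm_dot, ba_sum2 ij _ fun l h1 h2 => ?_, if_pos rfl, if_neg ij.symm, if_pos rfl]
    · rcases (c2 j).1 jc.1 with e | e <;> rw [e] <;> linarith
    · rw [if_neg h1, if_neg h2]
      split_ifs with h
      · rw [(c2 l).2 fun h' => ((m l).1 ⟨h', h⟩).elim h1 h2, mul_zero]
      · rw [zero_mul]

theorem neg_root (hw : w * w = 1) (h1 : w ≠ 1) : ∃ a, IsRoot a ∧ mat w *ᵥ a = -a := by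
  by_contra hn
  have ww : ∀ x, mat w *ᵥ (mat w *ᵥ x) = x := fun x => by rw [← fm_mul, hw, mat_one, one_mulVec]
  have k : ∀ γ, IsRoot γ → mat w *ᵥ γ ≠ γ → γ ⬝ᵥ (mat w *ᵥ γ) = -1 := fun γ hγ hm => by
    rcases root_cases hγ (root_mat w hγ) with e | e | e | e | e
    · exact absurd e.symm hm
    · exact absurd ⟨_, fm_sub hγ (root_mat w hγ) (by rw [dotProduct_comm, e]), by
        rw [mulVec_sub, ww, neg_sub]⟩ hn
    · exfalso
      obtain ⟨g, f, f1, f2⟩ := fm_to ![γ, mat w *ᵥ γ] (fun j => by fin_cases j; exacts [hγ, root_mat w hγ])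
        fun i j ij => by
          fin_cases i <;> fin_cases j
          exacts [absurd rfl ij, e, by rw [dotProduct_comm]; exact e, absurd rfl ij]
      have n01 : f 0 ≠ f 1 := f1.ne (by simp)
      obtain ⟨l, l1, l2⟩ : ∃ l : Fin 8, f 0 ≠ l ∧ f 1 ≠ l := by
        revert n01; generalize f 0 = a; generalize f 1 = b; revert a b; decide
      obtain ⟨σ, hσ, s0, s1, -⟩ := AG_three n01 l1 l2
      have p0 : mat (pF σ⁻¹) *ᵥ fr (f 0) = fr 0 := by rw [pF_fr (inv_mem hσ), ← s0]; simp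
      have p1 : mat (pF σ⁻¹) *ᵥ fr (f 1) = fr 1 := by rw [pF_fr (inv_mem hσ), ← s1]; simp
      obtain ⟨g, g0, g1⟩ : ∃ g : W, (mat g *ᵥ γ = fr 0 ∨ mat g *ᵥ γ = -fr 0) ∧
          (mat g *ᵥ (mat w *ᵥ γ) = fr 1 ∨ mat g *ᵥ (mat w *ᵥ γ) = -fr 1) :=
        ⟨pF σ⁻¹ * g, (f2 0).imp (fun e => by rw [fm_mul, ← p0, ← e]; rfl) fun e => by
          rw [fm_mul, ← p0, ← mulVec_neg, ← e]; rfl, (f2 1).imp (fun e => by rw [fm_mul, ← p1, ← e]; rfl) fun e => by
          rw [fm_mul, ← p1, ← mulVec_neg, ← e]; rfl⟩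
      have e2 : mat (g * w * g⁻¹) *ᵥ (mat g *ᵥ γ - mat g *ᵥ (mat w *ᵥ γ)) =
          -(mat g *ᵥ γ - mat g *ᵥ (mat w *ᵥ γ)) := by rw [mulVec_sub, fm_cancel, fm_cancel, ww, neg_sub]
      obtain ⟨i, t, ht, e3⟩ : ∃ i : Fin 8, ∃ t : ℚ, t ≠ 0 ∧
          mat g *ᵥ γ - mat g *ᵥ (mat w *ᵥ γ) = t • Pi.single i 1 := by
        rcases g0 with g0 | g0 <;> rcases g1 with g1 | g1 <;> rw [g0, g1]
        · exact ⟨1, 2, by norm_num, by ext l; fin_cases l <;> simp [fr, Hm] <;> norm_num⟩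
        · exact ⟨0, 2, by norm_num, by ext l; fin_cases l <;> simp [fr, Hm] <;> norm_num⟩
        · exact ⟨0, -2, by norm_num, by ext l; fin_cases l <;> simp [fr, Hm] <;> norm_num⟩
        · exact ⟨1, -2, by norm_num, by ext l; fin_cases l <;> simp [fr, Hm] <;> norm_num⟩
      rw [e3, mulVec_smul, ← smul_neg] at e2
      obtain ⟨a, a1, a2⟩ := fm_mon (w := g * w * g⁻¹) (by rw [conj_mul, hw]; simp) (by simpa using h1)
        (smul_right_injective _ ht e2)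
      exact hn ⟨_, root_mat g⁻¹ a1, fm_conj a2⟩
    · exact e
    · exact absurd ⟨γ, hγ, by nth_rw 2 [e]; rw [neg_neg]⟩ hn
  obtain ⟨i, hi⟩ : ∃ i, mat w *ᵥ al i ≠ al i := by
    by_contra h
    push Not at h
    exact h1 (ext_al fun i => by rw [h, mat_one, one_mulVec])
  have e := k _ (al_root i) hi
  obtain ⟨β, b1, b2, b3⟩ := fm_a3 (al_root i) (root_mat w (al_root i)) e
  have e1 := k β b1 fun h => by
    have := dot_mat w β (al i)
    rw [h, b2, b3] at this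
    norm_num at this
  have e2 : al i ⬝ᵥ (mat w *ᵥ β) = 0 := by rw [← dot_mat w, ww, dotProduct_comm, b3]
  have hr := fm_sub b1 (al_root i) (by rw [dotProduct_comm, b2])
  have e3 : (β - al i) ⬝ᵥ (mat w *ᵥ (β - al i)) = -2 := by
    rw [mulVec_sub, sub_dotProduct, dotProduct_sub, dotProduct_sub, e1, b3, e2, e]; norm_num
  by_cases h : mat w *ᵥ (β - al i) = β - al i
  · rw [h, root_dot hr] at e3; norm_num at e3
  · rw [k _ hr h] at e3; norm_num at e3

theorem fm_insert {i : Fin 8} (hi : i ∉ c) : sF (insert i c) = rf (fr i) * sF c := by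
  rw [← sF_single, sF_mul, (Finset.disjoint_singleton_left.2 hi).symmDiff_eq_sup]; rfl

theorem fm_fix (c : F8) (h : ∀ i ∈ c, a ⬝ᵥ fr i = 0) : mat (sF c) *ᵥ a = a := by
  induction c using Finset.induction_on with
  | empty => rw [sF_empty, mat_one, one_mulVec]
  | insert i c hi ih =>
    rw [fm_insert hi, fm_mul, ih fun j hj => h j (by simp [hj]), rf_mulVec (fr_root i), dotProduct_comm,
      h i (by simp)]
    simp

theorem fm_comm (c : F8) (h : ∀ i ∈ c, mat w *ᵥ fr i = -fr i) : Commute w (sF c) := by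
  induction c using Finset.induction_on with
  | empty => rw [sF_empty]; exact Commute.one_right w
  | insert i c hi ih =>
    rw [fm_insert hi]
    refine Commute.mul_right (mul_inv_eq_iff_eq_mul.1 ?_) (ih fun j hj => h j (by simp [hj]))
    rw [rf_conj _ (fr_root i), h i (by simp), rf_neg]

theorem fm_inv (n : ℕ) : ∀ (I : F8) (w : W), Iᶜ.card = n → w * w = 1 →
    (∀ i ∈ I, mat w *ᵥ fr i = fr i ∨ mat w *ᵥ fr i = -fr i) → ∃ l : W, ∃ c, l * w * l⁻¹ = sF c := by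
  classical
  induction n using Nat.strong_induction_on with
  | _ n ih =>
  intro I w hn hw hI
  obtain ⟨c, hc⟩ : ∃ c : F8, ∀ i, i ∈ c ↔ i ∈ I ∧ mat w *ᵥ fr i = -fr i :=
    ⟨I.filter fun i => mat w *ᵥ fr i = -fr i, fun i => Finset.mem_filter⟩
  have cc : sF c * sF c = 1 := by rw [sF_mul, symmDiff_self]; exact sF_empty
  have cm := fm_comm c fun i hi => ((hc i).1 hi).2
  by_cases e : w * sF c = 1
  · exact ⟨1, c, by simpa using (eq_inv_of_mul_eq_one_left e).trans (inv_eq_of_mul_eq_one_right cc)⟩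
  obtain ⟨a, a1, a2⟩ := neg_root (w := w * sF c) (by rw [cm.symm.mul_mul_mul_comm, hw, cc, one_mul]) e
  have o : ∀ i ∈ I, a ⬝ᵥ fr i = 0 := fun i hi => by
    have h1 : mat (w * sF c) *ᵥ fr i = fr i := by
      rw [fm_mul, sF_fr, mulVec_smul, sgn]
      split_ifs with h
      · rw [((hc i).1 h).2]; simp
      · rw [(hI i hi).resolve_right fun h' => h ((hc i).2 ⟨hi, h'⟩), one_smul]
    have := dot_mat (w * sF c) a (fr i)
    rw [a2, h1, neg_dotProduct] at this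
    linarith
  rw [fm_mul, fm_fix c fun i hi => o i ((hc i).1 hi).1] at a2
  obtain ⟨r, i, i1, i2, i3⟩ := fm_step I a1 o
  obtain ⟨l, d, e⟩ := ih _ (show (insert i I)ᶜ.card < n from hn ▸ Finset.card_lt_card (by
      rw [Finset.compl_insert]; exact Finset.erase_ssubset (Finset.mem_compl.2 i1))) (insert i I) (r * w * r⁻¹) rfl
    (by rw [conj_mul, hw]; simp) fun j hj => by
      rcases Finset.mem_insert.1 hj with rfl | hj
      · right
        have := fm_cancel r w a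
        rw [a2, mulVec_neg] at this
        rcases i2 with e | e <;> rw [e] at this
        · exact this
        · rwa [mulVec_neg, neg_inj] at this
      · have := fm_cancel r w (fr j)
        rw [i3 j hj] at this
        exact (hI j hj).imp (fun e => by rw [this, e, i3 j hj]) fun e => by rw [this, e, mulVec_neg, i3 j hj]
  exact ⟨l * r, d, by rw [← e]; group⟩

theorem inv_conj (hw : w * w = 1) : ∃ l ∈ L0, ∃ c, l * w * l⁻¹ = sF c := by
  obtain ⟨l, c, e⟩ := fm_inv _ ∅ w rfl hw (by simp)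
  by_cases hl : l ∈ L0
  · exact ⟨l, hl, c, e⟩
  refine ⟨sF {0} * l, mul_mem_L0 fm_not_mem hl, c, ?_⟩
  rw [show sF {0} * l * w * (sF {0} * l)⁻¹ = sF {0} * (l * w * l⁻¹) * (sF {0})⁻¹ by group, e, sF_mul, symmDiff_comm,
    ← sF_mul, mul_inv_cancel_right]

theorem refl_of_tr (hw : w * w = 1) (h6 : tr w = 6) : ∃ a, IsRoot a ∧ w = rf a := by
  obtain ⟨l, -, c, e⟩ := inv_conj hw
  have h := tr_conj l w
  rw [e, tr_sF, h6] at h
  obtain ⟨i, rfl⟩ := Finset.card_eq_one.1 (show c.card = 1 by exact_mod_cast (by linarith : (c.card : ℚ) = 1))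
  exact ⟨_, root_mat l⁻¹ (fr_root i), by rw [← rf_conj _ (fr_root i), ← sF_single, ← e]; group⟩

theorem fm_five : ∀ s : F8, s.card = 5 → (∃ x ∈ s, Pl (s.erase x)) ∧ ∃ x ∈ s, ¬ Pl (s.erase x) := by
  decide +kernel

/-- five points of `AG(3,2)` contain exactly one plane, which cannot be invariant under a 5-cycle -/
theorem p5 (r : Fin 5 → W) (hi : Function.Injective r) (h2 : ∀ i, r i * r i = 1)
    (h6 : ∀ i, tr (r i) = 6) (hc : ∀ i j, Commute (r i) (r j)) (hw : ∀ i, w * r i * w⁻¹ = r (i + 1)) :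
    False := by
  choose a a1 a2 using fun i => refl_of_tr (h2 i) (h6 i)
  obtain ⟨g, f, f1, f2⟩ := fm_to a a1 fun i j ij => by
    rcases rf_comm (a1 i) (a1 j) (a2 i ▸ a2 j ▸ hc i j) with e | e | e
    · exact absurd (hi (by rw [a2, a2, e])) ij
    · exact absurd (hi (by rw [a2, a2, e, rf_neg])) ij
    · exact e
  have k : ∀ i, mat (g * w * g⁻¹) *ᵥ fr (f i) = fr (f (i + 1)) ∨ mat (g * w * g⁻¹) *ᵥ fr (f i) = -fr (f (i + 1)) :=
    fun i => by
    have h := hw i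
    rw [a2, a2, rf_conj _ (a1 i)] at h
    have h' := fm_cancel g w (a i)
    rcases rf_inj (root_mat w (a1 i)) (a1 _) h with e | e <;> rcases f2 i with e1 | e1 <;>
      rcases f2 (i + 1) with e2 | e2 <;> rw [e, e1] at h' <;> simp only [mulVec_neg, e2, neg_neg, neg_inj] at h' <;>
      first | exact .inl h' | exact .inr h' | exact .inr (neg_eq_iff_eq_neg.1 h') | exact .inl (neg_inj.1 h')
  have er : ∀ m, (Finset.univ.image f).erase (f m) = (Finset.univ.erase m).image f := fun m =>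
    (Finset.image_erase f1 _ _).symm
  have st : ∀ m, Pl ((Finset.univ.erase m).image f) → Pl ((Finset.univ.erase (m + 1)).image f) := fun m hm => by
    have h1 := root_mat (g * w * g⁻¹) ((isRoot_frame fun l => if l ∈ (Finset.univ.erase m).image f then 1 / 2 else 0).2
      (.inr ⟨_, hm, fun l => ⟨fun h => .inl (if_pos h), fun h => if_neg h⟩⟩))
    have h3 : ∀ j, j ≠ m + 1 → (mat (g * w * g⁻¹) *ᵥ Hm *ᵥ fun l =>
        if l ∈ (Finset.univ.erase m).image f then (1 / 2 : ℚ) else 0) ⬝ᵥ fr (f j) = 1 ∨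
        (mat (g * w * g⁻¹) *ᵥ Hm *ᵥ fun l =>
        if l ∈ (Finset.univ.erase m).image f then (1 / 2 : ℚ) else 0) ⬝ᵥ fr (f j) = -1 := fun j hj => by
      obtain ⟨j, rfl⟩ : ∃ j', j = j' + 1 := ⟨j - 1, by simp⟩
      have := dot_mat (g * w * g⁻¹) (Hm *ᵥ fun l => if l ∈ (Finset.univ.erase m).image f then (1 / 2 : ℚ) else 0)
        (fr (f j))
      rw [fm_dot_fr, if_pos (Finset.mem_image_of_mem f (by simpa using hj))] at this
      rcases k j with e | e <;> rw [e] at this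
      · left; rw [this]; norm_num
      · right; rw [dotProduct_neg] at this; linarith
    generalize (mat (g * w * g⁻¹) *ᵥ Hm *ᵥ fun l =>
        if l ∈ (Finset.univ.erase m).image f then (1 / 2 : ℚ) else 0) = x at h1 h3
    rcases fm_cases h1 with ⟨i, e⟩ | ⟨c, c1, c2⟩
    · exfalso
      have := h3 m (by simp)
      rcases e with rfl | rfl <;> simp only [neg_dotProduct, fr_dot] at this <;> split_ifs at this <;> norm_num at this
    · have e : (Finset.univ.erase (m + 1)).image f = c := Finset.eq_of_subset_of_card_le (fun l hl => by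
        obtain ⟨j, hj, rfl⟩ := Finset.mem_image.1 hl
        by_contra h
        have := h3 j (Finset.ne_of_mem_erase hj)
        rw [(c2 _).2 h] at this
        norm_num at this) (by rw [c1.card, Finset.card_image_of_injective _ f1]; simp)
      rwa [e]
  obtain ⟨⟨x, x1, x2⟩, y, y1, y2⟩ := fm_five (Finset.univ.image f) (by rw [Finset.card_image_of_injective _ f1]; simp)
  obtain ⟨m, -, rfl⟩ := Finset.mem_image.1 x1
  obtain ⟨n, -, rfl⟩ := Finset.mem_image.1 y1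
  rw [er] at x2 y2
  have s1 := st _ x2
  have s2 := st _ s1
  have s3 := st _ s2
  have s4 := st _ s3
  have : n = m ∨ n = m + 1 ∨ n = m + 1 + 1 ∨ n = m + 1 + 1 + 1 ∨ n = m + 1 + 1 + 1 + 1 :=
    (by decide : ∀ n m : Fin 5, n = m ∨ n = m + 1 ∨ n = m + 1 + 1 ∨ n = m + 1 + 1 + 1 ∨ n = m + 1 + 1 + 1 + 1) n m
  rcases this with rfl | rfl | rfl | rfl | rfl <;> contradiction

end Cfsg.Lib.W8
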