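import Cfsg.Agent.Lib.W8.Red
import Cfsg.Agent.Lib.W8.Frame
import Cfsg.Agent.Lib.W8.IdW
import Cfsg.Agent.Lib.Core.Quasi
import Cfsg.Prelude.Def_Local

/-! A quasisimple double cover of `PΩ₈⁺(2)` is `L0`. -/

set_option autoImplicit false

namespace Cfsg.Lib.W8

open Matrix
open scoped Pointwise symmDiff

/-- `-1` as an element of `L0` -/
noncomputable def zz : L0 := ⟨z, z_mem⟩

/-- the product `ρ 0 * (ρ 1)⁻¹ * ρ 2 * (ρ 3)⁻¹ * …`, i.e. the inverse-free form of the Coxeter element: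
`(sr 0 sr 1)(sr 2 sr 3)(sr 4 sr 5)(sr 6 sr 7)` with `sr i * sr j = (rr i)⁻¹ * rr j` -/
def om {Γ : Type*} [Group Γ] (ρ : Fin 8 → Γ) : Γ :=
  ((ρ 0)⁻¹ * ρ 1 * ((ρ 2)⁻¹ * ρ 3) * ((ρ 4)⁻¹ * ρ 5) * ((ρ 6)⁻¹ * ρ 7)) ^ 15

theorem id_rr (i j : Fin 8) : (((rr i)⁻¹ * rr j : L0) : W) = sr i * sr j := by
  change (sr 0 * sr i)⁻¹ * (sr 0 * sr j) = _
  rw [_root_.mul_inv_rev, mul_assoc, inv_mul_cancel_left, inv_eq_of_mul_eq_one_right (show sr i * sr i = 1 from rf_sq _)]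

theorem map_om {Γ Γ' : Type*} [Group Γ] [Group Γ'] (f : Γ →* Γ') (ρ : Fin 8 → Γ) : f (om ρ) = om (fun i => f (ρ i)) := by
  simp only [om, map_pow, map_mul, map_inv]

theorem id_trial (T : Fin 8 → List ℕ) (h0 : T 0 = []) (h3 : ∀ i j, cox i j = 3 → IdC ((T i).reverse ++ T j) 3 1)
    (h2 : ∀ i j, cox i j = 2 → IdC ((T i).reverse ++ T j) 2 (-1)) : ∃ ρ : Fin 8 → L0, ρ 0 = 1 ∧
    (∀ i j, cox i j = 3 → ((ρ i)⁻¹ * ρ j) ^ 3 = 1) ∧ (∀ i j, cox i j = 2 → ((ρ i)⁻¹ * ρ j) ^ 2 = zz) ∧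
    ((om ρ : L0) : W) = idW (idOm T) ^ 15 := by
  have k : ∀ j, idW (T j) ∈ L0 := fun j => by
    by_contra e
    rcases (show j = 0 ∨ cox 0 j = 2 ∨ cox 0 j = 3 by clear e; revert j; decide) with rfl | c | c
    · exact e (by rw [h0]; exact one_mem _)
    · exact pow_ne_z e 2 (by simpa [h0] using (h2 0 j c).neg)
    · have := (h3 0 j c).one
      rw [h0, List.reverse_nil, List.nil_append, pow_succ, sq] at this
      exact e ((mul_mem_cancel_left (mul_mem_L0 e e)).1 (this ▸ one_mem _))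
  refine ⟨fun j => ⟨_, k j⟩, Subtype.ext (by simp [h0, idW]), fun i j c => Subtype.ext ?_, fun i j c => Subtype.ext ?_, ?_⟩
  · exact Eq.trans (by simp [idW_inv, idW_app]) (h3 i j c).one
  · exact Eq.trans (by simp [idW_inv, idW_app]) (h2 i j c).neg
  · simp [om, idOm, idW_inv, idW_app]

/-- Coxeter number 30 -/
theorem om_rr : om rr = zz := by
  refine Subtype.ext (Eq.trans ?_ id_cox.neg)
  have k : ∀ i j, (((rr i)⁻¹ * rr j : L0) : W) = sr i * sr j := id_rr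
  simp only [om, Subgroup.coe_pow, Subgroup.coe_mul _ _ ((rr _)⁻¹ * rr _), k]
  simp [idW, idS, mul_assoc]

/-- triality images (computed: half-spin representations), given as words in the `sr i` -/
theorem trial (δ : Bool) : ∃ ρ : Fin 8 → L0, ρ 0 = 1 ∧
    (∀ i j, cox i j = 3 → ((ρ i)⁻¹ * ρ j) ^ 3 = 1) ∧
    (∀ i j, cox i j = 2 → ((ρ i)⁻¹ * ρ j) ^ 2 = zz) ∧ om ρ = if δ then zz else 1 := by
  cases δ
  · obtain ⟨ρ, h0, h3, h2, h⟩ := id_trial idT0 rfl idT0_3 idT0_2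
    exact ⟨ρ, h0, h3, h2, Subtype.ext (h.trans idT0_om.one)⟩
  · obtain ⟨ρ, h0, h3, h2, h⟩ := id_trial idT1 rfl idT1_3 idT1_2
    exact ⟨ρ, h0, h3, h2, Subtype.ext (h.trans idT1_om.neg)⟩

theorem id_two {i j : Fin 8} (h : cox i j = 2) : ∃ g ∈ L0, g * (sr i * sr j) * g⁻¹ = sF {0, 1} := by
  have ne : i ≠ j := by rintro rfl; simp [cox] at h
  have o : al i ⬝ᵥ al j = 0 := by rw [id_dot, if_neg ne, if_neg (by omega)]
  obtain ⟨g, hg, f, hf, e⟩ := to_frame ![al i, al j] (fun k => by fin_cases k <;> exact al_root _) (fun k l hkl => by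
    fin_cases k <;> fin_cases l
    exacts [absurd rfl hkl, o, (dotProduct_comm _ _).trans o, absurd rfl hkl])
  have k : ∀ {a n}, IsRoot a → mat g *ᵥ a = fr n ∨ mat g *ᵥ a = -fr n → g * rf a * g⁻¹ = sF {n} := fun ha e => by
    rw [rf_conj g ha, sF_single]
    rcases e with e | e
    · rw [e]
    · rw [e, rf_neg]
  have n01 : f 0 ≠ f 1 := fun e => absurd (hf e) (by decide)
  obtain ⟨σ, hσ, e'⟩ := AG_trans (c := {f 0} ∆ {f 1}) (d := {0, 1}) (by revert n01; generalize f 0 = a; generalize f 1 = b; revert a b; decide)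
    (by revert n01; generalize f 0 = a; generalize f 1 = b; revert a b; decide)
  refine ⟨pF σ * g, mul_mem (pF_mem hσ) hg, ?_⟩
  rw [← e', ← pF_conj hσ, ← sF_mul, ← k (al_root i) (e 0), ← k (al_root j) (e 1), sr, sr]
  group

/-- products of two reflections in orthogonal roots are conjugate (`to_frame`, `AG_trans`) -/
theorem conj_two {i j : Fin 8} (h : cox i j = 2) :
    ∃ l : L0, l * ((rr i)⁻¹ * rr j) * l⁻¹ = (rr 0)⁻¹ * rr 2 := by
  obtain ⟨g, hg, e⟩ := id_two h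
  obtain ⟨g', hg', e'⟩ := id_two (i := 0) (j := 2) rfl
  refine ⟨⟨g'⁻¹ * g, mul_mem (inv_mem hg') hg⟩, Subtype.ext ?_⟩
  rw [id_rr, Subgroup.coe_mul, Subgroup.coe_mul, id_rr]
  change g'⁻¹ * g * _ * (g'⁻¹ * g)⁻¹ = _
  calc _ = g'⁻¹ * (g * (sr i * sr j) * g⁻¹) * g' := by group
    _ = _ := by rw [e, ← e']; group

theorem id_cox_cases : ∀ i j : Fin 8, i = j ∨ cox i j = 2 ∨ cox i j = 3 := by decide

theorem id_rel (i j : Fin 8) : ((rr i)⁻¹ * rr j) ^ cox i j = 1 :=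
  Subtype.ext (by rw [Subgroup.coe_pow, id_rr, sr_cox]; rfl)

/-- `Z(L) = {1, ζ}`, `π : L0 → L/Z(L)` onto with kernel `±1`. Lift `π (rr i)` to `ρ i ∈ L`, `ρ 0 = 1`; along the tree
multiply by `ζ` so that the relators of order 3 hold. By `conj_two` all `((ρ i)⁻¹ * ρ j) ^ 2` (`cox i j = 2`) equal the same
`ζ^ε`. If `ε = 0`, `univ_alt` gives `f : L0 →* L` with `f(L0) Z(L) = L`, onto since `L` is perfect, bijective by orders.
If `ε = 1` take `ρ'` from `trial` with `om ρ' = zz ↔ om ρ = ζ`; let `Δ = ⟨(ρ i, ρ' i), (ζ, zz)⟩ ≤ L × L0`; `univ_alt` gives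
`L0 →* Δ/⟨(ζ, zz)⟩` onto and killing `zz = om rr`, so `|Δ| ≤ |L0| = |L|`; `Δ` projects onto `L`, and onto `L0` (the
endomorphism `rr i ↦ ρ' i` of the simple group `L0/±1 ≅ L/Z(L)` is nontrivial, so bijective); both projections are
isomorphisms. -/
theorem ident {L : Type*} [Group L] [Finite L] (hq : Cfsg.IsQuasisimple L)
    (hZ : Nat.card (Subgroup.center L) = 2) {F : Type*} [Field F] [Fintype F] (hF : Fintype.card F = 2)
    (e : (L ⧸ Subgroup.center L) ≃* Cfsg.POmega F (Cfsg.quadFormPlus 4 F)) : Nonempty (L0 ≃* L) := by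
  classical
  obtain ⟨f0, f0s, f0k⟩ := red_L0 hF
  let π : L0 →* L ⧸ Subgroup.center L := e.symm.toMonoidHom.comp f0
  have πs : Function.Surjective π := e.symm.surjective.comp f0s
  have πk : ∀ g, π g = 1 ↔ g = 1 ∨ g = zz := fun g => by
    exact (EmbeddingLike.map_eq_one_iff (f := e.symm)).trans ((f0k g).trans
      (or_congr (Subtype.ext_iff (a1 := g) (a2 := 1)).symm (Subtype.ext_iff (a1 := g) (a2 := zz)).symm))
  let p := QuotientGroup.mk' (Subgroup.center L)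
  have ps : Function.Surjective p := QuotientGroup.mk'_surjective _
  obtain ⟨ζ, ζ1, hζ⟩ : ∃ ζ : L, ζ ≠ 1 ∧ ∀ x, x ∈ Subgroup.center L ↔ x = 1 ∨ x = ζ := by
    obtain ⟨y, hy, u⟩ := (Nat.card_eq_two_iff' (1 : Subgroup.center L)).1 hZ
    refine ⟨y, fun e => hy (Subtype.ext e), fun x => ⟨fun hx => ?_, by rintro (rfl | rfl); exacts [one_mem _, y.2]⟩⟩
    by_cases e : x = 1
    · exact .inl e
    · exact .inr (congrArg Subtype.val (u ⟨x, hx⟩ fun k => e (congrArg Subtype.val k)))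
  have ζZ := (hζ ζ).2 (.inr rfl)
  have ζc : ∀ x, Commute x ζ := Subgroup.mem_center_iff.1 ζZ
  have ζ2 : ζ * ζ = 1 := ((hζ _).1 (mul_mem ζZ ζZ)).resolve_right fun e => ζ1 (mul_eq_left.1 e)
  have pk : ∀ x, p x = 1 ↔ x = 1 ∨ x = ζ := fun x => (QuotientGroup.eq_one_iff x).trans (hζ x)
  have zz1 : zz ≠ 1 := fun e => z_ne_one (congrArg Subtype.val e)
  have zz2 : zz * zz = 1 := Subtype.ext z_mul_z
  have c2 : ∀ {X : Type _} [Group X] {K : Subgroup X} {a : X}, a ≠ 1 → (∀ x, x ∈ K ↔ x = 1 ∨ x = a) → Nat.card K = 2 :=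
    fun {X} _ {K a} a1 h => (Nat.card_eq_two_iff' (1 : K)).2 ⟨⟨a, (h a).2 (.inr rfl)⟩, fun e => a1 (congrArg Subtype.val e),
      fun y hy => Subtype.ext (((h _).1 y.2).resolve_left fun e => hy (Subtype.ext e))⟩
  have hc : Nat.card L0 = Nat.card L := by
    rw [← π.ker.index_mul_card, Subgroup.index_ker, MonoidHom.range_eq_top.2 πs, Subgroup.card_top, c2 zz1 πk, ← hZ]
    exact (Subgroup.card_eq_card_quotient_mul_card_subgroup _).symm
  have lift3 : ∀ (x : L) (i j : Fin 8), p x = π (rr i) → cox i j = 3 → ∃ y, p y = π (rr j) ∧ (x⁻¹ * y) ^ 3 = 1 := by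
    intro x i j hx c
    obtain ⟨y, hy⟩ := ps (π (rr j))
    have k : p ((x⁻¹ * y) ^ 3) = 1 := by
      rw [map_pow, map_mul, map_inv, hx, hy, ← map_inv, ← map_mul, ← map_pow, ← c, id_rel, map_one]
    rcases (pk _).1 k with k | k
    · exact ⟨y, hy, k⟩
    · refine ⟨y * ζ, by rw [map_mul, hy, (pk ζ).2 (.inr rfl), mul_one], ?_⟩
      rw [← mul_assoc, (ζc _).mul_pow, k, pow_three, ζ2, mul_one, ζ2]
  have r0 : rr 0 = 1 := Subtype.ext (rf_sq _)
  obtain ⟨ρ, ρ0, hρ, ρ3⟩ : ∃ ρ : Fin 8 → L, ρ 0 = 1 ∧ (∀ i, p (ρ i) = π (rr i)) ∧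
      ∀ i j, cox i j = 3 → ((ρ i)⁻¹ * ρ j) ^ 3 = 1 := by
    have e0 : p 1 = π (rr 0) := by rw [r0, map_one, map_one]
    obtain ⟨x1, e1, k1⟩ := lift3 1 0 1 e0 rfl
    obtain ⟨x2, e2, k2⟩ := lift3 x1 1 2 e1 rfl
    obtain ⟨x3, e3, k3⟩ := lift3 x2 2 3 e2 rfl
    obtain ⟨x4, e4, k4⟩ := lift3 x3 3 4 e3 rfl
    obtain ⟨x5, e5, k5⟩ := lift3 x4 4 5 e4 rfl
    obtain ⟨x6, e6, k6⟩ := lift3 x5 5 6 e5 rfl
    obtain ⟨x7, e7, k7⟩ := lift3 x4 4 7 e4 rfl
    have sy : ∀ {a b : L}, (a⁻¹ * b) ^ 3 = 1 → (b⁻¹ * a) ^ 3 = 1 := fun {a b} h => by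
      rw [← inv_eq_one, ← inv_pow, _root_.mul_inv_rev, inv_inv, h]
    refine ⟨![1, x1, x2, x3, x4, x5, x6, x7], rfl, fun i => by fin_cases i <;> assumption, fun i j c => ?_⟩
    have : (i, j) ∈ ([(0, 1), (1, 2), (2, 3), (3, 4), (4, 5), (5, 6), (4, 7), (1, 0), (2, 1), (3, 2), (4, 3), (5, 4),
      (6, 5), (7, 4)] : List (Fin 8 × Fin 8)) := by revert i j; decide
    simp only [List.mem_cons, Prod.mk.injEq, List.not_mem_nil, or_false] at this
    rcases this with h | h | h | h | h | h | h | h | h | h | h | h | h | h <;> obtain ⟨rfl, rfl⟩ := h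
    exacts [k1, k2, k3, k4, k5, k6, k7, sy k1, sy k2, sy k3, sy k4, sy k5, sy k6, sy k7]
  have h02 : p (((ρ 0)⁻¹ * ρ 2) ^ 2) = 1 := by
    rw [map_pow, map_mul, map_inv, hρ, hρ, ← map_inv, ← map_mul, ← map_pow]
    exact (congrArg π (id_rel 0 2)).trans (map_one _)
  have ρ2 : ∀ i j, cox i j = 2 → ((ρ i)⁻¹ * ρ j) ^ 2 = ((ρ 0)⁻¹ * ρ 2) ^ 2 := fun i j c => by
    obtain ⟨l, hl⟩ := conj_two c
    obtain ⟨l', hl'⟩ := ps (π l)
    have k : p (((ρ 0)⁻¹ * ρ 2)⁻¹ * (l' * ((ρ i)⁻¹ * ρ j) * l'⁻¹)) = 1 := by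
      simp only [map_mul, map_inv, hρ, hl']
      simp only [← map_mul, ← map_inv, hl, inv_mul_cancel, map_one]
    have k1 : (l' * ((ρ i)⁻¹ * ρ j) * l'⁻¹) ^ 2 = ((ρ 0)⁻¹ * ρ 2) ^ 2 := by
      rcases (pk _).1 k with k | k
      · rw [inv_mul_eq_one.1 k]
      · rw [inv_mul_eq_iff_eq_mul.1 k, (ζc _).mul_pow, sq ζ, ζ2, mul_one]
    rw [conj_pow, mul_inv_eq_iff_eq_mul, ← Subgroup.mem_center_iff.1 ((hζ _).2 ((pk _).1 h02))] at k1
    exact mul_left_cancel k1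
  have gen : ∀ K : Subgroup L, (∀ i, ρ i ∈ K) → K ⊔ Subgroup.center L = ⊤ := fun K hK => by
    have : K.map p = ⊤ := by
      rw [eq_top_iff, ← MonoidHom.range_eq_top.2 πs, MonoidHom.range_eq_map, ← gen_L0, MonoidHom.map_closure,
        Subgroup.closure_le]
      rintro _ ⟨_, ⟨i, rfl⟩, rfl⟩
      exact ⟨_, hK i, hρ i⟩
    have := congrArg (Subgroup.comap p) this
    rwa [Subgroup.comap_map_eq, QuotientGroup.ker_mk', Subgroup.comap_top] at this
  have := hq.1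
  rcases (pk _).1 h02 with η | η
  · obtain ⟨f, hf⟩ := univ_alt ρ ρ0 fun i j => by
      rcases id_cox_cases i j with rfl | c | c
      · simp
      · rw [c, ρ2 i j c, η]
      · rw [c, ρ3 i j c]
    exact ⟨MulEquiv.ofBijective f ((Nat.bijective_iff_surjective_and_card f).2 ⟨MonoidHom.range_eq_top.1
      (eq_top_of_sup_center_eq_top (gen _ fun i => ⟨_, hf i⟩)), hc⟩)⟩
  obtain ⟨ρ', ρ0', ρ3', ρ2', ho⟩ := trial (om ρ = ζ)
  let N : Subgroup (L × L0) := Subgroup.zpowers (ζ, zz)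
  have cN : ∀ x : L × L0, Commute x (ζ, zz) := fun x => Prod.ext (ζc x.1) (Subtype.ext (z_comm x.2.1).symm)
  have : N.Normal := ⟨by
    rintro _ ⟨n, rfl⟩ g
    exact ⟨n, (mul_inv_eq_iff_eq_mul.2 ((cN g).zpow_right n)).symm⟩⟩
  let q := QuotientGroup.mk' N
  have q1 : q (ζ, zz) = 1 := (QuotientGroup.eq_one_iff _).2 (Subgroup.mem_zpowers _)
  obtain ⟨Φ, hΦ⟩ := univ_alt (fun i => q (ρ i, ρ' i)) (by rw [ρ0, ρ0']; rfl) fun i j => by
    rw [← map_inv, ← map_mul, ← map_pow]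
    change q (((ρ i)⁻¹ * ρ j) ^ _, ((ρ' i)⁻¹ * ρ' j) ^ _) = 1
    rcases id_cox_cases i j with rfl | c | c
    · simp only [inv_mul_cancel, one_pow]; rfl
    · rw [c, ρ2 i j c, η, ρ2' i j c, q1]
    · rw [c, ρ3 i j c, ρ3' i j c]; rfl
  have Φz : Φ zz = 1 := by
    have k : p (om ρ) = 1 := by
      rw [map_om, funext hρ, ← map_om, om_rr, πk]; exact .inr rfl
    rw [← om_rr, map_om, funext hΦ, ← map_om]
    change q (om ρ, om ρ') = 1
    rw [ho]
    rcases (pk _).1 k with k | k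
    · rw [k]; simp only [ζ1.symm, decide_false, Bool.false_eq_true, if_false]; rfl
    · rw [k]; simpa using q1
  let Δ := Φ.range.comap q
  have cΔ : Nat.card Δ ≤ Nat.card L := by
    have h1 : Nat.card N = 2 := by
      rw [Nat.card_zpowers]
      exact orderOf_eq_prime (Prod.ext ((sq ζ).trans ζ2) ((sq zz).trans zz2)) fun e => ζ1 (congrArg Prod.fst e)
    have h2 : 1 < Nat.card Φ.ker := (Subgroup.one_lt_card_iff_ne_bot _).2 fun e => zz1 (Subgroup.mem_bot.1 (e ▸ Φz))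
    have h3 := Φ.ker.index_mul_card
    have h4 : N.relIndex Δ = Nat.card Φ.range := by
      have := Subgroup.relIndex_ker (K := Δ) q
      rwa [QuotientGroup.ker_mk', Subgroup.map_comap_eq_self_of_surjective (QuotientGroup.mk'_surjective N)] at this
    have h5 := Subgroup.relIndex_mul_relIndex ⊥ N Δ bot_le fun x hx =>
      show q x ∈ Φ.range from (show q x = 1 from (QuotientGroup.eq_one_iff x).2 hx) ▸ one_mem _
    rw [Subgroup.relIndex_bot_left, Subgroup.relIndex_bot_left, h1, h4] at h5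
    rw [Subgroup.index_ker] at h3
    nlinarith
  let p1 : Δ →* L := (MonoidHom.fst L L0).comp Δ.subtype
  have b1 : Function.Bijective p1 := Function.Surjective.bijective_of_nat_card_le (MonoidHom.range_eq_top.1
    (eq_top_of_sup_center_eq_top (gen _ fun i => ⟨⟨(ρ i, ρ' i), _, hΦ i⟩, rfl⟩))) cΔ
  let g : L →* L0 := ((MonoidHom.snd L L0).comp Δ.subtype).comp (MulEquiv.ofBijective p1 b1).symm.toMonoidHom
  have gζ : g ζ = zz := by
    have : (MulEquiv.ofBijective p1 b1).symm ζ = ⟨(ζ, zz), 1, (map_one _).trans q1.symm⟩ :=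
      (MulEquiv.symm_apply_eq _).2 rfl
    exact congrArg (fun x : Δ => x.1.2) this
  have gi : Function.Injective g := (injective_iff_map_eq_one g).2 fun x hx => by
    rcases hq.eq_top_or_le_center g.ker with k | k
    · exact (zz1 (gζ.symm.trans (show ζ ∈ g.ker from k ▸ Subgroup.mem_top _))).elim
    · exact ((hζ x).1 (k hx)).resolve_right fun e => zz1 (gζ.symm.trans (e ▸ hx))
  exact ⟨(MulEquiv.ofBijective g ((Nat.bijective_iff_injective_and_card g).2 ⟨gi, hc.symm⟩)).symm⟩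

end Cfsg.Lib.W8
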