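import Cfsg.Agent.Lib.W8.BasB

/-! The normalizer of the group `2^8` fixes `-1`. -/

set_option autoImplicit false

namespace Cfsg.Lib.W8

open Matrix
open scoped Pointwise symmDiff

variable {G : Type*} [Group G] {s : F8 → G} {M : Subgroup G}

structure ND (s : F8 → G) (M : Subgroup G) : Prop where
  mul : ∀ c d, s c * s d = s (c ∆ d)
  inj : Function.Injective s
  norm : ∀ m ∈ M, ∀ c, ∃ d, m * s c * m⁻¹ = s d
  real : ∀ σ ∈ AG, ∃ m ∈ M, ∀ c, m * s c * m⁻¹ = s (σ • c)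
  stab : ∀ m ∈ M, m * s Finset.univ * m⁻¹ = s Finset.univ → ∃ σ ∈ AG,
    (∀ c, m * s c * m⁻¹ = s (σ • c)) ∨
      ∀ c : F8, m * s c * m⁻¹ = s (if Even c.card then σ • c else (σ • c)ᶜ)
  nb : ∀ m ∈ M, ∀ c : F8, c.card = 2 ∨ c.card = 6 ∨ Pl c → m * s Finset.univ * m⁻¹ ≠ s c

theorem ni_par (c d : F8) : Even (c ∆ d).card ↔ (Even c.card ↔ Even d.card) := by
  have h1 : (c ∆ d).card = (c \ d).card + (d \ c).card := by
    rw [symmDiff_def, Finset.sup_eq_union, Finset.card_union_of_disjoint disjoint_sdiff_sdiff]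
  have h2 := Finset.card_sdiff_add_card_inter c d
  have h3 := Finset.card_sdiff_add_card_inter d c
  rw [Finset.inter_comm] at h3
  simp only [Nat.even_iff]
  omega

/-- the type of a subset -/
def niTy (c : F8) : ℕ := if c.card = 4 ∧ Pl c then 0 else c.card

def niB (b1 b3 b5 b7 : Bool) (k : ℕ) : Bool :=
  match k with
  | 1 => b1 | 3 => b3 | 4 => true | 5 => b5 | 7 => b7 | 8 => true | _ => false

def niN (β : ℕ → Bool) (x : F8) : ℕ :=
  (Finset.univ.filter fun y : F8 => β (niTy y) = true ∧ β (niTy (x ∆ y)) = true).card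

set_option maxRecDepth 100000 in
theorem ni_count : ∀ b1 b3 b5 b7, niN (niB b1 b3 b5 b7) Finset.univ ≠ niN (niB b1 b3 b5 b7) {0, 1, 2, 4} := by
  decide +kernel

theorem ni_33 {a b c i j k : Fin 8} (h1 : a ≠ b) (h2 : a ≠ c) (h3 : b ≠ c) (k1 : i ≠ j) (k2 : i ≠ k) (k3 : j ≠ k) :
    ∃ σ ∈ AG, σ a = i ∧ σ b = j ∧ σ c = k := by
  obtain ⟨σ, hσ, rfl, rfl, rfl⟩ := AG_three h1 h2 h3
  obtain ⟨τ, hτ, rfl, rfl, rfl⟩ := AG_three k1 k2 k3
  exact ⟨τ * σ⁻¹, mul_mem hτ (inv_mem hσ), by simp, by simp, by simp⟩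

theorem ni_pl {σ : P8} (hσ : σ ∈ AG) {a b c d : Fin 8} (h : Pl {a, b, c, d}) : Pl {σ a, σ b, σ c, σ d} := by
  have := (mem_AG.1 hσ _).1 h
  simpa only [Finset.smul_finset_insert, Finset.smul_finset_singleton, Equiv.Perm.smul_def] using this

theorem ni_uniq {a b c d e : Fin 8} (h1 : a ≠ b) (h2 : a ≠ c) (h3 : b ≠ c) (h : Pl {a, b, c, d})
    (h' : Pl {a, b, c, e}) : d = e := by
  obtain ⟨l, -, -, -, -, hl⟩ := pl_ex h1 h2 h3
  exact (hl d h).trans (hl e h').symm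

theorem ni_mv {a b c d r : Fin 8} (h1 : a ≠ b) (h2 : a ≠ c) (h3 : b ≠ c) (h : Pl {a, b, c, d})
    (r1 : r ≠ a) (r2 : r ≠ b) (r3 : r ≠ c) (r4 : r ≠ d) :
    ∃ σ ∈ AG, σ a = a ∧ σ b = b ∧ σ c = c ∧ σ d = d ∧ σ r ≠ r := by
  obtain ⟨σ, hσ, rfl, rfl, rfl⟩ := AG_three h1 h2 h3
  have p0 : Pl {0, 1, 2, 3} := by decide
  obtain rfl : σ 3 = d := ni_uniq h1 h2 h3 (ni_pl hσ p0) h
  obtain ⟨r, rfl⟩ := σ.surjective r
  have hr : 4 ≤ r.1 := by
    have a1 := σ.injective.ne_iff.1 r1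
    have a2 := σ.injective.ne_iff.1 r2
    have a3 := σ.injective.ne_iff.1 r3
    have a4 := σ.injective.ne_iff.1 r4
    exact (by decide : ∀ r : Fin 8, r ≠ 0 → r ≠ 1 → r ≠ 2 → r ≠ 3 → 4 ≤ r.1) r a1 a2 a3 a4
  obtain ⟨τ, hτ, t0, t1, t2, t4⟩ : ∃ τ ∈ AG, τ 0 = 0 ∧ τ 1 = 1 ∧ τ 2 = 2 ∧ τ r ≠ r := by
    by_cases e : r = 4
    · obtain ⟨τ, hτ, t0, t1, t2, t4⟩ := AG_four (l := 5) (by decide)
      exact ⟨τ, hτ, t0, t1, t2, by rw [e, t4]; decide⟩
    · obtain ⟨τ, hτ, t0, t1, t2, t4⟩ := AG_four hr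
      exact ⟨τ, hτ, t0, t1, t2, fun e' => e (τ.injective (e'.trans t4.symm))⟩
  have t3 : τ 3 = 3 := by
    have := ni_pl hτ p0
    rw [t0, t1, t2] at this
    exact ni_uniq (by decide) (by decide) (by decide) this p0
  exact ⟨σ * τ * σ⁻¹, mul_mem (mul_mem hσ hτ) (inv_mem hσ), by simp [t0], by simp [t1], by simp [t2],
    by simp [t3], by simpa using t4⟩

/-- `AGL(3,2)` has no transitive extension -/
theorem ni_nine {X : Type*} [Finite X] (K : Subgroup (Equiv.Perm X)) (o : X) (u : Fin 8 → X)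
    (hu : Function.Injective u) (hne : ∀ i, u i ≠ o)
    (hΩ : ∀ f ∈ K, ∀ i, f (u i) = o ∨ ∃ j, f (u i) = u j)
    (real : ∀ σ ∈ AG, ∃ f ∈ K, f o = o ∧ ∀ i, f (u i) = u (σ i))
    (stab : ∀ f ∈ K, f o = o → ∃ σ ∈ AG, ∀ i, f (u i) = u (σ i))
    {f0 : Equiv.Perm X} (h0 : f0 ∈ K) {a0 : Fin 8} (mv : f0 o = u a0) : False := by
  have t1 : ∀ a, ∃ f ∈ K, f o = u a := fun a => by
    have k : ∀ a : Fin 8, a ≠ a + 1 ∧ a ≠ a + 2 ∧ a + 1 ≠ a + 2 := by decide
    obtain ⟨σ, hσ, e, -⟩ := ni_33 (k a0).1 (k a0).2.1 (k a0).2.2 (k a).1 (k a).2.1 (k a).2.2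
    obtain ⟨g, hg, -, e2⟩ := real σ hσ
    exact ⟨g * f0, mul_mem hg h0, by rw [Equiv.Perm.mul_apply, mv, e2, e]⟩
  have pre : ∀ f ∈ K, ∀ a b, f o = u a → b ≠ a → ∃ i, f (u i) = u b := fun f hf a b e ne => by
    rcases hΩ _ (inv_mem hf) b with e1 | ⟨i, e1⟩
    · exact absurd (hu ((Equiv.Perm.inv_eq_iff_eq.1 e1).trans e)) ne
    · exact ⟨i, (Equiv.Perm.inv_eq_iff_eq.1 e1).symm⟩
  have fixK : ∀ g ∈ K, ∀ a b c d, a ≠ b → a ≠ c → b ≠ c → Pl {a, b, c, d} → g o = o → g (u a) = u a →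
      g (u b) = u b → g (u c) = u c → g (u d) = u d := fun g hg a b c d h1 h2 h3 h e ea eb ec => by
    obtain ⟨σ, hσ, e2⟩ := stab g hg e
    have := ni_pl hσ h
    rw [hu ((e2 a).symm.trans ea), hu ((e2 b).symm.trans eb), hu ((e2 c).symm.trans ec)] at this
    rw [e2, ni_uniq h1 h2 h3 this h]
  have det : ∀ g ∈ K, ∀ a b c d, a ≠ b → a ≠ c → b ≠ c → d ≠ a → d ≠ b → d ≠ c → Pl {a, b, c, d} →
      g (u a) = u a → g (u b) = u b → g (u c) = u c → g (u d) = u d → g o = o :=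
    fun g hg a b c d h1 h2 h3 h4 h5 h6 h ea eb ec ed => by
    obtain ⟨f, hf, e⟩ := t1 a
    obtain ⟨i, ei⟩ := pre f hf a b e h1.symm
    obtain ⟨j, ej⟩ := pre f hf a c e h2.symm
    obtain ⟨k, ek⟩ := pre f hf a d e h4
    obtain ⟨σ, hσ, sa, sb, sc⟩ := ni_33 (i := i) (j := j) (k := k) h1 h2 h3
      (fun e => h3 (hu (by rw [← ei, ← ej, e]))) (fun e => h5 (hu (by rw [← ei, ← ek, e])))
      fun e => h6 (hu (by rw [← ej, ← ek, e]))
    obtain ⟨f1, hf1, e1, e2⟩ := real σ hσ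
    have hx := mul_mem hf hf1
    have x0 : (f * f1) o = u a := by rw [Equiv.Perm.mul_apply, e1, e]
    have x1 : (f * f1) (u a) = u b := by rw [Equiv.Perm.mul_apply, e2, sa, ei]
    have x2 : (f * f1) (u b) = u c := by rw [Equiv.Perm.mul_apply, e2, sb, ej]
    have x3 : (f * f1) (u c) = u d := by rw [Equiv.Perm.mul_apply, e2, sc, ek]
    generalize f * f1 = x at hx x0 x1 x2 x3
    let S : Set (Equiv.Perm X) := {g | g ∈ K ∧ g (u a) = u a ∧ g (u b) = u b ∧ g (u c) = u c ∧ g (u d) = u d}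
    have n : x⁻¹ ∈ Subgroup.normalizer S := Subgroup.mem_normalizer_fintype fun y hy => by
      obtain ⟨y0, ya, yb, yc, yd⟩ := hy
      have m : x⁻¹ * y * x⁻¹⁻¹ ∈ K := mul_mem (mul_mem (inv_mem hx) y0) (inv_mem (inv_mem hx))
      have k : ∀ p q, x p = q → y q = q → (x⁻¹ * y * x⁻¹⁻¹) p = p := fun p q e1 e2 => by
        simp [e1, e2, Equiv.symm_apply_eq]
      exact ⟨m, k _ _ x1 yb, k _ _ x2 yc, k _ _ x3 yd,
        fixK _ m a b c d h1 h2 h3 h (k _ _ x0 ya) (k _ _ x1 yb) (k _ _ x2 yc) (k _ _ x3 yd)⟩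
    have := ((Subgroup.mem_set_normalizer_iff.1 (inv_mem n) g).1 ⟨hg, ea, eb, ec, ed⟩).2.1
    rw [← x0] at this
    simpa using this
  obtain ⟨f, hf, e⟩ := t1 0
  obtain ⟨i, ei⟩ := pre f hf 0 1 e (by decide)
  obtain ⟨j, ej⟩ := pre f hf 0 2 e (by decide)
  obtain ⟨k, ek⟩ := pre f hf 0 4 e (by decide)
  have ij : i ≠ j := fun e => absurd (hu (show u 1 = u 2 by rw [← ei, ← ej, e])) (by decide)
  have ik : i ≠ k := fun e => absurd (hu (show u 1 = u 4 by rw [← ei, ← ek, e])) (by decide)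
  have jk : j ≠ k := fun e => absurd (hu (show u 2 = u 4 by rw [← ej, ← ek, e])) (by decide)
  obtain ⟨l, li, lj, lk, pl, -⟩ := pl_ex ij ik jk
  have cj : ∀ g ∈ K, f⁻¹ * g * f ∈ K := fun g hg => mul_mem (mul_mem (inv_mem hf) hg) hf
  have tr : ∀ (g : Equiv.Perm X) p q, f p = q → ((f⁻¹ * g * f) p = p ↔ g q = q) := fun g p q e => by
    simp [e, Equiv.symm_apply_eq]
  have mvK : ∀ a b c d r : Fin 8, a ≠ b → a ≠ c → b ≠ c → Pl {a, b, c, d} → r ≠ a → r ≠ b → r ≠ c → r ≠ d →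
      ∃ g ∈ K, g o = o ∧ g (u a) = u a ∧ g (u b) = u b ∧ g (u c) = u c ∧ g (u d) = u d ∧ g (u r) ≠ u r :=
    fun a b c d r h1 h2 h3 h r1 r2 r3 r4 => by
    obtain ⟨σ, hσ, s1, s2, s3, s4, s5⟩ := ni_mv h1 h2 h3 h r1 r2 r3 r4
    obtain ⟨g, hg, e1, e2⟩ := real σ hσ
    exact ⟨g, hg, e1, by rw [e2, s1], by rw [e2, s2], by rw [e2, s3], by rw [e2, s4],
      fun e => s5 (hu ((e2 r).symm.trans e))⟩
  have pk : Pl {i, j, l, k} := by rwa [Finset.pair_comm l k]
  have pj : Pl {i, k, l, j} := by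
    rwa [Finset.pair_comm l j, Finset.insert_comm k j]
  have pi : Pl {j, k, l, i} := by
    rwa [Finset.pair_comm l i, Finset.insert_comm k i, Finset.insert_comm j i]
  have c3 : ∀ q, f (u l) = q → (q = o ∨ q = u 3) → False := fun q el hq => by
    obtain ⟨g, hg, g0, g1, g2, g3, g4, g5⟩ := mvK 0 1 2 3 4 (by decide) (by decide) (by decide) (by decide)
      (by decide) (by decide) (by decide) (by decide)
    exact g5 ((tr g _ _ ek).1 (fixK _ (cj g hg) i j l k ij li.symm lj.symm pk ((tr g _ _ e).2 g1)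
      ((tr g _ _ ei).2 g2) ((tr g _ _ ej).2 g3) ((tr g _ _ el).2 (by rcases hq with rfl | rfl; exacts [g0, g4]))))
  rcases hΩ f hf l with el | ⟨d, el⟩
  · exact c3 _ el (.inl rfl)
  have d0 : d ≠ 0 := fun e' => hne l (f.injective (by rw [el, e, e']))
  have d1 : d ≠ 1 := fun e' => li (hu (f.injective (by rw [el, ei, e'])))
  have d2 : d ≠ 2 := fun e' => lj (hu (f.injective (by rw [el, ej, e'])))
  have d4 : d ≠ 4 := fun e' => lk (hu (f.injective (by rw [el, ek, e'])))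
  have hd := (by decide : ∀ d : Fin 8, d ≠ 0 → d ≠ 1 → d ≠ 2 → d ≠ 4 → d = 3 ∨ d = 5 ∨ d = 6 ∨ d = 7) d d0 d1 d2 d4
  rcases hd with rfl | rfl | rfl | rfl
  · exact c3 _ el (.inr rfl)
  · obtain ⟨g, hg, -, g1, g2, g3, g4, g5⟩ := mvK 0 1 4 5 2 (by decide) (by decide) (by decide) (by decide)
      (by decide) (by decide) (by decide) (by decide)
    exact g5 ((tr g _ _ ej).1 (fixK _ (cj g hg) i k l j ik li.symm lk.symm pj ((tr g _ _ e).2 g1)
      ((tr g _ _ ei).2 g2) ((tr g _ _ ek).2 g3) ((tr g _ _ el).2 g4)))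
  · obtain ⟨g, hg, -, g1, g2, g3, g4, g5⟩ := mvK 0 2 4 6 1 (by decide) (by decide) (by decide) (by decide)
      (by decide) (by decide) (by decide) (by decide)
    exact g5 ((tr g _ _ ei).1 (fixK _ (cj g hg) j k l i jk lj.symm lk.symm pi ((tr g _ _ e).2 g1)
      ((tr g _ _ ej).2 g2) ((tr g _ _ ek).2 g3) ((tr g _ _ el).2 g4)))
  · obtain ⟨g, hg, -, g1, g2, g3, g4, g5⟩ := mvK 1 2 4 7 0 (by decide) (by decide) (by decide) (by decide)
      (by decide) (by decide) (by decide) (by decide)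
    exact g5 ((tr g _ _ e).1 (det _ (cj g hg) i j k l ij ik jk li lj lk pl ((tr g _ _ ei).2 g1)
      ((tr g _ _ ej).2 g2) ((tr g _ _ ek).2 g3) ((tr g _ _ el).2 g4)))

/-- the statement for a group of permutations of the subsets -/
theorem ni_fix (K : Subgroup (Equiv.Perm F8)) (add : ∀ f ∈ K, ∀ c d, f (c ∆ d) = f c ∆ f d)
    (real : ∀ σ ∈ AG, ∃ f ∈ K, ∀ c, f c = σ • c)
    (stab : ∀ f ∈ K, f Finset.univ = Finset.univ → ∃ σ ∈ AG, (∀ c, f c = σ • c) ∨
      ∀ c : F8, f c = if Even c.card then σ • c else (σ • c)ᶜ)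
    (nb : ∀ f ∈ K, ∀ c : F8, c.card = 2 ∨ c.card = 6 ∨ Pl c → f Finset.univ ≠ c)
    {f : Equiv.Perm F8} (hf : f ∈ K) : f Finset.univ = Finset.univ := by
  classical
  by_contra hne
  obtain ⟨O, hO⟩ : ∃ O : F8 → Prop, ∀ c, O c ↔ ∃ g ∈ K, g Finset.univ = c := ⟨_, fun _ => Iff.rfl⟩
  have O8 : O Finset.univ := (hO _).2 ⟨1, one_mem _, rfl⟩
  have Om : ∀ g ∈ K, ∀ c, O c → O (g c) := fun g hg c hc => by
    obtain ⟨g', hg', rfl⟩ := (hO c).1 hc
    exact (hO _).2 ⟨g * g', mul_mem hg hg', rfl⟩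
  have Oi : ∀ g ∈ K, ∀ c, O (g c) ↔ O c := fun g hg c =>
    ⟨fun h => by simpa using Om _ (inv_mem hg) _ h, Om g hg c⟩
  have Ot : ∀ c d : F8, c.card = d.card → ¬ Pl c → ¬ Pl d → O c → O d := fun c d e h1 h2 h => by
    obtain ⟨σ, hσ, rfl⟩ := AG_trans e (iff_of_false h1 h2)
    obtain ⟨g, hg, e⟩ := real σ hσ
    exact e c ▸ Om g hg c h
  have On : ∀ c : F8, c.card = 2 ∨ c.card = 6 ∨ Pl c → ¬ O c := fun c hc h => by
    obtain ⟨g, hg, e⟩ := (hO c).1 h
    exact nb g hg c hc e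
  have e0 : ∀ g ∈ K, g ∅ = ∅ := fun g hg => by
    have := add g hg ∅ ∅
    rwa [symmDiff_self, symmDiff_self] at this
  have O0 : ¬ O ∅ := fun h => by
    obtain ⟨g, hg, e⟩ := (hO _).1 h
    exact absurd (g.injective (e.trans (e0 g hg).symm)) (by decide)
  have np : ∀ c : F8, c.card ≠ 4 → ¬ Pl c := fun c h h' => h h'.card
  have le8 : ∀ c : F8, c.card ≤ 8 := fun c => by simpa using Finset.card_le_univ c
  have c8 : ∀ c : F8, c.card = 8 → c = Finset.univ := fun c h => Finset.eq_univ_of_card c (by simpa using h)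
  -- no nonplanar four-sets
  have O4 : ¬ O {0, 1, 2, 4} := fun h4 => by
    have key : ∀ c, O c ↔ niB (decide (O {0})) (decide (O {0, 1, 2})) (decide (O {0, 1, 2, 3, 4}))
        (decide (O {0, 1, 2, 3, 4, 5, 6})) (niTy c) = true := fun c => by
      by_cases hp : Pl c
      · rw [niTy, if_pos ⟨hp.card, hp⟩]
        exact iff_of_false (On c (.inr (.inr hp))) (by simp [niB])
      rw [niTy, if_neg fun h => hp h.2]
      have tr : ∀ d : F8, c.card = d.card → ¬ Pl d → (O c ↔ O d) := fun d e h =>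
        ⟨Ot c d e hp h, Ot d c e.symm h hp⟩
      have := le8 c
      generalize hk : c.card = k at this
      interval_cases k
      · exact iff_of_false (Finset.card_eq_zero.1 hk ▸ O0) (by simp [niB])
      · simpa [niB] using tr {0} hk (by decide)
      · exact iff_of_false (On c (.inl hk)) (by simp [niB])
      · simpa [niB] using tr {0, 1, 2} hk (by decide)
      · exact iff_of_true ((tr {0, 1, 2, 4} hk (by decide)).2 h4) rfl
      · simpa [niB] using tr {0, 1, 2, 3, 4} hk (by decide)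
      · exact iff_of_false (On c (.inr (.inl hk))) (by simp [niB])
      · simpa [niB] using tr {0, 1, 2, 3, 4, 5, 6} hk (by decide)
      · exact iff_of_true (c8 c hk ▸ O8) rfl
    obtain ⟨g, hg, e⟩ := (hO _).1 h4
    refine ni_count (decide (O {0})) (decide (O {0, 1, 2})) (decide (O {0, 1, 2, 3, 4}))
      (decide (O {0, 1, 2, 3, 4, 5, 6})) (Finset.card_bijective g g.bijective fun y => ?_)
    simp only [Finset.mem_filter, Finset.mem_univ, true_and, ← key]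
    rw [← e, ← add g hg, Oi g hg, Oi g hg]
  have ev : ∀ c, O c → Even c.card → c = Finset.univ := fun c h hc => by
    have := le8 c
    have hp : ¬ Pl c := fun hp => On c (.inr (.inr hp)) h
    generalize hk : c.card = k at this hc
    interval_cases k
    · exact absurd (Finset.card_eq_zero.1 hk ▸ h) O0
    · exact absurd hc (by decide)
    · exact absurd h (On c (.inl hk))
    · exact absurd hc (by decide)
    · exact absurd (Ot c {0, 1, 2, 4} hk hp (by decide) h) O4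
    · exact absurd hc (by decide)
    · exact absurd h (On c (.inr (.inl hk)))
    · exact absurd hc (by decide)
    · exact c8 c hk
  have par : ∀ y a b c, O y → O a → O b → O c → a ≠ y → b ≠ y → c ≠ y → a ∆ b ∆ c ≠ y ∧ a ∆ b ∆ c ≠ ∅ :=
    fun y a b c hy ha hb hc h1 h2 h3 => by
    obtain ⟨g, hg, rfl⟩ := (hO y).1 hy
    obtain ⟨a, rfl⟩ := g.surjective a
    obtain ⟨b, rfl⟩ := g.surjective b
    obtain ⟨c, rfl⟩ := g.surjective c
    have k : ∀ x, O (g x) → g x ≠ g Finset.univ → ¬ Even x.card := fun x h1 h2 h3 =>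
      h2 (by rw [ev x ((Oi g hg x).1 h1) h3])
    have : ¬ Even (a ∆ b ∆ c).card := by
      rw [ni_par, ni_par]
      simp [k a ha h1, k b hb h2, k c hc h3]
    rw [← add g hg, ← add g hg, ← e0 g hg]
    exact ⟨fun e => this (by rw [g.injective e]; decide), fun e => this (by rw [g.injective e]; decide)⟩
  have O3 : ∀ c : F8, c.card = 3 → ¬ O c := fun c hc h => by
    have k : ∀ d : F8, 3 = d.card → O d := fun d e => Ot c d (hc.trans e) (np c (by omega)) (np d (by omega)) h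
    exact (par {0, 1, 2} {0, 1, 3} {2, 4, 5} {3, 4, 5} (k _ rfl) (k _ rfl) (k _ rfl) (k _ rfl) (by decide)
      (by decide) (by decide)).1 (by decide)
  have O5 : ∀ c : F8, c.card = 5 → ¬ O c := fun c hc h => by
    have k : ∀ d : F8, 5 = d.card → O d := fun d e => Ot c d (hc.trans e) (np c (by omega)) (np d (by omega)) h
    exact (par {3, 4, 5, 6, 7} {2, 4, 5, 6, 7} {0, 1, 3, 6, 7} {0, 1, 2, 6, 7} (k _ rfl) (k _ rfl) (k _ rfl)
      (k _ rfl) (by decide) (by decide) (by decide)).1 (by decide)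
  have O17 : ∀ c d : F8, c.card = 1 → d.card = 7 → O c → ¬ O d := fun c d hc hd h h' => by
    have k : ∀ d : F8, 1 = d.card → O d := fun d e => Ot c d (hc.trans e) (np c (by omega)) (np d (by omega)) h
    exact (par {1} Finset.univ {0} {1, 2, 3, 4, 5, 6, 7} (k _ rfl) O8 (k _ rfl)
      (Ot d _ hd (np d (by omega)) (by decide) h') (by decide) (by decide) (by decide)).2 (by decide)
  have cs : ∀ c, O c → c = Finset.univ ∨ c.card = 1 ∨ c.card = 7 := fun c h => by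
    by_cases hc : Even c.card
    · exact .inl (ev c h hc)
    have := le8 c
    have : c.card ≠ 3 := fun e => O3 c e h
    have : c.card ≠ 5 := fun e => O5 c e h
    rw [Nat.even_iff] at hc
    right; omega
  have cc : ∀ c : F8, cᶜ.card = 8 - c.card := fun c => by simp [Finset.card_compl]
  have Of : O (f Finset.univ) := (hO _).2 ⟨f, hf, rfl⟩
  obtain ⟨u, u1, u2, u3, u4, u5, u6⟩ : ∃ u : Fin 8 → F8, Function.Injective u ∧ (∀ i, O (u i)) ∧
      (∀ c, O c → c = Finset.univ ∨ ∃ i, c = u i) ∧ (∀ (σ : P8) i, σ • u i = u (σ i)) ∧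
      (∀ i, ¬ O (u i)ᶜ) ∧ ∀ i, ¬ Even (u i).card := by
    rcases (cs _ Of).resolve_left hne with h | h
    · have k : ∀ i : Fin 8, O {i} := fun i => Ot _ _ h (np _ (by omega)) (np _ (by simp)) Of
      refine ⟨fun i => {i}, Finset.singleton_injective, k, fun c hc => (cs c hc).imp_right fun e => ?_,
        fun σ i => Finset.smul_finset_singleton _, fun i => O17 _ _ h (by rw [cc]; rfl) Of, fun i => by simp⟩
      exact Finset.card_eq_one.1 (e.resolve_right fun e => O17 _ _ h e Of hc)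
    · have k : ∀ i : Fin 8, O {i}ᶜ := fun i => Ot _ _ (by rw [h, cc]; rfl) (np _ (by omega))
        (np _ (by rw [cc]; simp)) Of
      refine ⟨fun i => {i}ᶜ, fun i j e => Finset.singleton_injective (compl_injective e), k,
        fun c hc => (cs c hc).imp_right fun e => ?_, fun σ i => ?_,
        fun i hi => O17 _ _ (by simp) h hi Of, fun i => by rw [cc]; simp; decide⟩
      · have e1 := e.resolve_left fun e => O17 _ _ e h hc Of
        obtain ⟨i, hi⟩ := Finset.card_eq_one.1 (show cᶜ.card = 1 by rw [cc, e1])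
        exact ⟨i, (compl_compl c).symm.trans (congrArg (·ᶜ) hi)⟩
      · ext x
        rw [← Finset.inv_smul_mem_iff]
        simp [Equiv.Perm.smul_def, Equiv.symm_apply_eq]
  obtain ⟨a0, ea⟩ := (u3 _ Of).resolve_left hne
  refine ni_nine K Finset.univ u u1 (fun i e => u6 i (by rw [e]; decide)) (fun g hg i => u3 _ (Om g hg _ (u2 i)))
    (fun σ hσ => ?_) (fun g hg e => ?_) hf ea
  · obtain ⟨g, hg, e⟩ := real σ hσ
    exact ⟨g, hg, by rw [e]; simp, fun i => by rw [e, u4]⟩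
  · obtain ⟨σ, hσ, h | h⟩ := stab g hg e
    · exact ⟨σ, hσ, fun i => by rw [h, u4]⟩
    · have := Om g hg _ (u2 0)
      rw [h, if_neg (u6 0), u4] at this
      exact absurd this (u5 _)

/-- `Ω = {c | s c is M-conjugate to s univ}` is a union of `AG`-orbits; counting the sums `x ∆ y ∈ Ω` excludes the
nonplanar 4-sets, parity excludes everything except nine points, and `AGL(3,2)` has no transitive extension. -/
theorem ND.fix [Finite G] (D : ND s M) {m : G} (hm : m ∈ M) :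
    m * s Finset.univ * m⁻¹ = s Finset.univ := by
  let K : Subgroup (Equiv.Perm F8) := ⟨⟨⟨{f | ∃ m ∈ M, ∀ c, m * s c * m⁻¹ = s (f c)},
    fun {a b} ⟨x, hx, ex⟩ ⟨y, hy, ey⟩ => ⟨x * y, mul_mem hx hy, fun c => by
      rw [Equiv.Perm.mul_apply, ← ex, ← ey]; group⟩⟩, ⟨1, one_mem _, fun c => by simp⟩⟩,
    fun {a} ⟨x, hx, ex⟩ => ⟨x⁻¹, inv_mem hx, fun c => by
      have := ex (a⁻¹ c)
      rw [show a (a⁻¹ c) = c by simp] at this
      rw [← this]; group⟩⟩
  choose φ hφ using D.norm m hm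
  have inj : Function.Injective φ := fun c d e => D.inj (by
    have := (hφ c).trans ((congrArg s e).trans (hφ d).symm)
    simpa using this)
  have := ni_fix K (fun f ⟨x, _, ex⟩ c d => D.inj (by rw [← ex, ← D.mul, ← D.mul, ← ex, ← ex]; group))
    (fun σ hσ => by
      obtain ⟨x, hx, ex⟩ := D.real σ hσ
      exact ⟨MulAction.toPerm σ, ⟨x, hx, ex⟩, fun c => rfl⟩)
    (fun f ⟨x, hx, ex⟩ e => by
      obtain ⟨σ, hσ, h⟩ := D.stab x hx (by rw [ex, e])
      exact ⟨σ, hσ, h.imp (fun h c => D.inj ((ex c).symm.trans (h c))) fun h c => D.inj ((ex c).symm.trans (h c))⟩)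
    (fun f ⟨x, hx, ex⟩ c hc e => D.nb x hx c hc (by rw [ex, e]))
    (f := Equiv.ofBijective φ (Finite.injective_iff_bijective.1 inj)) ⟨m, hm, hφ⟩
  rw [hφ]; exact congrArg s this

end Cfsg.Lib.W8
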