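import Cfsg.Agent.Lib.W8.Theta
import Cfsg.Agent.Lib.W8.EArg
import Cfsg.Agent.Lib.W8.Nine
import Cfsg.Agent.Lib.W8.Aut
import Cfsg.Agent.Lib.W8.Ident
import Cfsg.Agent.Lib.Dot0.Main

/-! A standard subgroup `2·Ω₈⁺(2)` whose centralizer has cyclic Sylow 2-subgroups is normal. -/

set_option autoImplicit false

namespace Cfsg.Lib.W8

open scoped Pointwise symmDiff

variable {G : Type*} [Group G] {j j' : W → G} {n : ℕ} {s : F8 → G} {θ : F8 → W} {c c0 : F8}

theorem mn_codeE : Code fun c => Even c.card := ⟨fun _ h => h, fun _ _ => even_symmDiff⟩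
theorem mn_codeA : Code fun _ => True := ⟨fun _ _ => trivial, fun _ _ _ _ => trivial⟩

theorem mn_inv (H : Hyp j n) (T : Th j (fun c => Even c.card) s θ) {m : G} (hm : Commute m (j z)) {σ : P8}
    (h : ∀ c : F8, Even c.card → m * s c * m⁻¹ = s (σ • c)) : Inv θ σ := by
  obtain ⟨w, hw⟩ := H.act m hm
  refine ⟨w, fun c hc => ?_⟩
  have hc' : Even (σ • c).card := by rwa [card_smul8]
  have h1 := hw.conj (T.acts c hc)
  rw [h c hc] at h1
  by_cases h2 : θ c ∈ L0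
  · left
    have h3 := th_conj_mem w h2
    have h4 := H.uniq_mem h1 (T.acts _ hc') h3
    refine H.inj _ h3 _ h4 ?_
    rw [← hw _ h2, ← T.inn c hc h2, h c hc, T.inn _ hc' h4]
  · rcases H.uniq (T.acts _ hc') h1 with h3 | h3
    · exact Or.inl h3
    · exact Or.inr ⟨h2, h3⟩

/-- common set-up for `E` and `F` -/
theorem mn_set (H : Hyp j n) (H' : Hyp j' n) (e : F8 → W) (h0 : ∀ c : F8, Even c.card → e c ∈ L0)
    (h1 : ∀ c d : F8, Even c.card → Even d.card → e c * e d = e (c ∆ d))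
    (h2 : ∀ c d : F8, Even c.card → Even d.card → e c = e d → c = d) (hc : Even c0.card)
    (ht : j' z = j (e c0)) :
    ∃ θ, TH θ c0 ∧ Th j' (fun c => Even c.card) (fun c => j (e c)) θ ∧
      ∀ p ∈ L0, ∀ σ : P8, σ • c0 = c0 → (∀ c : F8, Even c.card → p * e c * p⁻¹ = e (σ • c)) → Inv θ σ := by
  have hm : ∀ c d : F8, Even c.card → Even d.card → j (e c) * j (e d) = j (e (c ∆ d)) :=
    fun c d hc hd => by rw [← H.mul _ (h0 c hc) _ (h0 d hd), h1 c d hc hd]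
  have E : EA j' (fun c => Even c.card) fun c => j (e c) :=
    ⟨mn_codeE, hm, fun c d hc hd h => h2 c d hc hd (H.inj _ (h0 c hc) _ (h0 d hd) h), fun d hd => by
      show _ = _
      rw [ht, hm _ _ hd hc, hm _ _ hc hd, symmDiff_comm]⟩
  obtain ⟨θ, T⟩ := H'.theta E
  refine ⟨θ, ⟨T.mul, fun c d hc hd => T.inj E H' hc hd, T.top H' hc ht.symm⟩, T, fun p hp σ h3 h4 => ?_⟩
  have h5 : ∀ c : F8, Even c.card → j p * j (e c) * (j p)⁻¹ = j (e (σ • c)) := fun c hc => by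
    rw [← H.conj hp (h0 c hc), h4 c hc]
  refine mn_inv H' T (m := j p) ?_ h5
  have := h5 c0 hc
  rw [h3, mul_inv_eq_iff_eq_mul, ← ht] at this
  exact this

theorem mn_caseE (H : Hyp j n) (H' : Hyp j' n)
    (h : c0 = {0, 1} ∨ c0 = {2, 3, 4, 5, 6, 7} ∨ c0 = {0, 1, 2, 3}) (ht : j' z = j (sE c0)) : False := by
  have hc : Even c0.card := by rcases h with rfl | rfl | rfl <;> decide
  obtain ⟨θ, h1, -, h2⟩ := mn_set H H' sE (fun c _ => sE_mem c) (fun _ _ => sE_mul) (fun _ _ => sE_inj) hc ht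
  have h3 : ∀ σ : P8, Equiv.Perm.sign σ = 1 → σ • c0 = c0 → Inv θ σ := fun σ h4 h5 =>
    h2 (pE σ) (pE_mem.2 h4) σ h5 fun c hc => pE_conj σ hc
  rcases h with rfl | rfl | rfl
  · exact earg_bp h1 h3
  · exact earg_bm h1 h3
  · exact earg_a h1 h3

theorem mn_move (H : Hyp j n) (hc : Even c.card) (ht : j' z = j (sF c)) {σ : P8} (hσ : σ ∈ AG) :
    cj (j (pF σ)) j' z = j (sF (σ • c)) := by
  rw [← pF_conj hσ, H.conj (pF_mem hσ) (sF_mem.2 hc), ← ht]; rfl

theorem mn_caseAB (H : Hyp j n) (H' : Hyp j' n) (h : c.card = 2 ∨ c.card = 6 ∨ Pl c)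
    (ht : j' z = j (sF c)) : False := by
  have hp : ∀ d : F8, d.card ≠ 4 → ¬ Pl d := fun d h1 h2 => h1 h2.card
  rcases h with h | h | h
  · obtain ⟨σ, hσ, h1⟩ := AG_trans (c := c) (d := {0, 1}) (by rw [h]; decide)
      (iff_of_false (hp _ (by omega)) (by decide))
    have := mn_move H (by rw [h]; decide) ht hσ
    rw [h1, sF_eq_two] at this
    exact mn_caseE H (H'.cj _) (Or.inl rfl) this
  · obtain ⟨σ, hσ, h1⟩ := AG_trans (c := c) (d := {2, 3, 4, 5, 6, 7}) (by rw [h]; decide)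
      (iff_of_false (hp _ (by omega)) (by decide))
    have := mn_move H (by rw [h]; decide) ht hσ
    rw [h1, sF_eq_six] at this
    exact mn_caseE H (H'.cj _) (Or.inr (Or.inl rfl)) this
  · obtain ⟨σ, hσ, h1⟩ := AG_trans (c := c) (d := {0, 1, 2, 3}) (by rw [h.card]; decide)
      (iff_of_true h (by decide))
    have := mn_move H (by rw [h.card]; decide) ht hσ
    rw [h1, sF_eq_four] at this
    exact mn_caseE H (H'.cj _) (Or.inr (Or.inr rfl)) this

/-- there is an involution inducing an outer automorphism -/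
def Out (j : W → G) : Prop := ∃ x u, x * x = 1 ∧ u ∉ L0 ∧ Acts j x u

theorem Out.cj' {g : G} (h : Out (cj g j)) : Out j := by
  obtain ⟨x, u, h1, h2, h3⟩ := h
  exact ⟨_, u, by rw [show g⁻¹ * x * g * (g⁻¹ * x * g) = g⁻¹ * (x * x) * g by group, h1]; group, h2, h3.cj'⟩

theorem mn_caseF (H : Hyp j n) (H' : Hyp j' n) (ht : j' z = j (sF {0, 1, 2, 4})) : Out j' := by
  obtain ⟨θ, h1, T, h2⟩ := mn_set H H' sF (fun c => sF_mem.2) (fun c d _ _ => sF_mul c d)
    (fun _ _ _ _ => sF_inj) (by decide) ht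
  obtain ⟨c, hc, h3⟩ := farg h1 fun σ h4 h5 => h2 (pF σ) (pF_mem h4) σ h5 fun c _ => pF_conj h4 c
  refine ⟨_, _, ?_, h3, T.acts c hc⟩
  rw [← H.mul _ (sF_mem.2 hc) _ (sF_mem.2 hc), sF_mul, symmDiff_self, Finset.bot_eq_empty, sF_empty, H.one]

theorem mn_odd {c d : F8} (hc : ¬ Even c.card) (hd : ¬ Even d.card) : Even (c ∆ d).card := by
  rw [← sF_mem] at hc hd ⊢
  rw [← sF_mul]; exact mul_mem_L0 hc hd

theorem mn_case8 [Finite G] (H : Hyp j n) (H' : Hyp j' n) {J : W →* G} (J0 : Function.Injective J)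
    (J1 : ∀ a ∈ L0, J a = j a) (J3 : ∀ w, Acts j (J w) w) (ht : j' z = J (sF c0)) : j' z = j z := by
  have hm : ∀ c d, J (sF c) * J (sF d) = J (sF (c ∆ d)) := fun c d => by rw [← map_mul, sF_mul]
  have hi : Function.Injective fun c => J (sF c) := fun c d h => sF_inj (J0 h)
  have hu : J (sF Finset.univ) = j z := by rw [sF_univ, J1 z z_mem]
  let A : Set G := Set.range fun c => J (sF c)
  have hA : ∀ m : G, (∀ c, ∃ d, m * J (sF c) * m⁻¹ = J (sF d)) → m ∈ Subgroup.normalizer A :=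
    fun m h => Subgroup.mem_normalizer_fintype (by
      rintro _ ⟨c, rfl⟩
      obtain ⟨d, hd⟩ := h c
      exact ⟨d, hd.symm⟩)
  have hA' : ∀ m ∈ Subgroup.normalizer A, ∀ c, ∃ d, m * J (sF c) * m⁻¹ = J (sF d) := fun m h c => by
    obtain ⟨d, hd⟩ := (Subgroup.mem_set_normalizer_iff.1 h _).1 ⟨c, rfl⟩
    exact ⟨d, hd.symm⟩
  have D : ND (fun c => J (sF c)) (Subgroup.normalizer A) := by
    refine ⟨hm, hi, hA', fun σ hσ => ?_, fun m hm' h => ?_, fun m _ c hc h => ?_⟩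
    · have h1 : ∀ c, J (pF σ) * J (sF c) * (J (pF σ))⁻¹ = J (sF (σ • c)) := fun c => by
        rw [← pF_conj hσ, map_mul, map_mul, map_inv]
      exact ⟨J (pF σ), hA _ fun c => ⟨_, h1 c⟩, h1⟩
    · rw [hu, mul_inv_eq_iff_eq_mul] at h
      obtain ⟨w, hw⟩ := H.act m h
      have h1 : ∀ c : F8, Even c.card → m * J (sF c) * m⁻¹ = J (w * sF c * w⁻¹) := fun c hc => by
        rw [J1 _ (sF_mem.2 hc), J1 _ (th_conj_mem w (sF_mem.2 hc)), hw _ (sF_mem.2 hc)]
      obtain ⟨d, σ, hσ, rfl⟩ := norm_F (g := w) fun c hc => by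
        obtain ⟨d, hd⟩ := hA' m hm' c
        exact ⟨d, J0 ((h1 c hc).symm.trans hd)⟩
      have h2 : ∀ c, sF d * pF σ * sF c * (sF d * pF σ)⁻¹ = sF (σ • c) := fun c => by
        have h3 : sF d * sF (σ • c) = sF (σ • c) * sF d := by rw [sF_mul, sF_mul, symmDiff_comm]
        calc sF d * pF σ * sF c * (sF d * pF σ)⁻¹ = sF d * (pF σ * sF c * (pF σ)⁻¹) * (sF d)⁻¹ := by group
          _ = _ := by rw [pF_conj hσ, h3, mul_inv_cancel_right]
      have h3 : ∀ c : F8, ¬ Even c.card → m * J (sF c) * m⁻¹ =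
          J (sF (σ • (c ∆ {0}))) * (m * J (sF {0}) * m⁻¹) := fun c hc => by
        rw [← h2, ← h1 _ (mn_odd hc (by decide))]
        conv_lhs => rw [← symmDiff_symmDiff_cancel_right ({0} : F8) c, ← hm]
        group
      have h4 : ∀ c : F8, σ • (c ∆ {0}) = (σ • c) ∆ (σ • ({0} : F8)) := fun c =>
        sF_inj (by rw [← pF_conj hσ, ← sF_mul, ← sF_mul, ← pF_conj hσ, ← pF_conj hσ]; group)
      refine ⟨σ, hσ, ?_⟩
      obtain ⟨e, he⟩ := hA' m hm' {0}
      have h5 := hw.conj (J3 (sF {0}))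
      rw [he, h2] at h5
      rcases H.uniq h5 (J3 _) with h6 | h6
      · left
        intro c
        by_cases hc : Even c.card
        · rw [h1 c hc, h2]
        · rw [h3 c hc, he, h6, hm, h4, symmDiff_symmDiff_cancel_right]
      · right
        intro c
        by_cases hc : Even c.card
        · rw [h1 c hc, h2, if_pos hc]
        · rw [h3 c hc, he, h6, if_neg hc, ← map_mul, ← mul_assoc, ← (z_comm _).eq, mul_assoc, sF_mul, h4,
            symmDiff_symmDiff_cancel_right, z_mul_sF]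
    · have hc' : Even c.card := by
        rcases hc with h | h | h
        · rw [h]; decide
        · rw [h]; decide
        · rw [h.card]; decide
      refine mn_caseAB H (H.cj m) hc ?_
      rw [← J1 _ (sF_mem.2 hc'), ← h, hu]; rfl
  have E : EA j' (fun _ => True) fun c => J (sF c) :=
    ⟨mn_codeA, fun c d _ _ => hm c d, fun c d _ _ h => hi h, fun d _ => by
      show _ = _
      rw [ht, hm, hm, symmDiff_comm]⟩
  obtain ⟨θ, T⟩ := H'.theta E
  have θi : Function.Injective θ := fun c d h => T.inj E H' trivial trivial h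
  obtain ⟨l, hl, h1, h2⟩ := fr3 θ (fun c d => T.mul c d trivial trivial) θi
  obtain ⟨d0, hd0⟩ := h1 Finset.univ
  have h3 : ∀ σ ∈ AG, σ • d0 = d0 := fun σ hσ => by
    have hy : l⁻¹ * pF σ * l ∈ L0 := L0.mul_mem (L0.mul_mem (L0.inv_mem hl) (pF_mem hσ)) hl
    have h4 : ∀ c d c', l * θ c * l⁻¹ = sF d → l * θ c' * l⁻¹ = sF (σ • d) →
        j' (l⁻¹ * pF σ * l) * J (sF c) * (j' (l⁻¹ * pF σ * l))⁻¹ = J (sF c') := fun c d c' h5 h6 =>
      T.conj E H' trivial trivial hy (by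
        rw [← pF_conj hσ, ← h5] at h6
        calc l⁻¹ * pF σ * l * θ c * (l⁻¹ * pF σ * l)⁻¹
            = l⁻¹ * (pF σ * (l * θ c * l⁻¹) * (pF σ)⁻¹) * l := by group
          _ = θ c' := by rw [← h6]; group)
    have h5 := D.fix (hA (j' (l⁻¹ * pF σ * l)) fun c => by
      obtain ⟨d, hd⟩ := h1 c
      obtain ⟨c', hc'⟩ := h2 (σ • d)
      exact ⟨c', h4 c d c' hd hc'⟩)
    obtain ⟨c', hc'⟩ := h2 (σ • d0)
    have h6 : c' = Finset.univ := hi ((h4 _ _ _ hd0 hc').symm.trans h5)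
    rw [h6, hd0] at hc'
    exact (sF_inj hc').symm
  have h4 := T.inn Finset.univ trivial
  rw [hu] at h4
  rcases AG_inv h3 with rfl | rfl
  · rw [sF_empty, conj_eq_one_iff] at hd0
    rw [hd0, H'.one] at h4
    exact absurd (h4 L0.one_mem) H.zne
  · rw [sF_univ, mul_inv_eq_iff_eq_mul, (z_comm l).eq, mul_right_inj] at hd0
    rw [hd0] at h4
    exact (h4 z_mem).symm

theorem mn_cjz (H : Hyp j n) {l : W} (hl : l ∈ L0) (h : cj (j l) j' z = j z) : j' z = j z := by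
  have h1 : j l * j' z * (j l)⁻¹ = j z := h
  rw [mul_inv_eq_iff_eq_mul, (H.zkk l hl).eq, mul_right_inj] at h1
  exact h1

theorem mn_caseI [Finite G] (H : Hyp j n) (H' : Hyp j' n) (ho : Out j' → Out j) {a : W} (ha : a ∈ L0)
    (ht : j' z = j a) : j' z = j z := by
  obtain ⟨l, hl, c, h1⟩ := inv_conj (w := a) (H.inj _ (L0.mul_mem ha ha) _ L0.one_mem (by
    rw [H.mul _ ha _ ha, ← ht, H'.zsq, H.one]))
  have h2 : cj (j l) j' z = j (sF c) := by rw [← h1, H.conj hl ha, ← ht]; rfl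
  have hc : Even c.card := sF_mem.1 (h1 ▸ th_conj_mem l ha)
  have H2 := H'.cj (j l)
  refine mn_cjz H hl ?_
  by_cases h3 : c.card = 2 ∨ c.card = 6 ∨ Pl c
  · exact (mn_caseAB H H2 h3 h2).elim
  have h4 : c.card ≤ 8 := by simpa using Finset.card_le_univ c
  have h5 : c.card = 0 ∨ c.card = 4 ∨ c.card = 8 := by
    obtain ⟨r, hr⟩ := hc
    omega
  rcases h5 with h5 | h5 | h5
  · rw [Finset.card_eq_zero.1 h5, sF_empty, H.one] at h2
    exact absurd h2 H2.zne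
  · obtain ⟨σ, hσ, h6⟩ := AG_trans (c := c) (d := {0, 1, 2, 4}) (by rw [h5]; decide)
      (iff_of_false (fun h => h3 (Or.inr (Or.inr h))) (by decide))
    have h7 := mn_move H hc h2 hσ
    rw [h6] at h7
    obtain ⟨x, u, x2, hu, hx⟩ := ho (mn_caseF H (H2.cj _) h7).cj'.cj'
    obtain ⟨J, J0, J1, -, J3⟩ := H.ext hx hu x2
    exact mn_case8 H H2 J0 J1 J3 (h2.trans (J1 _ (sF_mem.2 hc)).symm)
  · rw [h2, (Finset.card_eq_iff_eq_univ c).1 (by simpa using h5), sF_univ]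

theorem mn_split (H : Hyp j n) {x : G} {a : W} (h : Acts j x a) (ha : a ∈ L0) :
    ∃ k, KK j k ∧ x = k * j a := ⟨_, H.inner h ha, by group⟩

theorem mn_pow (H : Hyp j n) {k : G} (hk : KK j k) {a : W} (ha : a ∈ L0) (m : ℕ) :
    (k * j a) ^ m = k ^ m * j (a ^ m) := by rw [(hk a ha).mul_pow, H.pow ha]

theorem mn_part (H : Hyp j n) {k : G} (hk : KK j k) {a : W} (ha : a ∈ L0) (h : k * j a = 1) :
    (k = 1 ∧ a = 1) ∨ (k = j z ∧ a = z) := by
  have h1 := hk.acts.mul (H.acts ha)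
  rw [h, one_mul] at h1
  rcases H.uniq Acts.one h1 with rfl | h2
  · rw [H.one, mul_one] at h; exact Or.inl ⟨h, rfl⟩
  · rw [mul_one] at h2
    subst h2
    exact Or.inr ⟨mul_right_cancel (h.trans H.zsq.symm), rfl⟩

theorem mn_fin (H : Hyp j n) {k x : G} (hk : KK j k) (h2 : k * k = 1) {a : W} (ha : a ∈ L0)
    (h : x = k * j a) : ∃ b ∈ L0, x = j b := by
  rcases H.inv k hk h2 with rfl | rfl
  · exact ⟨a, ha, by rw [h, one_mul]⟩
  · exact ⟨z * a, th_z_mul_mem.2 ha, by rw [h, H.mul _ z_mem _ ha]⟩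

theorem mn_range (H : Hyp j n) (H' : Hyp j' n) {k : G} (hk : KK j k) {a : W} (ha : a ∈ L0)
    (ht : j' z = k * j a) (h2 : k * k = j z) : ∃ b ∈ L0, j z = j' b := by
  have h4 : k ^ 2 ^ 2 = 1 := by rw [show 2 ^ 2 = 2 * 2 from rfl, pow_mul, sq, sq, h2, H.zsq]
  obtain ⟨m, rfl⟩ : ∃ m, n = m + 1 := by
    refine Nat.exists_eq_succ_of_ne_zero ?_
    rintro rfl
    have := H.exp k hk _ h4
    rw [zero_add, pow_one, sq, h2] at this
    exact H.zne this
  obtain ⟨r, hr, h5, h6⟩ := H.gen k hk _ h4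
  obtain ⟨w, hw⟩ := H'.act r (by rw [ht]; exact h5.mul_right (hr a ha))
  by_cases h7 : w ∈ L0
  · obtain ⟨k', hk', h8⟩ := mn_split H' hw h7
    have h9 : r ^ 2 ^ (m + 1 + 1) = 1 := by rw [pow_succ, pow_mul, h6, sq, H.zsq]
    rw [h8, mn_pow H' hk' h7] at h9 h6
    have h10 : k' ^ 2 ^ (m + 1 + 1 + 1) = 1 := by
      rw [pow_succ, pow_mul, sq]
      rcases mn_part H' (hk'.pow _) (L0.pow_mem h7 _) h9 with h | h <;> rw [h.1]
      · exact one_mul 1
      · exact H'.zsq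
    have h11 := H'.exp k' hk' _ h10
    rw [pow_succ, pow_mul, sq] at h11
    exact mn_fin H' (hk'.pow _) h11 (L0.pow_mem h7 _) h6.symm
  · have h7' := mul_mem_L0 h7 h7
    obtain ⟨k', hk', h8⟩ := mn_split H' (hw.mul hw) h7'
    have h9 : (r * r) ^ 2 ^ (m + 1) = 1 := by
      rw [← sq, ← pow_mul, mul_comm, pow_mul, h6, sq, H.zsq]
    have h10 : (r * r) ^ 2 ^ m = j z := by rw [← sq, ← pow_mul, ← pow_succ', h6]
    rw [h8, mn_pow H' hk' h7'] at h9 h10
    have h11 := ((mn_part H' (hk'.pow _) (L0.pow_mem h7' _) h9).resolve_right fun h => by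
      have h12 := h.2
      rw [← sq, ← pow_mul] at h12
      exact pow_ne_z h7 _ h12).1
    rw [pow_succ, pow_mul, sq] at h11
    exact mn_fin H' (hk'.pow _) h11 (L0.pow_mem h7' _) h10.symm

theorem mn_isolated [Finite G] (H : Hyp j n) : IsIsolated (j z) := by
  intro g hg
  have H' := H.cj g
  show cj g j z = j z
  obtain ⟨w, hw⟩ := H.act (cj g j z) hg.symm
  by_cases h1 : w ∈ L0
  · obtain ⟨k, hk, h2⟩ := mn_split H hw h1
    have h3 := H'.zsq
    rw [h2, ← sq, mn_pow H hk h1] at h3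
    rcases mn_part H (hk.pow _) (L0.pow_mem h1 _) h3 with h4 | h4
    · obtain ⟨b, hb, h5⟩ := mn_fin H hk (by rw [← sq, h4.1]) h1 h2
      exact mn_caseI H H' Out.cj' hb h5
    · obtain ⟨b, hb, h5⟩ := mn_range H H' hk h1 h2 (by rw [← sq, h4.1])
      exact (mn_caseI H' H (fun h => Out.cj' (g := g⁻¹) (by rwa [cj_cj])) hb h5).symm
  · obtain ⟨J, J0, J1, J2, J3⟩ := H.ext hw h1 H'.zsq
    obtain ⟨l, hl, c, h2⟩ := inv_conj (H.out_sq hw h1 H'.zsq)
    refine mn_cjz H hl (mn_case8 H (H'.cj _) J0 J1 J3 (c0 := c) ?_)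
    rw [← h2, map_mul, map_mul, map_inv, J2, J1 l hl]; rfl

open Classical in
/-- extension by `1` -/
noncomputable def jj (ι : L0 →* G) (w : W) : G := if h : w ∈ L0 then ι ⟨w, h⟩ else 1

theorem jj_eq (ι : L0 →* G) {w : W} (h : w ∈ L0) : jj ι w = ι ⟨w, h⟩ := dif_pos h

theorem mn_kk {ι : L0 →* G} {k : G} : KK (jj ι) k ↔ k ∈ Subgroup.centralizer (ι.range : Set G) := by
  rw [Subgroup.mem_centralizer_iff]
  exact ⟨by rintro h _ ⟨y, rfl⟩; exact (jj_eq ι y.2 ▸ h y y.2).symm.eq,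
    fun h y hy => by rw [jj_eq ι hy]; exact (h _ ⟨_, rfl⟩).symm⟩

theorem mn_hyp [Finite G] {ι : L0 →* G} (hι : Function.Injective ι) (hA : IsStandardSubgroup ι.range)
    (hR : ∀ R : Sylow 2 (Subgroup.centralizer (ι.range : Set G)),
      IsCyclic (R : Subgroup (Subgroup.centralizer (ι.range : Set G)))) : ∃ n, Hyp (jj ι) n := by
  have : Fact (Nat.Prime 2) := ⟨Nat.prime_two⟩
  have hz : jj ι z = ι zz := jj_eq ι z_mem
  have z2 : ι zz * ι zz = 1 := by rw [← map_mul, show zz * zz = 1 from Subtype.ext z_mul_z, map_one]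
  have z1 : ι zz ≠ 1 := fun h => z_ne_one (congrArg Subtype.val (hι (h.trans (map_one ι).symm)))
  generalize hK : Subgroup.centralizer (ι.range : Set G) = K at hR
  have hk : ∀ {k}, KK (jj ι) k ↔ k ∈ K := hK ▸ mn_kk
  have zK : ι zz ∈ K := hk.1 fun y hy => by
    rw [jj_eq ι hy]
    exact (show Commute zz ⟨y, hy⟩ from Subtype.ext (z_comm y).eq).map ι
  have zc : ∀ k ∈ K, Commute k (ι zz) := fun k h => hz ▸ hk.2 h z z_mem
  have hS : ∀ P, IsSylowIn 2 P K → IsCyclic P ∧ ι zz ∈ P := by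
    intro P hP
    obtain ⟨S, rfl⟩ := hP.exists_sylow
    have := hR S
    refine ⟨isCyclic_of_surjective _ ((S : Subgroup K).equivMapOfInjective _
      K.subtype_injective).surjective, ?_⟩
    refine hP.le_of_normalizes (Dot0.isPGroup_zpowers' (m := 1) (by rw [pow_one, sq, z2]))
      (Subgroup.zpowers_le.2 zK) (fun x hx => Subgroup.mem_normalizer_fintype ?_)
      (Subgroup.mem_zpowers _)
    rintro _ ⟨i, rfl⟩
    rw [((zc x (hP.le hx)).zpow_right i).eq, mul_inv_cancel_right]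
    exact ⟨i, rfl⟩
  obtain ⟨n, hn⟩ : ∃ n, (Nat.card K).factorization 2 = n + 1 := by
    refine Nat.exists_eq_succ_of_ne_zero (Nat.pos_iff_ne_zero.1 ?_)
    exact Nat.prime_two.factorization_pos_of_dvd Nat.card_pos.ne' (even_iff_two_dvd.1 (hK ▸ hA.2.1.1))
  have hinv : ∀ k ∈ K, k * k = 1 → k = 1 ∨ k = ι zz := by
    intro k hk h
    obtain ⟨P, hP, h1⟩ := exists_isSylowIn_ge (Dot0.isPGroup_zpowers' (m := 1) (by rw [pow_one, sq, h]))
      (Subgroup.zpowers_le.2 hk)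
    exact Dot0.cyc_inv (hS P hP).1 (h1 (Subgroup.mem_zpowers k)) (hS P hP).2 z1 h z2
  refine ⟨n, fun a ha b hb => ?_, fun a ha b hb h => ?_, fun x hx => ?_, fun k h => hz ▸ hinv k (hk.1 h),
    fun k h0 m h => ?_, fun k h0 m h => ?_, fun P hP h2 a ha b hb => ?_⟩
  · rw [jj_eq ι ha, jj_eq ι hb, jj_eq ι (L0.mul_mem ha hb), ← map_mul]; rfl
  · rw [jj_eq ι ha, jj_eq ι hb] at h
    exact congrArg Subtype.val (hι h)
  · rw [hz] at hx
    have h1 : x ∈ Subgroup.normalizer (ι.range : Set G) := by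
      rw [hA.2.2.2]
      by_contra h1
      have h2 := hA.2.1.2 x h1
      rw [hK] at h2
      have h3 : ι zz ∈ K ⊓ K.map (MulAut.conj x).toMonoidHom :=
        ⟨zK, ι zz, zK, by
          show x * ι zz * x⁻¹ = ι zz
          rw [hx.eq, mul_inv_cancel_right]⟩
      have h4 := Subgroup.orderOf_dvd_natCard _ h3
      rw [orderOf_eq_prime (by rw [sq, z2]) z1] at h4
      exact (Nat.not_even_iff_odd.2 h2) (even_iff_two_dvd.2 h4)
    let e : L0 ≃* ι.range := MonoidHom.ofInjective hι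
    obtain ⟨w, hw⟩ := aut_W ((e.trans (ι.range.normalizerMonoidHom ⟨x, h1⟩)).trans e.symm)
    refine ⟨w, fun y hy => ?_⟩
    rw [jj_eq ι hy, jj_eq ι (th_conj_mem w hy), show (⟨w * y * w⁻¹, th_conj_mem w hy⟩ : L0) =
      ((e.trans (ι.range.normalizerMonoidHom ⟨x, h1⟩)).trans e.symm) ⟨y, hy⟩ from
        Subtype.ext (hw ⟨y, hy⟩).symm]
    exact (congrArg Subtype.val
      (e.apply_symm_apply (ι.range.normalizerMonoidHom ⟨x, h1⟩ (e ⟨y, hy⟩)))).symm
  · obtain ⟨P, hP, h1⟩ := exists_isSylowIn_ge (Dot0.isPGroup_zpowers' h) (Subgroup.zpowers_le.2 (hk.1 h0))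
    rw [← hn, ← hP.card_eq]
    exact congrArg Subtype.val (pow_card_eq_one' (x := (⟨k, h1 (Subgroup.mem_zpowers k)⟩ : P)))
  · obtain ⟨P, hP, h1⟩ := exists_isSylowIn_ge (Dot0.isPGroup_zpowers' h) (Subgroup.zpowers_le.2 (hk.1 h0))
    obtain ⟨r, hr⟩ := (hS P hP).1.exists_generator
    have h2 : orderOf r = 2 ^ (n + 1) := by
      rw [orderOf_eq_card_of_forall_mem_zpowers hr, hP.card_eq, hn]
    obtain ⟨i, hi⟩ := hr ⟨k, h1 (Subgroup.mem_zpowers k)⟩
    have hi' : r.1 ^ i = k := congrArg Subtype.val hi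
    refine ⟨r.1, hk.2 (hP.le r.2), hi' ▸ Commute.self_zpow _ _, ?_⟩
    rw [hz]
    refine (hinv _ (K.pow_mem (hP.le r.2) _) ?_).resolve_left fun h3 => ?_
    · rw [← sq, ← pow_mul, ← pow_succ, ← h2]
      exact congrArg Subtype.val (pow_orderOf_eq_one r)
    · have h4 : orderOf r ∣ 2 ^ n := orderOf_dvd_of_pow_eq_one (Subtype.ext h3)
      rw [h2, Nat.pow_dvd_pow_iff_le_right (by norm_num)] at h4
      omega
  · obtain ⟨Q, hQ, h1⟩ := exists_isSylowIn_ge h2 (fun k h => hk.1 (hP k h) : P ≤ K)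
    have := (hS Q hQ).1
    exact congrArg Subtype.val (mul_comm' (⟨a, h1 ha⟩ : Q) ⟨b, h1 hb⟩)

theorem standard_w8 [Finite G] (hO : oddCore G = ⊥) (A : Subgroup G) (hA : IsStandardSubgroup A)
    {F : Type*} [Field F] [Fintype F] (hF : Fintype.card F = 2)
    (hZ : Nat.card (Subgroup.center A) = 2)
    (hX : Nonempty ((A ⧸ Subgroup.center A) ≃* POmega F (quadFormPlus 4 F)))
    (hR : ∀ R : Sylow 2 (Subgroup.centralizer (A : Set G)),
      IsCyclic (R : Subgroup (Subgroup.centralizer (A : Set G)))) : A.Normal := by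
  obtain ⟨e0⟩ := hX
  obtain ⟨e⟩ := ident hA.1 hZ hF e0
  clear e0 hZ
  obtain ⟨ι, hι, rfl⟩ : ∃ ι : L0 →* G, Function.Injective ι ∧ ι.range = A := by
    refine ⟨A.subtype.comp e.toMonoidHom, A.subtype_injective.comp e.injective, ?_⟩
    rw [MonoidHom.range_comp, MonoidHom.range_eq_top.2 e.surjective, ← MonoidHom.range_eq_map,
      Subgroup.range_subtype]
  obtain ⟨n, H⟩ := mn_hyp hι hA hR
  have h1 := zstar_center hO (by rw [sq, H.zsq]) (mn_isolated H)
  refine ⟨?_⟩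
  rintro _ ⟨y, rfl⟩ g
  obtain ⟨w, hw⟩ := H.act g (Subgroup.mem_center_iff.1 h1 g)
  refine ⟨⟨_, th_conj_mem w y.2⟩, ?_⟩
  rw [← jj_eq ι, ← hw y y.2, jj_eq ι y.2]

end Cfsg.Lib.W8
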