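import Cfsg.Agent.Lib.W8.Chain
import Cfsg.Agent.Lib.W8.RedData

/-! Reduction modulo 2: `L0 / ±1 ≅ PΩ₈⁺(2)`. -/

set_option autoImplicit false

namespace Cfsg.Lib.W8

open Matrix
open scoped Pointwise symmDiff commutatorElement

/-- the lattice vector with coordinates `n` -/
def rdv (n : I8 → ℤ) : V := rdB *ᵥ fun j => (n j : ℚ)

theorem rdv_add (n m : I8 → ℤ) : rdv (n + m) = rdv n + rdv m := by
  rw [rdv, rdv, rdv, ← mulVec_add]; congr 1; ext j; simp

theorem rdv_neg (n : I8 → ℤ) : rdv (-n) = -rdv n := by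
  rw [rdv, rdv, ← mulVec_neg]; congr 1

theorem rdv_norm (n : I8 → ℤ) : rdv n ⬝ᵥ rdv n = 2 * (rdq n : ℚ) := rd_norm n

theorem rdv_inj {n m : I8 → ℤ} (e : rdv n = rdv m) : n = m := by
  have := congrArg (fun x => rdBi *ᵥ x) e
  simp only [rdv, mulVec_mulVec, rd_BiB, one_mulVec] at this
  ext j
  exact_mod_cast congrFun this j

theorem rdv_dot (n m : I8 → ℤ) : rdv n ⬝ᵥ rdv m = ((rdq (n + m) - rdq n - rdq m : ℤ) : ℚ) := by
  have h1 := rdv_norm (n + m)
  rw [rdv_add, add_dotProduct, dotProduct_add, dotProduct_add, rdv_norm, rdv_norm,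
    dotProduct_comm (rdv m) (rdv n)] at h1
  push_cast
  linarith

theorem rd_den {x : V} (hx : IsRoot x) (k : I8) : ((rdBi *ᵥ x) k).den = 1 := by
  rcases hx with ⟨i, j, hij, hi, hj, h0⟩ | ⟨h1, h2⟩
  · have e : x = fun l => if l = i then (if decide (x i = 1) then 1 else -1) else
        if l = j then (if decide (x j = 1) then 1 else -1) else 0 := by
      ext l
      by_cases e1 : l = i
      · subst e1
        rcases hi with h | h <;> simp [h]
      · by_cases e2 : l = j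
        · subst e2
          rcases hj with h | h <;> simp [h, e1]
        · simp [e1, e2, h0 l e1 e2]
    rw [e]
    exact rd_int1 i j hij _ _ k
  · have hb : ∀ i, ∃ b, x i = rdh b := fun i => by
      rcases h1 i with h | h
      · exact ⟨true, h⟩
      · exact ⟨false, h⟩
    choose b hb using hb
    have e : x = ![rdh (b 0), rdh (b 1), rdh (b 2), rdh (b 3), rdh (b 4), rdh (b 5), rdh (b 6), rdh (b 7)] := by
      ext l; fin_cases l <;> simp [hb]
    rw [e] at h2 ⊢
    exact rd_int2 _ _ _ _ _ _ _ _ h2 k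

theorem rd_eq {x : V} (hx : IsRoot x) : x = rdv fun k => ((rdBi *ᵥ x) k).num := by
  have : (fun k => ((((rdBi *ᵥ x) k).num : ℤ) : ℚ)) = rdBi *ᵥ x := by
    ext k; exact Rat.coe_int_num_of_den_eq_one (rd_den hx k)
  rw [rdv, this, mulVec_mulVec, rd_BBi, one_mulVec]

theorem rd_same {n m : I8 → ℤ} (hn : rdv n ⬝ᵥ rdv n = 2) (hm : rdv m ⬝ᵥ rdv m = 2)
    (e : ∀ k, (n k : ZMod 2) = m k) : rdv n = rdv m ∨ rdv n = -rdv m := by
  have hl : ∀ k, ∃ l : ℤ, n k = m k + (l + l) := fun k => by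
    obtain ⟨c, hc⟩ := (ZMod.intCast_eq_intCast_iff_dvd_sub (m k) (n k) 2).1 (e k).symm
    exact ⟨c, by push_cast at hc; linarith⟩
  choose l hl using hl
  have e1 : n = m + (l + l) := funext hl
  have e2 : rdv n - rdv m = rdv l + rdv l := by rw [e1, rdv_add, rdv_add]; abel
  have h1 : (rdv n - rdv m) ⬝ᵥ (rdv n - rdv m) = 8 * (rdq l : ℚ) := by
    rw [e2, add_dotProduct, dotProduct_add, rdv_norm]; ring
  have h2 : (rdv n + rdv m) ⬝ᵥ (rdv n + rdv m) = 8 - 8 * (rdq l : ℚ) := by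
    rw [← h1, add_dotProduct, dotProduct_add, dotProduct_add, sub_dotProduct, dotProduct_sub, dotProduct_sub, hn, hm]
    ring
  have p1 : 0 ≤ (rdv n - rdv m) ⬝ᵥ (rdv n - rdv m) := Finset.sum_nonneg fun i _ => mul_self_nonneg _
  have p2 : 0 ≤ (rdv n + rdv m) ⬝ᵥ (rdv n + rdv m) := Finset.sum_nonneg fun i _ => mul_self_nonneg _
  have q1 : 0 ≤ rdq l := by
    have : (0 : ℚ) ≤ rdq l := by linarith
    exact_mod_cast this
  have q2 : rdq l ≤ 1 := by
    have : (rdq l : ℚ) ≤ 1 := by linarith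
    exact_mod_cast this
  rcases (by omega : rdq l = 0 ∨ rdq l = 1) with h | h
  · rw [h] at h1
    exact Or.inl (sub_eq_zero.1 (dotProduct_self_eq_zero.1 (by rw [h1]; simp)))
  · rw [h] at h2
    exact Or.inr (eq_neg_of_add_eq_zero_left (dotProduct_self_eq_zero.1 (by rw [h2]; simp)))

theorem rd_q {F : Type*} [Field F] (h2 : (2 : F) = 0) (n : I8 → ℤ) :
    ((rdq n : ℤ) : F) = Cfsg.quadFormPlus 4 F fun j => (n j : F) := by
  simp only [rdq, Cfsg.quadFormPlus]
  push_cast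
  rw [h2, zero_mul, add_zero]

theorem rd_nonsing {a : I8 → ZMod 2} (h : ∑ i : Fin 4, a (.inl i) * a (.inr i) = 1) :
    ∃ n, IsRoot (rdv n) ∧ ∀ k, (n k : ZMod 2) = a k := by
  rw [Fin.sum_univ_four] at h
  obtain ⟨h1, h2⟩ := rd_tab _ _ _ _ _ _ _ _ h
  refine ⟨_, rd_eq h1 ▸ h1, fun k => ?_⟩
  rw [h2 k]
  rcases k with k | k <;> fin_cases k <;> rfl

theorem rd_root {n : I8 → ℤ} (h : rdv n ⬝ᵥ rdv n = 2) : IsRoot (rdv n) := by
  have e : rdq n = 1 := by
    rw [rdv_norm] at h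
    have : (rdq n : ℚ) = 1 := by linarith
    exact_mod_cast this
  have e2 := rd_q (F := ZMod 2) rfl n
  rw [e] at e2
  obtain ⟨m, hm, hc⟩ := rd_nonsing (a := fun j => (n j : ZMod 2)) (by simpa [Cfsg.quadFormPlus] using e2.symm)
  rcases rd_same h (root_dot hm) (fun k => (hc k).symm) with e3 | e3 <;> rw [e3]
  · exact hm
  · exact root_neg hm

theorem rdc_mul {l m n : Type} [Fintype m] (A : Matrix l m ℤ) (B : Matrix m n ℤ) : rdc (A * B) = rdc A * rdc B :=
  Matrix.map_mul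

theorem rdc_inj {Z Z' : Matrix I8 I8 ℤ} (e : rdB * rdc Z = rdB * rdc Z') : Z = Z' := by
  have := congrArg (fun x => rdBi * x) e
  simp only [← Matrix.mul_assoc, rd_BiB, Matrix.one_mul] at this
  ext i j
  have := congrFun (congrFun this i) j
  simp only [rdc, map_apply, eq_intCast] at this
  exact_mod_cast this

theorem rd_col (N : Matrix I8 (Fin 8) ℤ) (i k : Fin 8) : (rdB * rdc N) k i = rdv (fun j => N j i) k := by
  simp [rdv, rdc, Matrix.mul_apply, mulVec, dotProduct]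

theorem rd_colP (A : M8) (i k : Fin 8) : (A * rdP) k i = (A *ᵥ al i) k := by
  simp [rdP, Matrix.mul_apply, mulVec, dotProduct]

theorem rd_al_eq (i : Fin 8) : al i = rdv fun j => rdU j i := by
  ext k
  rw [← rd_col, rd_BU]; rfl

theorem rd_exZ (g : W) : ∃ Z : Matrix I8 I8 ℤ, rdB * rdc Z = mat g * rdB := by
  have h : ∀ i, ∃ n, mat g *ᵥ al i = rdv n := fun i => ⟨_, rd_eq (root_mat g (al_root i))⟩
  choose n hn using h
  have e : rdB * rdc (Matrix.of fun k i => n i k) = mat g * rdP := by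
    ext k i
    rw [rd_col, rd_colP, hn]; rfl
  exact ⟨(Matrix.of fun k i => n i k) * rdU', by
    rw [rdc_mul, ← Matrix.mul_assoc, e, Matrix.mul_assoc, rd_PU]⟩

/-- the integral matrix -/
noncomputable def rdZ : W →* Matrix I8 I8 ℤ where
  toFun g := (rd_exZ g).choose
  map_one' := rdc_inj (by
    rw [(rd_exZ 1).choose_spec, mat_one, Matrix.one_mul, rdc, Matrix.map_one _ (map_zero _) (map_one _),
      Matrix.mul_one])
  map_mul' g h := rdc_inj (by
    rw [(rd_exZ (g * h)).choose_spec, rdc_mul, ← Matrix.mul_assoc, (rd_exZ g).choose_spec, Matrix.mul_assoc,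
      (rd_exZ h).choose_spec, mat_mul, Matrix.mul_assoc])

theorem rdZ_spec (g : W) : rdB * rdc (rdZ g) = mat g * rdB := (rd_exZ g).choose_spec

theorem rd_cast {F : Type*} [CommRing F] {m : Type} (Z : Matrix m I8 ℤ) (n : I8 → ℤ) :
    (fun j => (((Z *ᵥ n) j : ℤ) : F)) = Z.map (Int.castRingHom F) *ᵥ fun j => (n j : F) := by
  ext j
  exact RingHom.map_mulVec (Int.castRingHom F) Z n j

theorem rdZ_v (g : W) (n : I8 → ℤ) : mat g *ᵥ rdv n = rdv (rdZ g *ᵥ n) := by
  rw [rdv, rdv, rd_cast, mulVec_mulVec, mulVec_mulVec, ← rdZ_spec]; rfl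

theorem rdZ_q (g : W) (n : I8 → ℤ) : rdq (rdZ g *ᵥ n) = rdq n := by
  have := dot_mat g (rdv n) (rdv n)
  rw [rdZ_v, rdv_norm, rdv_norm] at this
  have : (rdq (rdZ g *ᵥ n) : ℚ) = rdq n := by linarith
  exact_mod_cast this

set_option synthInstance.maxSize 2000 in
theorem rd_adj : ∀ i j : Fin 8, cox i j = 3 → (i = 0 ∧ j = 1) ∨ (i = 1 ∧ j = 2) ∨ (i = 2 ∧ j = 3) ∨ (i = 3 ∧ j = 4) ∨
    (i = 4 ∧ j = 5) ∨ (i = 5 ∧ j = 6) ∨ (i = 4 ∧ j = 7) ∨ (j = 0 ∧ i = 1) ∨ (j = 1 ∧ i = 2) ∨ (j = 2 ∧ i = 3) ∨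
    (j = 3 ∧ i = 4) ∨ (j = 4 ∧ i = 5) ∨ (j = 5 ∧ i = 6) ∨ (j = 4 ∧ i = 7) := by decide

theorem rd_flip {x y m : I8 → ℤ} (hx : x = y ∨ x = -y) (h : rdv y ⬝ᵥ rdv m = 1 ∨ rdv y ⬝ᵥ rdv m = -1) :
    ∃ m', (m' = m ∨ m' = -m) ∧ rdv x ⬝ᵥ rdv m' = -1 := by
  rcases hx with rfl | rfl <;> rcases h with h | h
  · exact ⟨-m, Or.inr rfl, by rw [rdv_neg, dotProduct_neg, h]⟩
  · exact ⟨m, Or.inl rfl, h⟩
  · exact ⟨m, Or.inl rfl, by rw [rdv_neg, neg_dotProduct, h]⟩
  · exact ⟨-m, Or.inr rfl, by rw [rdv_neg, rdv_neg, neg_dotProduct_neg, h]⟩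

theorem rd_signs {m : Fin 8 → I8 → ℤ} (h0 : ∀ i, rdv (m i) ⬝ᵥ rdv (m i) = 2)
    (h3 : ∀ i j, cox i j = 3 → rdv (m i) ⬝ᵥ rdv (m j) = 1 ∨ rdv (m i) ⬝ᵥ rdv (m j) = -1)
    (h2 : ∀ i j, i ≠ j → cox i j ≠ 3 → rdv (m i) ⬝ᵥ rdv (m j) = 0) :
    ∃ m' : Fin 8 → I8 → ℤ, (∀ i, m' i = m i ∨ m' i = -m i) ∧ ∀ i j, rdv (m' i) ⬝ᵥ rdv (m' j) = al i ⬝ᵥ al j := by
  obtain ⟨m1, s1, d1⟩ := rd_flip (Or.inl rfl) (h3 0 1 rfl)
  obtain ⟨m2, s2, d2⟩ := rd_flip s1 (h3 1 2 rfl)
  obtain ⟨m3, s3, d3⟩ := rd_flip s2 (h3 2 3 rfl)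
  obtain ⟨m4, s4, d4⟩ := rd_flip s3 (h3 3 4 rfl)
  obtain ⟨m5, s5, d5⟩ := rd_flip s4 (h3 4 5 rfl)
  obtain ⟨m6, s6, d6⟩ := rd_flip s5 (h3 5 6 rfl)
  obtain ⟨m7, s7, d7⟩ := rd_flip s4 (h3 4 7 rfl)
  have hs : ∀ i, (![m 0, m1, m2, m3, m4, m5, m6, m7] : Fin 8 → I8 → ℤ) i = m i ∨
      (![m 0, m1, m2, m3, m4, m5, m6, m7] : Fin 8 → I8 → ℤ) i = -m i := fun i => by
    fin_cases i
    exacts [Or.inl rfl, s1, s2, s3, s4, s5, s6, s7]
  refine ⟨_, hs, fun i j => ?_⟩
  rw [rd_al]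
  split_ifs with e1 e2
  · subst e1
    rcases hs i with e | e <;> rw [e]
    · exact h0 i
    · rw [rdv_neg, neg_dotProduct_neg]; exact h0 i
  · rcases rd_adj i j e2 with ⟨rfl, rfl⟩ | ⟨rfl, rfl⟩ | ⟨rfl, rfl⟩ | ⟨rfl, rfl⟩ | ⟨rfl, rfl⟩ | ⟨rfl, rfl⟩ | ⟨rfl, rfl⟩ |
      ⟨rfl, rfl⟩ | ⟨rfl, rfl⟩ | ⟨rfl, rfl⟩ | ⟨rfl, rfl⟩ | ⟨rfl, rfl⟩ | ⟨rfl, rfl⟩ | ⟨rfl, rfl⟩
    exacts [d1, d2, d3, d4, d5, d6, d7, (dotProduct_comm _ _).trans d1, (dotProduct_comm _ _).trans d2,
      (dotProduct_comm _ _).trans d3, (dotProduct_comm _ _).trans d4, (dotProduct_comm _ _).trans d5,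
      (dotProduct_comm _ _).trans d6, (dotProduct_comm _ _).trans d7]
  · have := h2 i j e1 e2
    rcases hs i with e | e <;> rcases hs j with e' | e' <;> simp [e, e', rdv_neg, this]

/-- a system of lattice vectors with the Gram matrix of the simple roots is the image of the simple roots -/
theorem rd_exists {m : Fin 8 → I8 → ℤ} (h : ∀ i j, rdv (m i) ⬝ᵥ rdv (m j) = al i ⬝ᵥ al j) :
    ∃ g : W, ∀ i, mat g *ᵥ al i = rdv (m i) := by
  let N : Matrix I8 (Fin 8) ℤ := Matrix.of fun k i => m i k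
  let A : M8 := rdB * rdc N * rdPi
  have hA : A * rdP = rdB * rdc N := by rw [Matrix.mul_assoc, rd_PiP, Matrix.mul_one]
  have hg : (rdB * rdc N)ᵀ * (rdB * rdc N) = rdPᵀ * rdP := by
    ext i j
    have := h i j
    simp only [Matrix.mul_apply (M := _ᵀ), transpose_apply, rd_col]
    exact this
  have h1 : Aᵀ * A = 1 := by
    calc Aᵀ * A = rdPiᵀ * ((rdB * rdc N)ᵀ * (rdB * rdc N)) * rdPi := by
          simp only [A, transpose_mul, Matrix.mul_assoc]
      _ = (rdP * rdPi)ᵀ * (rdP * rdPi) := by rw [hg]; simp only [transpose_mul, Matrix.mul_assoc]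
      _ = 1 := by rw [rd_PPi]; simp
  have hdot : ∀ x : V, (A *ᵥ x) ⬝ᵥ (A *ᵥ x) = x ⬝ᵥ x := fun x => by
    rw [dotProduct_mulVec, vecMul_mulVec, h1, vecMul_one]
  have hf : ∀ x, IsRoot x → IsRoot (A *ᵥ x) := fun x hx => by
    have hd := hdot x
    rw [root_dot hx] at hd
    obtain ⟨n, rfl⟩ : ∃ n, x = rdv n := ⟨_, rd_eq hx⟩
    have e : A *ᵥ rdv n = rdv ((N * rdU') *ᵥ n) := by
      rw [rdv, rdv, rd_cast, mulVec_mulVec, mulVec_mulVec, ← rd_PU, ← Matrix.mul_assoc, hA, rd_PU, Matrix.mul_assoc,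
        ← rdc_mul]; rfl
    rw [e] at hd ⊢
    exact rd_root hd
  have hinj : Function.Injective fun x : V => A *ᵥ x := fun x y e => by
    have := congrArg (fun v => Aᵀ *ᵥ v) e
    simpa only [mulVec_mulVec, h1, one_mulVec] using this
  have hG : Good A := ⟨h1, fun x => ⟨hf x, fun hx => by
    have hb := (finite_roots.injOn_iff_bijOn_of_mapsTo (f := fun x : V => A *ᵥ x) hf).1 hinj.injOn
    obtain ⟨y, hy, e⟩ := hb.surjOn hx
    exact hinj e ▸ hy⟩⟩
  refine ⟨mk A, fun i => ?_⟩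
  ext k
  rw [mat_mk hG, ← rd_colP, hA, rd_col]; rfl

/-- Let `P` be the matrix with columns `al i`; `P⁻¹ * mat g * P` is integral (roots are integral combinations of the
simple roots) and preserves the Cartan form; reduce mod 2. -/
theorem red {F : Type*} [Field F] [Fintype F] (hF : Fintype.card F = 2) :
    ∃ f : W →* Cfsg.isometryGroup F (Cfsg.quadFormPlus 4 F), Function.Surjective f ∧
      ∀ g, f g = 1 ↔ g = 1 ∨ g = z := by
  classical
  let e : ZMod 2 ≃+* F := ZMod.ringEquivOfPrime F Nat.prime_two hF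
  have h2 : (2 : F) = 0 := by rw [← map_ofNat e 2]; exact (congrArg e (show (2 : ZMod 2) = 0 from rfl)).trans (map_zero e)
  have hc : ∀ n : ℤ, (n : F) = e n := fun n => (map_intCast e n).symm
  have hcj : ∀ n m : ℤ, (n : F) = m → (n : ZMod 2) = m := fun n m h => e.injective (by rwa [← hc, ← hc])
  have hsur : ∀ u : I8 → F, ∃ n : I8 → ℤ, u = fun j => (n j : F) := fun u => by
    have : ∀ j, ∃ n : ℤ, u j = n := fun j => by
      obtain ⟨n, hn⟩ := ZMod.intCast_surjective (e.symm (u j))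
      exact ⟨n, by rw [hc, hn, e.apply_symm_apply]⟩
    choose n hn using this
    exact ⟨n, funext hn⟩
  have hneg : ∀ n : I8 → ℤ, (fun j => (((-n) j : ℤ) : F)) = fun j => (n j : F) := fun n => by
    ext j
    simp only [Pi.neg_apply, Int.cast_neg]
    linear_combination (-(n j : F)) * h2
  let ψ : W →* Matrix I8 I8 F := (RingHom.mapMatrix (Int.castRingHom F)).toMonoidHom.comp rdZ
  have hψ : ∀ g n, ψ g *ᵥ (fun j => ((n j : ℤ) : F)) = fun j => (((rdZ g *ᵥ n) j : ℤ) : F) :=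
    fun g n => (rd_cast (rdZ g) n).symm
  let f : W →* Cfsg.isometryGroup F (Cfsg.quadFormPlus 4 F) :=
    (MonoidHom.toHomUnits ψ).codRestrict _ fun g u _ => by
      obtain ⟨n, rfl⟩ := hsur u
      change Cfsg.quadFormPlus 4 F (ψ g *ᵥ _) = Cfsg.quadFormPlus 4 F _
      rw [hψ, ← rd_q h2, ← rd_q h2, rdZ_q]
  have hf : ∀ g, ((f g).1 : Matrix I8 I8 F) = ψ g := fun g => rfl
  have hext : ∀ A B : Matrix I8 I8 F,
      (∀ i, A *ᵥ (fun j => ((rdU j i : ℤ) : F)) = B *ᵥ fun j => ((rdU j i : ℤ) : F)) → A = B := fun A B h => by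
    have e1 : A * rdU.map (Int.castRingHom F) = B * rdU.map (Int.castRingHom F) := by
      ext k i; exact congrFun (h i) k
    have e2 : rdU.map (Int.castRingHom F) * rdU'.map (Int.castRingHom F) = 1 := by
      rw [← Matrix.map_mul, rd_UU, Matrix.map_one _ (map_zero _) (map_one _)]
    rw [← Matrix.mul_one A, ← e2, ← Matrix.mul_assoc, e1, Matrix.mul_assoc, e2, Matrix.mul_one]
  refine ⟨f, fun γ => ?_, fun g => ⟨fun h => ?_, ?_⟩⟩
  · set Γ : Matrix I8 I8 F := (γ.1 : Matrix I8 I8 F) with hΓ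
    have hγ : ∀ u, Cfsg.quadFormPlus 4 F (Γ *ᵥ u) = Cfsg.quadFormPlus 4 F u := fun u => γ.2 u u
    have hm : ∀ i, ∃ n, IsRoot (rdv n) ∧ (fun j => (n j : F)) = Γ *ᵥ fun j => ((rdU j i : ℤ) : F) := fun i => by
      have q1 : rdq (fun j => rdU j i) = 1 := by
        have := rdv_norm fun j => rdU j i
        rw [← rd_al_eq, root_dot (al_root i)] at this
        have : (rdq (fun j => rdU j i) : ℚ) = 1 := by linarith
        exact_mod_cast this
      have q2 := hγ fun j => ((rdU j i : ℤ) : F)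
      rw [← rd_q h2, q1] at q2
      obtain ⟨n, hn, hk⟩ := rd_nonsing (a := fun k => e.symm ((Γ *ᵥ fun j => ((rdU j i : ℤ) : F)) k)) (by
        apply e.injective
        simpa [Cfsg.quadFormPlus] using q2)
      exact ⟨n, hn, funext fun k => by rw [hc, hk, e.apply_symm_apply]⟩
    choose m hm hmc using hm
    have hpar : ∀ i j, ∃ d c : ℤ, rdv (m i) ⬝ᵥ rdv (m j) = d ∧ al i ⬝ᵥ al j = c ∧ (d : ZMod 2) = c := fun i j => by
      refine ⟨_, _, rdv_dot _ _, by rw [rd_al_eq i, rd_al_eq j]; exact rdv_dot _ _, hcj _ _ ?_⟩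
      have a1 : (fun k => (((m i + m j) k : ℤ) : F)) = (fun k => (m i k : F)) + fun k => (m j k : F) := by
        ext k; simp
      have a2 : (fun k => ((((fun k => rdU k i) + fun k => rdU k j) k : ℤ) : F)) =
          (fun k => (rdU k i : F)) + fun k => (rdU k j : F) := by
        ext k; simp
      push_cast
      simp only [rd_q h2]
      rw [a1, a2, hmc, hmc, ← mulVec_add, hγ, hγ, hγ]
    have hne : ∀ i j, i ≠ j → rdv (m i) ⬝ᵥ rdv (m j) = 1 ∨ rdv (m i) ⬝ᵥ rdv (m j) = 0 ∨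
        rdv (m i) ⬝ᵥ rdv (m j) = -1 := fun i j hij => by
      have key : (fun k => (m i k : F)) ≠ fun k => (m j k : F) := fun h => by
        rw [hmc, hmc] at h
        have := congrArg (fun v => ((γ.1⁻¹ : (Matrix I8 I8 F)ˣ) : Matrix I8 I8 F) *ᵥ v) h
        simp only [mulVec_mulVec, hΓ, Units.inv_mul, one_mulVec] at this
        obtain ⟨k, hk⟩ := rd_Une i j hij
        exact hk (hcj _ _ (congrFun this k))
      rcases root_cases (hm i) (hm j) with h | h | h | h | h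
      · exact absurd (by rw [rdv_inj h]) key
      · exact Or.inl h
      · exact Or.inr (Or.inl h)
      · exact Or.inr (Or.inr h)
      · rw [← rdv_neg] at h
        exact absurd (by rw [rdv_inj h, hneg]) key
    obtain ⟨m', hs, hG⟩ := rd_signs (m := m) (fun i => root_dot (hm i)) (fun i j h3 => by
      have hij : i ≠ j := by rintro rfl; simp [cox] at h3
      obtain ⟨d, c, e1, e2, e3⟩ := hpar i j
      rw [rd_al, if_neg hij, if_pos h3] at e2
      have e4 : c = -1 := by exact_mod_cast e2.symm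
      rcases hne i j hij with h | h | h
      · exact Or.inl h
      · have e5 : d = 0 := by rw [h] at e1; exact_mod_cast e1.symm
        rw [e4, e5] at e3
        exact absurd e3 (by decide)
      · exact Or.inr h) (fun i j hij h3 => by
      obtain ⟨d, c, e1, e2, e3⟩ := hpar i j
      rw [rd_al, if_neg hij, if_neg h3] at e2
      have e4 : c = 0 := by exact_mod_cast e2.symm
      rcases hne i j hij with h | h | h
      · have e5 : d = 1 := by rw [h] at e1; exact_mod_cast e1.symm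
        rw [e4, e5] at e3
        exact absurd e3 (by decide)
      · exact h
      · have e5 : d = -1 := by rw [h] at e1; exact_mod_cast e1.symm
        rw [e4, e5] at e3
        exact absurd e3 (by decide))
    obtain ⟨g, hg⟩ := rd_exists hG
    refine ⟨g, Subtype.ext (Units.ext (hext _ _ fun i => ?_))⟩
    have := hg i
    rw [rd_al_eq, rdZ_v] at this
    rw [hf, hψ, rdv_inj this, ← hΓ, ← hmc]
    rcases hs i with h | h <;> rw [h]
    exact hneg _
  · have h1 : ψ g = 1 := by rw [← hf, h]; rfl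
    have hs : ∀ i, mat g *ᵥ al i = al i ∨ mat g *ᵥ al i = -al i := fun i => by
      have r1 := root_dot (root_mat g (al_root i))
      have r2 := root_dot (al_root i)
      rw [rd_al_eq] at r1 r2 ⊢
      rw [rdZ_v] at r1 ⊢
      refine rd_same r1 r2 fun k => hcj _ _ ?_
      have := hψ g fun j => rdU j i
      rw [h1, one_mulVec] at this
      exact (congrFun this k).symm
    have st : ∀ s : ℚ, s * s = 1 → ∀ i j, cox i j = 3 → mat g *ᵥ al i = s • al i → mat g *ᵥ al j = s • al j := by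
      intro s hs2 i j h3 hi
      have hij : i ≠ j := by rintro rfl; simp [cox] at h3
      have hd := dot_mat g (al i) (al j)
      have ha := rd_al i j
      rw [if_neg hij, if_pos h3] at ha
      rcases hs j with hj | hj <;> rw [hi, hj] at hd <;> rw [hj]
      · rw [smul_dotProduct, ha, smul_eq_mul] at hd
        rw [show s = 1 by linarith, one_smul]
      · rw [smul_dotProduct, dotProduct_neg, ha, smul_eq_mul] at hd
        rw [show s = -1 by linarith, neg_one_smul]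
    have all : ∀ s : ℚ, s * s = 1 → mat g *ᵥ al 0 = s • al 0 → ∀ i, mat g *ᵥ al i = s • al i := by
      intro s hs2 a0 i
      have a1 := st s hs2 0 1 rfl a0
      have a2 := st s hs2 1 2 rfl a1
      have a3 := st s hs2 2 3 rfl a2
      have a4 := st s hs2 3 4 rfl a3
      have a5 := st s hs2 4 5 rfl a4
      have a6 := st s hs2 5 6 rfl a5
      have a7 := st s hs2 4 7 rfl a4
      fin_cases i
      exacts [a0, a1, a2, a3, a4, a5, a6, a7]
    rcases hs 0 with h0 | h0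
    · exact Or.inl (ext_al fun i => by rw [all 1 (by norm_num) (by rw [h0, one_smul]) i, mat_one, one_mulVec, one_smul])
    · exact Or.inr (ext_al fun i => by
        rw [all (-1) (by norm_num) (by rw [h0, neg_one_smul]) i, mat_z, neg_mulVec, one_mulVec, neg_one_smul])
  · rintro (rfl | rfl)
    · exact map_one f
    · refine Subtype.ext (Units.ext (hext _ _ fun i => ?_))
      have := rdZ_v z fun j => rdU j i
      rw [mat_z, neg_mulVec, one_mulVec, ← rdv_neg] at this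
      rw [hf, hψ, ← rdv_inj this, hneg]
      exact (one_mulVec _).symm

theorem rd_chain {p : W → Prop} (hm : ∀ a b, p a → p b → p (a * b)) (h1 : p 1)
    (h : ∀ i j, cox i j = 3 → p (sr i * sr j)) (i : Fin 8) : p (sr 0 * sr i) := by
  have st : ∀ i j, cox i j = 3 → p (sr 0 * sr i) → p (sr 0 * sr j) := fun i j h3 hi => by
    have := hm _ _ hi (h i j h3)
    rwa [mul_assoc, ← mul_assoc (sr i), sr, sr, rf_sq, one_mul] at this
  have a0 : p (sr 0 * sr 0) := by rw [sr, rf_sq]; exact h1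
  have a1 := st 0 1 rfl a0
  have a2 := st 1 2 rfl a1
  have a3 := st 2 3 rfl a2
  have a4 := st 3 4 rfl a3
  have a5 := st 4 5 rfl a4
  have a6 := st 5 6 rfl a5
  have a7 := st 4 7 rfl a4
  fin_cases i
  exacts [a0, a1, a2, a3, a4, a5, a6, a7]

theorem rd_le {K : Subgroup W} (h : ∀ i j, cox i j = 3 → sr i * sr j ∈ K) : L0 ≤ K := fun x hx => by
  have : Subgroup.closure (Set.range rr) ≤ K.subgroupOf L0 := by
    rw [Subgroup.closure_le]
    rintro _ ⟨i, rfl⟩
    exact rd_chain (p := fun a => a ∈ K) (fun _ _ => K.mul_mem) K.one_mem h i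
  rw [gen_L0] at this
  exact this (Subgroup.mem_top ⟨x, hx⟩)

/-- all reflections are conjugate and generate `W` (`gen`), so `W / W'` has order at most 2 -/
theorem commutator_W : commutator W = L0 := by
  refine le_antisymm ?_ (rd_le fun i j h3 => ?_)
  · rw [commutator_def, Subgroup.commutator_le]
    intro a _ b _
    rw [mem_L0, commutatorElement_def, mat_mul, mat_mul, mat_mul, det_mul, det_mul, det_mul, mat_inv, mat_inv,
      det_transpose, det_transpose]
    rcases det_cases a with h | h <;> rcases det_cases b with h' | h' <;> rw [h, h'] <;> norm_num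
  · have h1 := sr_cox i j
    rw [h3] at h1
    have hi : (sr i)⁻¹ = sr i := inv_eq_of_mul_eq_one_right (rf_sq _)
    have hj : (sr j)⁻¹ = sr j := inv_eq_of_mul_eq_one_right (rf_sq _)
    have e : sr i * sr j = ⁅sr i, sr j⁆⁻¹ := by
      rw [eq_inv_iff_mul_eq_one, commutatorElement_def, hi, hj, ← h1, pow_succ, pow_two]; group
    rw [e]
    exact Subgroup.inv_mem _ (Subgroup.commutator_mem_commutator (Subgroup.mem_top _) (Subgroup.mem_top _))

/-- an element of `W` commuting with `L0` modulo `z` commutes with the generators of order 3 (`sr i * sr j`, `cox i j = 3`),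
so with `L0` -/
theorem cent_mod {g : W} (h : ∀ x ∈ L0, g * x * g⁻¹ = x ∨ g * x * g⁻¹ = z * x) : g = 1 ∨ g = z := by
  refine cent_L0 fun x hx => ?_
  have := rd_le (K := Subgroup.centralizer {g}) (fun i j h3 => ?_) hx
  · exact (Subgroup.mem_centralizer_singleton_iff.1 this).symm
  · rw [Subgroup.mem_centralizer_singleton_iff]
    have h1 := sr_cox i j
    rw [h3] at h1
    rcases h _ (mul_mem_L0 (rf_not_mem (al_root i)) (rf_not_mem (al_root j))) with e | e
    · exact (mul_inv_eq_iff_eq_mul.1 e).symm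
    · have e2 := congrArg (fun y => y ^ 3) e
      change (g * (sr i * sr j) * g⁻¹) ^ 3 = (z * (sr i * sr j)) ^ 3 at e2
      rw [conj_pow, (z_comm _).mul_pow, h1, pow_succ, pow_two, z_mul_z] at e2
      exact absurd (by simpa using e2.symm) z_ne_one

theorem red_L0 {F : Type*} [Field F] [Fintype F] (hF : Fintype.card F = 2) :
    ∃ f : L0 →* Cfsg.POmega F (Cfsg.quadFormPlus 4 F), Function.Surjective f ∧
      ∀ g : L0, f g = 1 ↔ (g : W) = 1 ∨ (g : W) = z := by
  obtain ⟨f, hs, hk⟩ := red hF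
  have hmap : L0.map f = Cfsg.Omega F (Cfsg.quadFormPlus 4 F) := by
    rw [← commutator_W, commutator_def, Subgroup.map_commutator, Subgroup.map_top_of_surjective f hs]; rfl
  let f1 : L0 →* Cfsg.Omega F (Cfsg.quadFormPlus 4 F) :=
    (f.comp L0.subtype).codRestrict _ fun g => hmap ▸ Subgroup.mem_map_of_mem f g.2
  have h1 : Function.Surjective f1 := fun y => by
    obtain ⟨x, hx, e⟩ := (hmap.ge y.2 : y.1 ∈ L0.map f)
    exact ⟨⟨x, hx⟩, Subtype.ext e⟩
  refine ⟨(QuotientGroup.mk' _).comp f1, (QuotientGroup.mk'_surjective _).comp h1, fun g => ?_⟩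
  rw [MonoidHom.comp_apply, QuotientGroup.mk'_apply, QuotientGroup.eq_one_iff]
  constructor
  · intro hc
    refine cent_mod fun x hx => ?_
    have e := congrArg Subtype.val (Subgroup.mem_center_iff.1 hc (f1 ⟨x, hx⟩))
    change f x * f g = f g * f x at e
    have : f (g * x * (g : W)⁻¹ * x⁻¹) = 1 := by
      rw [map_mul, map_mul, map_mul, ← e, map_inv, map_inv]; group
    rcases (hk _).1 this with h | h
    · exact Or.inl (mul_inv_eq_one.1 h)
    · exact Or.inr (mul_inv_eq_iff_eq_mul.1 h)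
  · intro h
    have : f1 g = 1 := Subtype.ext ((hk g).2 h)
    rw [this]; exact Subgroup.one_mem _

end Cfsg.Lib.W8
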