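import Cfsg.Agent.Lib.W8.Diag

/-! The local hypotheses at the involution `z`, and elementary abelian subgroups of `C(z)`. -/

set_option autoImplicit false

namespace Cfsg.Lib.W8

open scoped Pointwise symmDiff

variable {G : Type*} [Group G]

/-- `x` acts on `j L0` as `w` -/
def Acts (j : W → G) (x : G) (w : W) : Prop := ∀ y ∈ L0, x * j y * x⁻¹ = j (w * y * w⁻¹)

/-- `k` centralizes `j L0` -/
def KK (j : W → G) (k : G) : Prop := ∀ y ∈ L0, Commute k (j y)

structure Hyp (j : W → G) (n : ℕ) : Prop where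
  mul : ∀ a ∈ L0, ∀ b ∈ L0, j (a * b) = j a * j b
  inj : ∀ a ∈ L0, ∀ b ∈ L0, j a = j b → a = b
  act : ∀ x, Commute x (j z) → ∃ w, Acts j x w
  inv : ∀ k, KK j k → k * k = 1 → k = 1 ∨ k = j z
  exp : ∀ k, KK j k → ∀ m : ℕ, k ^ 2 ^ m = 1 → k ^ 2 ^ (n + 1) = 1
  gen : ∀ k, KK j k → ∀ m : ℕ, k ^ 2 ^ m = 1 → ∃ r, KK j r ∧ Commute r k ∧ r ^ 2 ^ n = j z
  comm : ∀ P : Subgroup G, (∀ k ∈ P, KK j k) → IsPGroup 2 P → ∀ a ∈ P, ∀ b ∈ P, Commute a b

variable {j j' : W → G} {n : ℕ} {x x' k k' : G} {w w' u a b : W}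

theorem th_conj_mem (w : W) (ha : a ∈ L0) : w * a * w⁻¹ ∈ L0 := normal_L0.conj_mem a ha w

theorem th_zconj (w : W) : w * z * w⁻¹ = z := by rw [← (z_comm w).eq, mul_inv_cancel_right]

theorem th_z_mul_mem : z * a ∈ L0 ↔ a ∈ L0 := L0.mul_mem_cancel_left z_mem

theorem Acts.mul (h : Acts j x w) (h' : Acts j x' w') : Acts j (x * x') (w * w') := fun y hy => by
  have h1 := h _ (th_conj_mem w' hy)
  rw [← h' y hy] at h1
  calc x * x' * j y * (x * x')⁻¹ = x * (x' * j y * x'⁻¹) * x⁻¹ := by group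
    _ = _ := by rw [h1]; congr 1; group

theorem Acts.one : Acts j 1 1 := fun y _ => by simp

theorem Acts.inv (h : Acts j x w) : Acts j x⁻¹ w⁻¹ := fun y hy => by
  have h1 := h _ (th_conj_mem w⁻¹ hy)
  rw [show w * (w⁻¹ * y * w⁻¹⁻¹) * w⁻¹ = y by group] at h1
  rw [← h1]; group

theorem Acts.pow (h : Acts j x w) (m : ℕ) : Acts j (x ^ m) (w ^ m) := by
  induction m with
  | zero => rw [pow_zero, pow_zero]; exact Acts.one
  | succ m ih => rw [pow_succ, pow_succ]; exact ih.mul h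

theorem Acts.conj (h : Acts j x w) (h' : Acts j x' w') : Acts j (x * x' * x⁻¹) (w * w' * w⁻¹) :=
  (h.mul h').mul h.inv

theorem Acts.z_mul (h : Acts j x w) : Acts j x (z * w) := fun y hy => by
  rw [h y hy]; congr 1
  calc w * y * w⁻¹ = (w * y * w⁻¹) * z * z⁻¹ := by group
    _ = _ := by rw [← (z_comm _).eq]; group

theorem Acts.comm_z (h : Acts j x w) : Commute x (j z) := by
  have := h z z_mem
  rw [th_zconj, mul_inv_eq_iff_eq_mul] at this
  exact this

theorem KK.acts (h : KK j k) : Acts j k 1 := fun y hy => by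
  rw [(h y hy).eq]; simp

theorem Acts.kk (h : Acts j k 1) : KK j k := fun y hy => by
  have := h y hy
  rw [one_mul, inv_one, mul_one, mul_inv_eq_iff_eq_mul] at this
  exact this

theorem KK.mul (h : KK j k) (h' : KK j k') : KK j (k * k') := fun y hy => (h y hy).mul_left (h' y hy)
theorem KK.inv (h : KK j k) : KK j k⁻¹ := fun y hy => (h y hy).inv_left
theorem KK.pow (h : KK j k) (m : ℕ) : KK j (k ^ m) := fun y hy => (h y hy).pow_left m

/-- conjugate embedding -/
def cj (g : G) (j : W → G) : W → G := fun w => g * j w * g⁻¹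

theorem Acts.cj (g : G) (h : Acts j x w) : Acts (cj g j) (g * x * g⁻¹) w := fun y hy => by
  show _ = g * j (w * y * w⁻¹) * g⁻¹
  rw [← h y hy]; unfold W8.cj; group

theorem cj_cj (g : G) (j : W → G) : cj g⁻¹ (cj g j) = j := by
  funext w; unfold cj; group

theorem Acts.cj' {g : G} (h : Acts (W8.cj g j) x w) : Acts j (g⁻¹ * x * g) w := by
  have := h.cj g⁻¹
  rwa [cj_cj, inv_inv] at this

theorem KK.cj (g : G) (h : KK j k) : KK (cj g j) (g * k * g⁻¹) := (h.acts.cj g).kk
theorem KK.cj' {g : G} (h : KK (W8.cj g j) k) : KK j (g⁻¹ * k * g) := h.acts.cj'.kk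

namespace Hyp

theorem cj (H : Hyp j n) (g : G) : Hyp (cj g j) n where
  mul a ha b hb := by unfold W8.cj; rw [H.mul a ha b hb]; group
  inj a ha b hb h := H.inj a ha b hb (by unfold W8.cj at h; simpa using h)
  act x hx := by
    obtain ⟨w, hw⟩ := H.act (g⁻¹ * x * g) (by
      have := hx.map (MulAut.conj g⁻¹)
      simpa [W8.cj, mul_assoc] using this)
    exact ⟨w, by simpa [mul_assoc] using hw.cj g⟩
  inv k hk h := by
    rcases H.inv _ hk.cj' (by
      rw [show g⁻¹ * k * g * (g⁻¹ * k * g) = g⁻¹ * (k * k) * g by group, h]; group) with h1 | h1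
    · left
      calc k = g * (g⁻¹ * k * g) * g⁻¹ := by group
        _ = 1 := by rw [h1]; group
    · right
      show _ = g * j z * g⁻¹
      rw [← h1]; group
  exp k hk m h := by
    have h1 := H.exp _ hk.cj' m (by
      rw [← inv_inv g, inv_inv g⁻¹, conj_pow, h]; group)
    rw [← inv_inv g, inv_inv g⁻¹, conj_pow] at h1
    exact conj_eq_one_iff.1 h1
  gen k hk m h := by
    obtain ⟨r, h1, h2, h3⟩ := H.gen _ hk.cj' m (by
      rw [← inv_inv g, inv_inv g⁻¹, conj_pow, h]; group)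
    refine ⟨g * r * g⁻¹, h1.cj g, ?_, by rw [conj_pow, h3]; rfl⟩
    have := h2.map (MulAut.conj g)
    simpa [mul_assoc] using this
  comm P hP h2 a ha b hb := by
    have := H.comm (P.comap (MulAut.conj g).toMonoidHom) (fun k hk => by
      have := (hP _ hk).cj'
      simpa [mul_assoc] using this) (h2.comap_of_injective _ (MulAut.conj g).injective)
      (g⁻¹ * a * g) (by simpa [mul_assoc] using ha) (g⁻¹ * b * g) (by simpa [mul_assoc] using hb)
    have h3 := this.map (MulAut.conj g)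
    simpa [mul_assoc] using h3

variable (H : Hyp j n)
include H

theorem one : j 1 = 1 := by
  have := H.mul 1 L0.one_mem 1 L0.one_mem
  rw [one_mul] at this
  exact left_eq_mul.1 this

theorem inv' (ha : a ∈ L0) : j a⁻¹ = (j a)⁻¹ :=
  eq_inv_of_mul_eq_one_left (by rw [← H.mul _ (L0.inv_mem ha) _ ha, inv_mul_cancel, H.one])

theorem pow (ha : a ∈ L0) (m : ℕ) : j (a ^ m) = j a ^ m := by
  induction m with
  | zero => rw [pow_zero, pow_zero, H.one]
  | succ m ih => rw [pow_succ, pow_succ, H.mul _ (L0.pow_mem ha m) _ ha, ih]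

theorem conj (ha : a ∈ L0) (hb : b ∈ L0) : j (a * b * a⁻¹) = j a * j b * (j a)⁻¹ := by
  rw [H.mul _ (L0.mul_mem ha hb) _ (L0.inv_mem ha), H.mul _ ha _ hb, H.inv' ha]

theorem acts (ha : a ∈ L0) : Acts j (j a) a := fun _ hy => (H.conj ha hy).symm

theorem zsq : j z * j z = 1 := by rw [← H.mul _ z_mem _ z_mem, z_mul_z, H.one]

theorem zne : j z ≠ 1 := fun h => z_ne_one (H.inj _ z_mem _ L0.one_mem (h.trans H.one.symm))

theorem zkk : KK j (j z) := fun y hy => by
  show j z * j y = j y * j z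
  rw [← H.mul _ z_mem _ hy, ← H.mul _ hy _ z_mem, (z_comm y).eq]

theorem uniq (h : Acts j x w) (h' : Acts j x w') : w' = w ∨ w' = z * w := by
  have h1 : ∀ y ∈ L0, Commute (w⁻¹ * w') y := fun y hy => by
    have h2 := H.inj _ (th_conj_mem w hy) _ (th_conj_mem w' hy) ((h y hy).symm.trans (h' y hy))
    calc w⁻¹ * w' * y = w⁻¹ * (w' * y * w'⁻¹) * w' := by group
      _ = y * (w⁻¹ * w') := by rw [← h2]; group
  rcases cent_L0 h1 with h2 | h2
  · left; rw [inv_mul_eq_one] at h2; exact h2.symm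
  · right; rw [inv_mul_eq_iff_eq_mul] at h2; rw [h2, (z_comm w).eq]

theorem uniq_mem (h : Acts j x w) (h' : Acts j x w') (hw : w ∈ L0) : w' ∈ L0 := by
  rcases H.uniq h h' with rfl | rfl
  · exact hw
  · exact th_z_mul_mem.2 hw

theorem inner (h : Acts j x w) (hw : w ∈ L0) : KK j (x * (j w)⁻¹) := by
  have := h.mul (H.acts hw).inv
  rw [mul_inv_cancel] at this
  exact this.kk

theorem sq_cases (h : Acts j x w) (hx : KK j (x * x)) : w * w = 1 ∨ w * w = z := by
  have := H.uniq hx.acts (h.mul h)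
  rwa [mul_one] at this

omit H in
theorem kk_one : KK j (1 : G) := fun _ _ => Commute.one_left _

theorem out_sq (h : Acts j x u) (hu : u ∉ L0) (hx : x * x = 1) : u * u = 1 :=
  (H.sq_cases h (hx ▸ Hyp.kk_one)).resolve_right (by rw [← sq]; exact pow_ne_z hu 2)

/-- an outer involution extends `j` to `W` -/
theorem ext (h : Acts j x u) (hu : u ∉ L0) (hx : x * x = 1) :
    ∃ J : W →* G, Function.Injective J ∧ (∀ a ∈ L0, J a = j a) ∧ J u = x ∧ ∀ w, Acts j (J w) w := by
  classical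
  have u2 := H.out_sq h hu hx
  have ui : u⁻¹ = u := inv_eq_of_mul_eq_one_right u2
  have xi : x⁻¹ = x := inv_eq_of_mul_eq_one_right hx
  have hc : ∀ a ∈ L0, x * j a = j (u * a * u) * x := fun a ha => by
    have := h a ha
    rw [ui] at this
    rw [← this, inv_mul_cancel_right]
  have hm : ∀ a ∈ L0, u * a * u ∈ L0 := fun a ha => by
    have := th_conj_mem u ha
    rwa [ui] at this
  let J : W →* G := MonoidHom.mk' (fun w => if w ∈ L0 then j w else j (w * u) * x) (by
    intro a b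
    by_cases ha : a ∈ L0 <;> by_cases hb : b ∈ L0
    · simp only [ha, hb, L0.mul_mem ha hb, if_true]; exact H.mul a ha b hb
    · have hab : a * b ∉ L0 := by rwa [L0.mul_mem_cancel_left ha]
      simp only [ha, hb, hab, if_true, if_false]
      rw [mul_assoc a, H.mul a ha _ (mul_mem_L0 hb hu), mul_assoc]
    · have hab : a * b ∉ L0 := by rwa [L0.mul_mem_cancel_right hb]
      simp only [ha, hb, hab, if_true, if_false]
      have e : a * b * u = a * u * (u * b * u) := by
        calc a * b * u = a * (u * u) * b * u := by rw [u2, mul_one]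
          _ = _ := by simp only [mul_assoc]
      rw [e, H.mul _ (mul_mem_L0 ha hu) _ (hm b hb), mul_assoc (j (a * u)), mul_assoc (j (a * u)), hc b hb]
    · simp only [ha, hb, mul_mem_L0 ha hb, if_true, if_false]
      have hbu := mul_mem_L0 hb hu
      have e : a * b = a * u * (u * (b * u) * u) := by
        calc a * b = a * (u * u) * b * (u * u) := by rw [u2, mul_one, mul_one]
          _ = _ := by simp only [mul_assoc]
      rw [e, H.mul _ (mul_mem_L0 ha hu) _ (hm _ hbu), mul_assoc (j (a * u)), ← mul_assoc x, hc _ hbu,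
        mul_assoc (j (u * (b * u) * u)), hx, mul_one])
  have J1 : ∀ a ∈ L0, J a = j a := fun a ha => if_pos ha
  have J2 : ∀ a, a ∉ L0 → J a = j (a * u) * x := fun a ha => if_neg ha
  have J3 : ∀ w, Acts j (J w) w := fun w => by
    by_cases hw : w ∈ L0
    · rw [J1 w hw]; exact H.acts hw
    · have := (H.acts (mul_mem_L0 hw hu)).mul h
      rwa [mul_assoc w, u2, mul_one, ← J2 w hw] at this
  refine ⟨J, (injective_iff_map_eq_one J).2 fun a ha => ?_, J1, by rw [J2 u hu, u2, H.one, one_mul], J3⟩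
  have h1 : a ∈ L0 := H.uniq_mem Acts.one (ha ▸ J3 a) L0.one_mem
  exact H.inj a h1 1 L0.one_mem (by rw [← J1 a h1, ha, H.one])

end Hyp

/-- the subsets of even size, or all subsets -/
structure Code (P : F8 → Prop) : Prop where
  even : ∀ c : F8, Even c.card → P c
  sd : ∀ c d, P c → P d → P (c ∆ d)

/-- an elementary abelian subgroup of `C(z)` -/
structure EA (j : W → G) (P : F8 → Prop) (s : F8 → G) : Prop where
  code : Code P
  mul : ∀ c d, P c → P d → s c * s d = s (c ∆ d)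
  inj : ∀ c d, P c → P d → s c = s d → c = d
  comm : ∀ c, P c → Commute (s c) (j z)

variable {P : F8 → Prop} {s : F8 → G} {c d : F8}

theorem EA.pe (E : EA j P s) : P ∅ := E.code.even _ (by simp)

theorem EA.empty (E : EA j P s) : s ∅ = 1 := by
  have := E.mul ∅ ∅ E.pe E.pe
  rw [symmDiff_self, Finset.bot_eq_empty] at this
  exact mul_eq_left.1 this

theorem EA.sq (E : EA j P s) (hc : P c) : s c * s c = 1 := by
  rw [E.mul c c hc hc, symmDiff_self, Finset.bot_eq_empty, E.empty]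

theorem EA.cm (E : EA j P s) (hc : P c) (hd : P d) : Commute (s c) (s d) := by
  show _ = _
  rw [E.mul c d hc hd, E.mul d c hd hc, symmDiff_comm]

theorem th_card_even : (Finset.univ.filter fun c : F8 => Even c.card).card = 128 := by decide +kernel

/-- inner elements of `s` lie in `j L0` -/
theorem Hyp.ea_inner (H : Hyp j n) (E : EA j P s) (hc : P c) (h : Acts j (s c) a) (ha : a ∈ L0) :
    ∃ b ∈ L0, s c = j b := by
  classical
  let B : Subgroup W :=
    { carrier := {b | b ∈ L0 ∧ ∃ c, P c ∧ Acts j (s c) b}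
      one_mem' := ⟨L0.one_mem, ∅, E.pe, E.empty ▸ Acts.one⟩
      mul_mem' := by
        rintro b b' ⟨hb, c, hc, h1⟩ ⟨hb', c', hc', h2⟩
        exact ⟨L0.mul_mem hb hb', c ∆ c', E.code.sd _ _ hc hc', E.mul _ _ hc hc' ▸ h1.mul h2⟩
      inv_mem' := by
        rintro b ⟨hb, c, hc, h1⟩
        exact ⟨L0.inv_mem hb, c, hc, inv_eq_of_mul_eq_one_right (E.sq hc) ▸ h1.inv⟩ }
  have hB2 : ∀ b ∈ B, b * b = 1 ∨ b * b = z := by
    rintro b ⟨-, c, hc, h1⟩
    exact H.sq_cases h1 (E.sq hc ▸ Hyp.kk_one)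
  have hk2 : ∀ c, P c → ∀ b ∈ L0, Acts j (s c) b →
      s c * (j b)⁻¹ * (s c * (j b)⁻¹) = (j (b * b))⁻¹ := fun c hc b hb h1 => by
    have h2 := (H.inner h1 hb b hb).eq
    have h3 : Commute (s c) (j b) := by
      show _ = _
      calc s c * j b = s c * (j b)⁻¹ * j b * j b := by group
        _ = _ := by rw [h2]; group
    rw [H.mul b hb b hb, mul_assoc, ← mul_assoc (j b)⁻¹, ← h3.inv_right.eq, ← mul_assoc, ← mul_assoc,
      E.sq hc]
    group
  let R : Subgroup G :=
    { carrier := {k | ∃ c, P c ∧ ∃ b ∈ L0, Acts j (s c) b ∧ k = s c * (j b)⁻¹}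
      one_mem' := ⟨∅, E.pe, 1, L0.one_mem, E.empty ▸ Acts.one, by rw [E.empty, H.one]; simp⟩
      mul_mem' := by
        rintro _ _ ⟨c, hc, b, hb, h1, rfl⟩ ⟨c', hc', b', hb', h2, rfl⟩
        refine ⟨c ∆ c', E.code.sd _ _ hc hc', b * b', L0.mul_mem hb hb',
          E.mul _ _ hc hc' ▸ h1.mul h2, ?_⟩
        rw [mul_assoc, ← (H.inner h2 hb' b hb).inv_right.eq, ← E.mul _ _ hc hc', H.mul _ hb _ hb']
        group
      inv_mem' := by
        rintro _ ⟨c, hc, b, hb, h1, rfl⟩
        have h2 := inv_eq_of_mul_eq_one_right (E.sq hc)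
        refine ⟨c, hc, b⁻¹, L0.inv_mem hb, h2 ▸ h1.inv, ?_⟩
        have h3 := (H.inner h1 hb b hb).inv_left.inv_right.eq
        rw [H.inv' hb]
        calc (s c * (j b)⁻¹)⁻¹ = (s c * (j b)⁻¹)⁻¹ * (j b)⁻¹ * j b := by group
          _ = (s c)⁻¹ * j b := by rw [h3]; group
          _ = _ := by rw [h2, inv_inv] }
  have hR : IsPGroup 2 R := by
    rintro ⟨_, c, hc, b, hb, h1, rfl⟩
    refine ⟨2, Subtype.ext ?_⟩
    show (s c * (j b)⁻¹) ^ (2 * 2) = 1
    rw [pow_mul, sq, sq, hk2 c hc b hb h1]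
    rcases hB2 b ⟨hb, c, hc, h1⟩ with h2 | h2 <;> rw [h2]
    · rw [H.one]; simp
    · rw [← mul_inv_rev, H.zsq, inv_one]
  have hRK : ∀ k ∈ R, KK j k := by
    rintro _ ⟨c, hc, b, hb, h1, rfl⟩
    exact H.inner h1 hb
  have hBc : ∀ a ∈ B, ∀ b ∈ B, Commute a b := by
    rintro b ⟨hb, c, hc, h1⟩ b' ⟨hb', c', hc', h2⟩
    have h3 := H.comm R hRK hR _ ⟨c, hc, b, hb, h1, rfl⟩ _ ⟨c', hc', b', hb', h2, rfl⟩
    have k1 := H.inner h1 hb
    have k2 := H.inner h2 hb'
    have h4 := E.cm hc hc'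
    generalize hk : s c * (j b)⁻¹ = k at h3 k1
    generalize hk' : s c' * (j b')⁻¹ = k' at h3 k2
    rw [mul_inv_eq_iff_eq_mul] at hk hk'
    rw [hk, hk'] at h4
    have h5 : Commute (j b) (k' * j b') := by
      have := (h3.mul_right (k1 b' hb')).inv_left.mul_left h4
      rwa [inv_mul_cancel_left] at this
    have h6 : Commute (j b) (j b') := by
      have := (k2 b hb).symm.inv_right.mul_right h5
      rwa [inv_mul_cancel_left] at this
    exact H.inj _ (L0.mul_mem hb hb') _ (L0.mul_mem hb' hb) (by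
      rw [H.mul _ hb _ hb', H.mul _ hb' _ hb]; exact h6.eq)
  have hcard : 64 ≤ Nat.card B := by
    choose! a ha using fun c (hc : P c) => H.act (s c) (E.comm c hc)
    let C0 := Finset.univ.filter fun c : F8 => Even c.card ∧ a c ∈ L0
    let C1 := Finset.univ.filter fun c : F8 => Even c.card ∧ a c ∉ L0
    have h1 : C0.card + C1.card = 128 := by
      rw [← th_card_even, ← Finset.card_filter_add_card_filter_not (s := Finset.univ.filter fun c : F8 =>
        Even c.card) (fun c => a c ∈ L0), Finset.filter_filter, Finset.filter_filter]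
    have h2 : C1.card ≤ C0.card := by
      rcases C1.eq_empty_or_nonempty with h | ⟨c1, h⟩
      · rw [h]; simp
      · simp only [C1, Finset.mem_filter, Finset.mem_univ, true_and] at h
        refine Finset.card_le_card_of_injOn (fun c => c ∆ c1) (fun c hc => ?_)
          (fun c _ d _ e => symmDiff_left_injective c1 e)
        simp only [C0, C1, Finset.coe_filter, Finset.mem_univ, true_and, Set.mem_ofPred_eq] at hc ⊢
        have p1 := E.code.even _ hc.1
        have p2 := E.code.even _ h.1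
        exact ⟨even_symmDiff hc.1 h.1, H.uniq_mem (E.mul _ _ p1 p2 ▸ (ha _ p1).mul (ha _ p2))
          (ha _ (E.code.sd _ _ p1 p2)) (mul_mem_L0 hc.2 h.2)⟩
    let f : F8 × Bool → W := fun p => if p.2 then z * a p.1 else a p.1
    have hf : ∀ p ∈ C0 ×ˢ (Finset.univ : Finset Bool), P p.1 ∧ Acts j (s p.1) (f p) ∧ f p ∈ L0 := by
      rintro ⟨c, e⟩ hp
      simp only [C0, Finset.mem_product, Finset.mem_filter, Finset.mem_univ, true_and, and_true] at hp
      have p1 := E.code.even _ hp.1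
      cases e
      · exact ⟨p1, ha _ p1, hp.2⟩
      · exact ⟨p1, (ha _ p1).z_mul, th_z_mul_mem.2 hp.2⟩
    have hz : ∀ c e e', f (c, e) = f (c, e') → e = e' := by
      intro c e e' h
      cases e <;> cases e' <;> simp only [f, if_true, if_false, Bool.false_eq_true] at h
      · rfl
      · exact absurd (right_eq_mul.1 h) z_ne_one
      · exact absurd (right_eq_mul.1 h.symm) z_ne_one
      · rfl
    have h3 := Finset.card_le_mul_card_image (f := f) (C0 ×ˢ (Finset.univ : Finset Bool)) 2 (by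
      intro b _
      by_contra h3
      obtain ⟨p, hp, q, hq, r, hr, h4, h5, h6⟩ := Finset.two_lt_card.1 (not_le.1 h3)
      rw [Finset.mem_filter] at hp hq hr
      have key : ∀ p ∈ C0 ×ˢ (Finset.univ : Finset Bool), ∀ q ∈ C0 ×ˢ (Finset.univ : Finset Bool),
          f p = f q → p ≠ q → s p.1 * s q.1 = j z := by
        rintro ⟨c, e⟩ hp ⟨c', e'⟩ hq h7 h8
        obtain ⟨p1, p2, -⟩ := hf _ hp
        obtain ⟨q1, q2, -⟩ := hf _ hq
        have h9 := p2.mul q2.inv
        rw [h7, mul_inv_cancel, inv_eq_of_mul_eq_one_right (E.sq q1)] at h9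
        refine (H.inv _ h9.kk (by rw [E.mul _ _ p1 q1]; exact E.sq (E.code.sd _ _ p1 q1))).resolve_left
          fun h10 => h8 ?_
        have h11 : c = c' := E.inj _ _ p1 q1 (mul_right_cancel (h10.trans (E.sq q1).symm))
        subst h11
        rw [hz c e e' h7]
      have h7 := key p hp.1 q hq.1 (hp.2.trans hq.2.symm) h4
      have h8 := key p hp.1 r hr.1 (hp.2.trans hr.2.symm) h5
      have h9 := key q hq.1 r hr.1 (hq.2.trans hr.2.symm) h6
      rw [mul_left_cancel (h7.trans h8.symm), E.sq (hf _ hr.1).1] at h9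
      exact H.zne h9.symm)
    rw [Finset.card_product, Finset.card_univ, Fintype.card_bool] at h3
    have h4 : ((C0 ×ˢ (Finset.univ : Finset Bool)).image f).card ≤ Nat.card B := by
      rw [← Set.ncard_coe_finset, show Nat.card B = (B : Set W).ncard from Nat.card_coe_set_eq _]
      refine Set.ncard_le_ncard (fun b hb => ?_) (Set.toFinite _)
      obtain ⟨p, hp, rfl⟩ := Finset.mem_image.1 (Finset.mem_coe.1 hb)
      obtain ⟨p1, p2, p3⟩ := hf p hp
      exact ⟨p3, p.1, p1, p2⟩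
    omega
  have h1 : a * a = 1 := (hB2 a ⟨ha, c, hc, h⟩).resolve_right fun h1 => by
    have := w6 B hBc hB2 ⟨ha, c, hc, h⟩ h1
    omega
  rcases H.inv _ (H.inner h ha) (by rw [hk2 c hc a ha h, h1, H.one, inv_one]) with h2 | h2
  · exact ⟨a, ha, mul_inv_eq_one.1 h2⟩
  · exact ⟨z * a, th_z_mul_mem.2 ha, by rw [H.mul _ z_mem _ ha, ← h2, inv_mul_cancel_right]⟩

/-- `θ` describes the action of `s` on `j L0` -/
structure Th (j : W → G) (P : F8 → Prop) (s : F8 → G) (θ : F8 → W) : Prop where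
  mul : ∀ c d, P c → P d → θ c * θ d = θ (c ∆ d)
  acts : ∀ c, P c → Acts j (s c) (θ c)
  inn : ∀ c, P c → θ c ∈ L0 → s c = j (θ c)

theorem Hyp.theta (H : Hyp j n) (E : EA j P s) : ∃ θ, Th j P s θ := by
  by_cases h : ∃ c, P c ∧ ∃ u, u ∉ L0 ∧ Acts j (s c) u
  · obtain ⟨c1, p1, u, hu, h1⟩ := h
    obtain ⟨J, J0, J1, J2, J3⟩ := H.ext h1 hu (E.sq p1)
    have h2 : ∀ c, P c → ∃ w, s c = J w := fun c hc => by
      obtain ⟨a, ha⟩ := H.act _ (E.comm c hc)
      by_cases h3 : a ∈ L0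
      · obtain ⟨b, hb, h4⟩ := H.ea_inner E hc ha h3
        exact ⟨b, by rw [J1 b hb, h4]⟩
      · obtain ⟨b, hb, h4⟩ := H.ea_inner E (E.code.sd _ _ hc p1) (E.mul _ _ hc p1 ▸ ha.mul h1)
          (mul_mem_L0 h3 hu)
        exact ⟨b * u, by rw [map_mul, J1 b hb, J2, ← h4, ← E.mul _ _ hc p1, mul_assoc, E.sq p1, mul_one]⟩
    choose! θ hθ using h2
    exact ⟨θ, fun c d hc hd => J0 (by
      rw [map_mul, ← hθ c hc, ← hθ d hd, ← hθ _ (E.code.sd _ _ hc hd), E.mul c d hc hd]),
      fun c hc => hθ c hc ▸ J3 _, fun c hc h3 => by rw [hθ c hc, J1 _ h3]⟩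
  · have h2 : ∀ c, P c → ∃ b, b ∈ L0 ∧ s c = j b := fun c hc => by
      obtain ⟨a, ha⟩ := H.act _ (E.comm c hc)
      exact H.ea_inner E hc ha (by_contra fun h3 => h ⟨c, hc, a, h3, ha⟩)
    choose! θ h3 h4 using h2
    exact ⟨θ, fun c d hc hd => H.inj _ (L0.mul_mem (h3 c hc) (h3 d hd)) _ (h3 _ (E.code.sd _ _ hc hd)) (by
      rw [H.mul _ (h3 c hc) _ (h3 d hd), ← h4 c hc, ← h4 d hd, ← h4 _ (E.code.sd _ _ hc hd), E.mul c d hc hd]),
      fun c hc => h4 c hc ▸ H.acts (h3 c hc), fun c hc _ => h4 c hc⟩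

variable {θ : F8 → W}

theorem Th.inj (T : Th j P s θ) (E : EA j P s) (H : Hyp j n) (hc : P c) (hd : P d) (h : θ c = θ d) :
    c = d := by
  have h1 : θ (c ∆ d) = 1 := by
    have h2 := T.mul ∅ ∅ E.pe E.pe
    rw [symmDiff_self, Finset.bot_eq_empty] at h2
    rw [← T.mul c d hc hd, h, T.mul d d hd hd, symmDiff_self, Finset.bot_eq_empty, mul_eq_left.1 h2]
  have h2 := T.inn _ (E.code.sd _ _ hc hd) (h1 ▸ L0.one_mem)
  rw [h1, H.one, ← E.mul c d hc hd] at h2
  exact E.inj c d hc hd (mul_right_cancel (h2.trans (E.sq hd).symm))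

theorem Th.top (T : Th j P s θ) (H : Hyp j n) (hc : P c) (h : s c = j z) : θ c = z := by
  have h1 : θ c ∈ L0 := H.uniq_mem (H.acts z_mem) (h ▸ T.acts c hc) z_mem
  exact H.inj _ h1 _ z_mem ((T.inn c hc h1).symm.trans h)

theorem Th.conj (T : Th j P s θ) (E : EA j P s) (H : Hyp j n) (hc : P c) (hd : P d) (ha : a ∈ L0)
    (h : a * θ c * a⁻¹ = θ d) : j a * s c * (j a)⁻¹ = s d := by
  have h0 : θ c * θ c = 1 := by
    have h2 := T.mul ∅ ∅ E.pe E.pe
    rw [symmDiff_self, Finset.bot_eq_empty] at h2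
    rw [T.mul c c hc hc, symmDiff_self, Finset.bot_eq_empty, mul_eq_left.1 h2]
  have h1 : θ (d ∆ c) = a * (θ c * a⁻¹ * (θ c)⁻¹) := by
    rw [← T.mul d c hd hc, ← h, inv_eq_of_mul_eq_one_right h0]; group
  have h2 : θ c * a⁻¹ * (θ c)⁻¹ ∈ L0 := th_conj_mem _ (L0.inv_mem ha)
  have h3 := T.inn _ (E.code.sd _ _ hd hc) (h1 ▸ L0.mul_mem ha h2)
  rw [h1, H.mul _ ha _ h2, ← T.acts c hc _ (L0.inv_mem ha), H.inv' ha, ← E.mul d c hd hc,
    inv_eq_of_mul_eq_one_right (E.sq hc), ← mul_assoc, ← mul_assoc] at h3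
  exact (mul_right_cancel h3).symm

end Cfsg.Lib.W8
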